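import Mathlib
import Cfsg.Agent.Lib.FGS.Count
import Cfsg.Agent.Lib.FGS.SubnormalIn
import Cfsg.Agent.Lib.Core.PCore
import Cfsg.Agent.Lib.Core.CoprimeBasic
import Cfsg.Agent.Lib.LocEven.Basic
import Cfsg.Agent.Lib.PGroup.Basic

/-! Euler characteristic of finite posets by weights, and Casolo's count of the subnormalizer of a
`p`-subgroup. -/

set_option autoImplicit false

namespace H80

open Subgroup Cfsg H68

section Poset

open Classical

variable {α : Type*} [PartialOrder α]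

/-- Euler characteristic of (the order complex of) a finite poset. -/
noncomputable def chi (A : Finset α) : ℤ :=
  ∑ x ∈ A.attach, (1 - chi (A.filter (x.1 < ·)))
termination_by A.card
decreasing_by
  exact Finset.card_lt_card (Finset.filter_ssubset.2 ⟨x.1, x.2, lt_irrefl _⟩)

theorem chi_eq_sum (A : Finset α) : chi A = ∑ x ∈ A, (1 - chi (A.filter (x < ·))) := by
  rw [chi, Finset.sum_attach A (fun x => 1 - chi (A.filter (x < ·)))]

theorem chi_empty : chi (∅ : Finset α) = 0 := by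
  rw [chi_eq_sum]; simp

theorem filter_le_eq_insert {A : Finset α} {x : α} (hx : x ∈ A) :
    A.filter (x ≤ ·) = insert x (A.filter (x < ·)) := by
  ext y
  simp only [Finset.mem_filter, Finset.mem_insert]
  constructor
  · rintro ⟨h1, h2⟩
    exact h2.eq_or_lt.imp Eq.symm fun h => ⟨h1, h⟩
  · rintro (rfl | ⟨h1, h2⟩)
    exacts [⟨hx, le_rfl⟩, ⟨h1, h2.le⟩]

theorem sum_weight {A : Finset α} {x : α} (hx : x ∈ A) :
    ∑ y ∈ A.filter (x ≤ ·), (1 - chi (A.filter (y < ·))) = 1 := by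
  rw [filter_le_eq_insert hx, Finset.sum_insert (by simp)]
  conv_lhs => rw [chi_eq_sum]
  have : ∑ y ∈ A.filter (x < ·), (1 - chi ((A.filter (x < ·)).filter (y < ·))) =
      ∑ y ∈ A.filter (x < ·), (1 - chi (A.filter (y < ·))) := by
    refine Finset.sum_congr rfl fun y hy => ?_
    congr 2
    ext z
    simp only [Finset.mem_filter] at hy ⊢
    exact ⟨fun h => ⟨h.1.1, h.2⟩, fun h => ⟨⟨h.1, hy.2.trans h.2⟩, h.2⟩⟩
  rw [this]; ring

theorem chi_eq_of_weight (A : Finset α) (c : α → ℤ)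
    (hc : ∀ x ∈ A, ∑ y ∈ A.filter (x ≤ ·), c y = 1) : chi A = ∑ x ∈ A, c x := by
  induction A using Finset.strongInduction with
  | H A ih =>
    rw [chi_eq_sum]
    refine Finset.sum_congr rfl fun x hx => ?_
    rw [ih (A.filter (x < ·)) (Finset.filter_ssubset.2 ⟨x, hx, lt_irrefl _⟩)]
    · have := hc x hx
      rw [filter_le_eq_insert hx, Finset.sum_insert (by simp)] at this
      linarith
    · intro y hy
      rw [← hc y (Finset.mem_filter.1 hy).1]
      congr 1
      ext z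
      simp only [Finset.mem_filter] at hy ⊢
      exact ⟨fun h => ⟨h.1.1, h.2⟩, fun h => ⟨⟨h.1, hy.2.trans_le h.2⟩, h.2⟩⟩

theorem chi_of_min {A : Finset α} {x : α} (hx : x ∈ A) (h : ∀ y ∈ A, x ≤ y) : chi A = 1 := by
  rw [chi_eq_sum]
  conv_rhs => rw [← sum_weight hx, Finset.filter_true_of_mem h]

theorem chi_eq_of_interior (A B : Finset α) (f : α → α) (hBA : B ⊆ A) (hf : ∀ y ∈ A, f y ∈ B)
    (h : ∀ b ∈ B, ∀ y ∈ A, b ≤ f y ↔ b ≤ y) : chi A = chi B := by
  rw [chi_eq_of_weight B (fun b => ∑ y ∈ A.filter (f · = b), (1 - chi (A.filter (y < ·)))),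
    Finset.sum_fiberwise_of_maps_to hf, chi_eq_sum]
  intro b hb
  refine (Finset.sum_fiberwise_eq_sum_filter A (B.filter (b ≤ ·)) f
    (fun y => 1 - chi (A.filter (y < ·)))).trans (Eq.trans ?_ (sum_weight (hBA hb)))
  refine Finset.sum_congr ?_ fun _ _ => rfl
  ext y
  simp only [Finset.mem_filter]
  exact ⟨fun h1 => ⟨h1.1, (h b hb y h1.1).1 h1.2.2⟩,
    fun h1 => ⟨h1.1, hf y h1.1, (h b hb y h1.1).2 h1.2⟩⟩

end Poset

variable {G : Type*} [Group G] {p : ℕ}

theorem ncard_fiber_cj (L T : Subgroup G) {l : G} (hl : l ∈ L) :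
    {x ∈ (L : Set G) | cj x T = cj l T}.ncard = Nat.card (L ⊓ normalizer (T : Set G) : Subgroup G) := by
  rw [← ncard_coe_subgroup, ← ncard_image_mul_left l
    ((L ⊓ normalizer (T : Set G) : Subgroup G) : Set G)]
  congr 1
  ext x
  constructor
  · rintro ⟨h1, h2⟩
    refine ⟨l⁻¹ * x, mem_inf.2 ⟨mul_mem (inv_mem hl) h1, ?_⟩, by simp⟩
    rw [mem_normalizer_iff_cj, cj_mul, h2, cj_inv_cj]
  · rintro ⟨y, ⟨h1, h2⟩, rfl⟩
    exact ⟨L.mul_mem hl h1, by rw [cj_mul, cj_eq_of_mem_normalizer h2]⟩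

theorem card_inf_normalizer_cj (L T : Subgroup G) {l : G} (hl : l ∈ L) :
    Nat.card (L ⊓ normalizer (cj l T : Set G) : Subgroup G) =
      Nat.card (L ⊓ normalizer (T : Set G) : Subgroup G) := by
  rw [← card_cj l (L ⊓ normalizer (T : Set G)), cj_inf, cj_eq_of_mem hl, cj_normalizer]

theorem ncard_sylowIn_mul [Finite G] [Fact p.Prime] {L T : Subgroup G} (hT : SylowIn p T L) :
    Nat.card (L ⊓ normalizer (T : Set G) : Subgroup G) * {S | SylowIn p S L}.ncard =
      Nat.card L := by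
  rw [← ncard_coe_subgroup L, ncard_eq_mul_of_fiber (L : Set G) {S | SylowIn p S L}
    (fun x => cj x T) (fun x hx => hT.cj_of_mem hx)]
  intro S hS
  obtain ⟨l, hl, rfl⟩ := hT.exists_cj_eq hS
  exact ncard_fiber_cj L T hl

/-- the number of `x` with `H^x ≤ P`, counted by Sylow subgroups over `H` -/
theorem ncard_cj_le_sylow [Finite G] [Fact p.Prime] (H : Subgroup G) (P : Sylow p G) :
    {x : G | cj x H ≤ P}.ncard = Nat.card (normalizer ((P : Subgroup G) : Set G)) *
      {S | SylowIn p S ⊤ ∧ H ≤ S}.ncard := by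
  have h1 : {x : G | cj x H ≤ P} = (fun x => x⁻¹) '' {x : G | H ≤ cj x P} := by
    ext x
    simp only [Set.mem_ofPred_eq, Set.mem_image]
    exact ⟨fun h => ⟨x⁻¹, cj_le_iff.1 h, inv_inv x⟩, by
      rintro ⟨y, h, rfl⟩; exact le_cj_iff.1 h⟩
  rw [h1, Set.ncard_image_of_injective _ inv_injective]
  refine ncard_eq_mul_of_fiber _ _ (fun x => cj x (P : Subgroup G))
    (fun x hx => by exact ⟨(sylowIn_top P).cj_of_mem (mem_top x), hx⟩) _ ?_
  rintro S ⟨hS, hH⟩
  obtain ⟨l, hl, rfl⟩ := (sylowIn_top P).exists_cj_eq hS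
  have := ncard_fiber_cj ⊤ (P : Subgroup G) hl
  rw [top_inf_eq] at this
  rw [← this]
  congr 1
  ext x
  simp only [Set.mem_ofPred_eq, coe_top, Set.mem_univ, true_and, and_iff_right_iff_imp]
  exact fun h => h ▸ hH

/-- the number of `x` with `H^x ≤ P`, counted by conjugates of `H` -/
theorem ncard_cj_le [Finite G] (H P : Subgroup G) :
    {x : G | cj x H ≤ P}.ncard = Nat.card (normalizer (H : Set G)) *
      {K | K ≤ P ∧ ∃ g : G, K = cj g H}.ncard := by
  refine ncard_eq_mul_of_fiber _ _ (fun x => cj x H) (fun x hx => by exact ⟨hx, x, rfl⟩) _ ?_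
  rintro S ⟨hS, l, rfl⟩
  have := ncard_fiber_cj ⊤ H (mem_top l)
  rw [top_inf_eq] at this
  rw [← this]
  congr 1
  ext x
  simp only [Set.mem_ofPred_eq, coe_top, Set.mem_univ, true_and, and_iff_right_iff_imp]
  exact fun h => h ▸ hS

theorem card_sylow_ge [Finite G] (H : Subgroup G) :
    Nat.card {Q : Sylow p G // H ≤ (Q : Subgroup G)} = {S | SylowIn p S ⊤ ∧ H ≤ S}.ncard := by
  have : Nat.card {Q : Sylow p G // H ≤ (Q : Subgroup G)} =
      {Q : Sylow p G | H ≤ (Q : Subgroup G)}.ncard := rfl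
  rw [this, ← Set.ncard_image_of_injective _
    (show Function.Injective (fun Q : Sylow p G => (Q : Subgroup G)) from fun _ _ => Sylow.ext)]
  congr 1
  ext S
  constructor
  · rintro ⟨Q, hQ, rfl⟩
    exact ⟨sylowIn_top Q, hQ⟩
  · rintro ⟨h1, h2⟩
    obtain ⟨Q, rfl⟩ := h1.exists_sylow_top
    exact ⟨Q, h2, rfl⟩

theorem subnormalizer_iff [Finite G] [Fact p.Prime] {H : Subgroup G} (hH : IsPGroup p H) (g : G) :
    (H.subgroupOf (H ⊔ zpowers g)).IsSubnormal ↔
      ∃ R : Subgroup G, IsPGroup p R ∧ H ≤ R ∧ g ∈ normalizer (R : Set G) := by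
  constructor
  · intro h
    refine ⟨pCoreOf p (H ⊔ zpowers g), H1.isPGroup_pCoreOf _, fun x hx => ?_,
      H1.le_normalizer_pCoreOf _ (mem_sup_right (mem_zpowers g))⟩
    exact ⟨⟨x, mem_sup_left hx⟩, H1.le_pCore_of_isSubnormal h (isPGroup_subgroupOf hH _) hx, rfl⟩
  · rintro ⟨R, hR, hHR, hg⟩
    have h1 : H ⊔ zpowers g ≤ normalizer (R : Set G) :=
      sup_le (hHR.trans le_normalizer) (zpowers_le.2 hg)
    have := normal_subgroupOf_of_le_normalizer h1
    have := (isPGroup_subgroupOf hR (H ⊔ zpowers g)).isNilpotent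
    exact H76.isSubnormal_of_le_nilpotent_normal (R.subgroupOf (H ⊔ zpowers g)) _
      (subgroupOf_mono _ hHR)

section Main

open Classical

variable [Fintype G] [Fintype (Subgroup G)]

/-- `g`-invariant `p`-subgroups of `L` properly above `R` -/
noncomputable def casX (p : ℕ) (L : Subgroup G) (g : G) (R : Subgroup G) : Finset (Subgroup G) :=
  Finset.univ.filter fun S => (IsPGroup p S ∧ S ≤ L ∧ R < S) ∧ g ∈ normalizer (S : Set G)

omit [Fintype G] in
theorem mem_casX {L R S : Subgroup G} {g : G} :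
    S ∈ casX p L g R ↔ (IsPGroup p S ∧ S ≤ L ∧ R < S) ∧ g ∈ normalizer (S : Set G) := by
  simp [casX]

omit [Fintype (Subgroup G)] in
theorem card_filter_mem (L : Subgroup G) :
    (Finset.univ.filter (· ∈ L)).card = Nat.card L := by
  rw [Nat.card_eq_fintype_card, Fintype.card_subtype]

theorem casolo_local [Fact p.Prime] (R : Subgroup G) : ∀ L : Subgroup G, IsPGroup p R → R ≤ L →
    ∑ g ∈ Finset.univ.filter (· ∈ L ⊓ normalizer (R : Set G)), (1 - chi (casX p L g R)) =
      if SylowIn p R L then (Nat.card (L ⊓ normalizer (R : Set G) : Subgroup G) : ℤ) else 0 := by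
  induction R using WellFoundedGT.induction with
  | ind R ih =>
  intro L hR hRL
  split_ifs with hS
  · rw [← card_filter_mem, Finset.card_eq_sum_ones]
    push_cast
    refine Finset.sum_congr rfl fun g _ => ?_
    have : casX p L g R = ∅ := by
      rw [Finset.eq_empty_iff_forall_notMem]
      intro S h
      rw [mem_casX] at h
      exact h.1.2.2.ne' (hS.eq_of_le h.1.1 h.1.2.2.le h.1.2.1)
    rw [this, chi_empty, sub_zero]
  set L' := L ⊓ normalizer (R : Set G) with hL'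
  have h1 : ∀ g ∈ Finset.univ.filter (· ∈ L'), chi (casX p L g R) =
      ∑ S ∈ casX p L' g R, (1 - chi (casX p L' g S)) := by
    intro g hg
    have hg' : g ∈ L' := (Finset.mem_filter.1 hg).2
    rw [chi_eq_of_interior (casX p L g R) (casX p L' g R) (· ⊓ normalizer (R : Set G)), chi_eq_sum]
    · refine Finset.sum_congr rfl fun S hS => ?_
      congr 2
      ext T
      rw [mem_casX] at hS
      rw [Finset.mem_filter, mem_casX, mem_casX]
      exact ⟨fun h => ⟨⟨h.1.1.1, h.1.1.2.1, h.2⟩, h.1.2⟩,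
        fun h => ⟨⟨⟨h.1.1, h.1.2.1, hS.1.2.2.trans h.1.2.2⟩, h.2⟩, h.1.2.2⟩⟩
    · intro S hS
      rw [mem_casX] at hS ⊢
      exact ⟨⟨hS.1.1, hS.1.2.1.trans inf_le_left, hS.1.2.2⟩, hS.2⟩
    · intro S hS
      rw [mem_casX] at hS ⊢
      refine ⟨⟨hS.1.1.to_le inf_le_left, inf_le_inf_right _ hS.1.2.1,
        H5.lt_inf_normalizer hS.1.1 hS.1.2.2⟩, ?_⟩
      exact H2.le_normalizer_inf (zpowers_le.2 hS.2)
        (H2.normalizer_le_normalizer_normalizer R (zpowers_le.2 hg'.2)) (mem_zpowers g)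
    · intro b hb y _
      rw [mem_casX] at hb
      exact ⟨fun h => h.trans inf_le_left, fun h => le_inf h (hb.1.2.1.trans inf_le_right)⟩
  rw [Finset.sum_sub_distrib, Finset.sum_congr rfl h1, Finset.sum_comm'
    (t' := Finset.univ.filter fun S : Subgroup G => IsPGroup p S ∧ S ≤ L' ∧ R < S)
    (s' := fun S => Finset.univ.filter (· ∈ L' ⊓ normalizer (S : Set G)))
    (by intro g S; simp only [mem_casX, Finset.mem_filter, Finset.mem_univ, true_and, mem_inf]
        tauto)]
  rw [Finset.sum_congr rfl fun S hS => ih S (Finset.mem_filter.1 hS).2.2.2 L'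
    (Finset.mem_filter.1 hS).2.1 (Finset.mem_filter.1 hS).2.2.1]
  obtain ⟨T, hT⟩ := exists_sylowIn p L'
  rw [← Finset.sum_filter, Finset.sum_congr
    (s₂ := Finset.univ.filter fun S : Subgroup G => SylowIn p S L')
    (g := fun _ => (Nat.card (L' ⊓ normalizer (T : Set G) : Subgroup G) : ℤ))]
  · rw [Finset.sum_const, Finset.sum_const, card_filter_mem, ← ncard_sylowIn_mul hT,
      ← Set.ncard_coe_finset]
    simp [mul_comm]
  · ext S
    simp only [Finset.mem_filter, Finset.mem_univ, true_and, and_iff_right_iff_imp]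
    intro h
    refine ⟨h.isPGroup, h.le, lt_of_le_of_ne (h.le_of_le_normalizer hR
      (le_inf hRL le_normalizer) (h.le.trans inf_le_right)) ?_⟩
    rintro rfl
    exact hS (sylowIn_of_sylowIn_normalizer h)
  · intro S hS
    obtain ⟨l, hl, rfl⟩ := hT.exists_cj_eq (Finset.mem_filter.1 hS).2
    rw [card_inf_normalizer_cj _ _ hl]

end Main

/-- Casolo's theorem. -/
theorem casolo [Finite G] [Fact p.Prime] (H : Subgroup G) (P : Sylow p G) :
    {g : G | ∃ R : Subgroup G, IsPGroup p R ∧ H ≤ R ∧ g ∈ normalizer (R : Set G)}.ncard =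
      {x : G | cj x H ≤ P}.ncard := by
  classical
  have := Fintype.ofFinite G
  have := Fintype.ofFinite (Subgroup G)
  rw [ncard_cj_le_sylow]
  let Y : G → Finset (Subgroup G) := fun g =>
    Finset.univ.filter fun S => (IsPGroup p S ∧ H ≤ S) ∧ g ∈ normalizer (S : Set G)
  have hY : ∀ g S, S ∈ Y g ↔ (IsPGroup p S ∧ H ≤ S) ∧ g ∈ normalizer (S : Set G) := by
    intro g S; simp [Y]
  have h1 : ∀ g : G, chi (Y g) =
      if ∃ R : Subgroup G, IsPGroup p R ∧ H ≤ R ∧ g ∈ normalizer (R : Set G) then 1 else 0 := by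
    intro g
    split_ifs with h
    · obtain ⟨R, h1, h2, h3⟩ := h
      obtain ⟨m, hm⟩ := (Y g).exists_minimal ⟨R, (hY g R).2 ⟨⟨h1, h2⟩, h3⟩⟩
      refine chi_of_min hm.1 fun y hy => ?_
      have hm1 := (hY g m).1 hm.1
      rw [hY] at hy
      refine (hm.2 ((hY g (m ⊓ y)).2 ⟨⟨hm1.1.1.to_le inf_le_left, le_inf hm1.1.2 hy.1.2⟩, ?_⟩)
        inf_le_left).trans inf_le_right
      exact H2.le_normalizer_inf (zpowers_le.2 hm1.2) (zpowers_le.2 hy.2) (mem_zpowers g)
    · have : Y g = ∅ := by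
        rw [Finset.eq_empty_iff_forall_notMem]
        intro S hS
        rw [hY] at hS
        exact h ⟨S, hS.1.1, hS.1.2, hS.2⟩
      rw [this, chi_empty]
  have h2 : ∀ g ∈ (Finset.univ : Finset G), chi (Y g) =
      ∑ S ∈ Y g, (1 - chi (casX p ⊤ g S)) := by
    intro g _
    rw [chi_eq_sum]
    refine Finset.sum_congr rfl fun S hS => ?_
    congr 2
    ext T
    rw [hY] at hS
    rw [Finset.mem_filter, mem_casX, hY]
    exact ⟨fun h => ⟨⟨h.1.1.1, le_top, h.2⟩, h.1.2⟩,
      fun h => ⟨⟨⟨h.1.1, hS.1.2.trans h.1.2.2.le⟩, h.2⟩, h.1.2.2⟩⟩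
  have h3 := Finset.sum_congr rfl h2
  rw [Finset.sum_comm'
    (t' := Finset.univ.filter fun S : Subgroup G => IsPGroup p S ∧ H ≤ S)
    (s' := fun S => Finset.univ.filter (· ∈ ⊤ ⊓ normalizer (S : Set G)))
    (by intro g S; simp only [hY, Finset.mem_filter, Finset.mem_univ, true_and, mem_inf, mem_top]
        tauto),
    Finset.sum_congr rfl fun S hS => casolo_local S ⊤ (Finset.mem_filter.1 hS).2.1 le_top,
    Finset.sum_congr rfl fun g _ => h1 g, Finset.sum_boole, ← Finset.sum_filter, Finset.sum_congr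
    (s₂ := Finset.univ.filter fun S : Subgroup G => SylowIn p S ⊤ ∧ H ≤ S)
    (g := fun _ => (Nat.card (normalizer ((P : Subgroup G) : Set G)) : ℤ))] at h3
  · rw [Finset.sum_const, ← Set.ncard_coe_finset, ← Set.ncard_coe_finset] at h3
    simp only [Finset.coe_filter, Finset.mem_univ, true_and, nsmul_eq_mul] at h3
    rw [mul_comm]
    exact_mod_cast h3
  · ext S
    simp only [Finset.mem_filter, Finset.mem_univ, true_and]
    exact ⟨fun h => ⟨h.2, h.1.2⟩, fun h => ⟨⟨h.1.isPGroup, h.2⟩, h.1⟩⟩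
  · intro S hS
    obtain ⟨l, hl, rfl⟩ := (sylowIn_top P).exists_cj_eq (Finset.mem_filter.1 hS).2.1
    rw [card_inf_normalizer_cj _ _ hl, top_inf_eq]

theorem card_subnormalizer [Finite G] [Fact p.Prime] {H : Subgroup G} (hH : IsPGroup p H)
    (P : Sylow p G) : Nat.card {g : G // (H.subgroupOf (H ⊔ zpowers g)).IsSubnormal} =
      {x : G | cj x H ≤ P}.ncard := by
  rw [← casolo]
  exact Nat.card_congr (Equiv.subtypeEquivRight (subnormalizer_iff hH))

end H80
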