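import Mathlib
import Cfsg.Agent.Lib.Core.CoprimeExt
import Cfsg.Agent.Lib.Core.GrpBasic
import Cfsg.Agent.Lib.Core.Fitting
import Cfsg.Agent.Lib.PGroup.Basic
import Cfsg.Agent.Lib.Core.Frobenius

/-! The Navarro–Rizo inequality for coprime actions of `p`-groups:
`∏ₓ |C_K(x)|^p ≤ |K|^|P| |C_K(P)|^((p-1)|P|)`. -/

set_option autoImplicit false

namespace H80

open Subgroup Cfsg H68 H2
open scoped IsMulCommutative commutatorElement

universe u

theorem card_fixSub_eq_mul {A K : Type*} [Group A] [Group K] [Finite A] [Finite K]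
    (φ : A →* MulAut K) (N : Subgroup K) [N.Normal] (hN : ∀ a, ∀ x ∈ N, φ a x ∈ N)
    (B : Subgroup A) (hcop : (Nat.card B).Coprime (Nat.card N))
    (hs : Group.IsSolvable B ∨ Group.IsSolvable N) :
    Nat.card (fixSub φ B) =
      Nat.card (fixSub (subAut φ N hN) B) * Nat.card (fixSub (quotAut φ N hN) B) := by
  have h1 : (fixSub φ B).map (QuotientGroup.mk' N) = fixSub (quotAut φ N hN) B := by
    ext y
    obtain ⟨y, rfl⟩ := QuotientGroup.mk_surjective y
    constructor
    · rintro ⟨x, hx, h⟩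
      rw [← h, mem_fixSub]
      intro b hb
      rw [QuotientGroup.mk'_apply, quotAut_mk, mem_fixSub.1 hx b hb]
    · intro h
      obtain ⟨n, hn, h2⟩ := ext_exists_mul_mem_fixSub (φ := φ) (fun b _ => hN b) hcop hs
        (x := y) (fun b hb => by
          have := mem_fixSub.1 h b hb
          rw [quotAut_mk, eq_comm, QuotientGroup.eq] at this
          exact this)
      refine ⟨_, h2, ?_⟩
      rw [QuotientGroup.mk'_apply, eq_comm, QuotientGroup.eq]
      simpa using hn
  have h2 : fixSub (subAut φ N hN) B = (fixSub φ B).subgroupOf N := by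
    ext x
    simp only [mem_fixSub, mem_subgroupOf, Subtype.ext_iff, coe_subAut_apply]
  rw [← h1, h2, H1.card_subgroupOf_eq, ← H1.card_map_mk'_mul N (fixSub φ B), inf_comm, mul_comm]

theorem prod_card_inf_ker_le {K ι : Type*} [Group K] [Finite K] (E : ι → (K →* K))
    (hc : ∀ i j v, E i (E j v) = E j (E i v)) (s : Finset ι)
    (hs : ∀ i ∈ s, ∀ j ∈ s, i ≠ j → (E i).ker ⊓ (E j).ker = ⊥) :
    ∀ U : Subgroup K, ∏ i ∈ s, Nat.card (U ⊓ (E i).ker : Subgroup K) ≤ Nat.card U := by
  classical
  induction s using Finset.induction_on with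
  | empty => intro U; rw [Finset.prod_empty]; exact Nat.card_pos
  | insert j s hj ih =>
    intro U
    rw [Finset.prod_insert hj, ← H1.card_map_mul_card_inf_ker (E j) U, mul_comm, inf_comm U]
    refine Nat.mul_le_mul_right _ (le_trans (Finset.prod_le_prod' fun i hi => ?_)
      (ih (fun a ha b hb => hs a (Finset.mem_insert_of_mem ha) b (Finset.mem_insert_of_mem hb))
        (U.map (E j))))
    have h1 := H1.card_map_mul_card_inf_ker (E j) (U ⊓ (E i).ker)
    have h2 : (E j).ker ⊓ (U ⊓ (E i).ker) = ⊥ := by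
      rw [eq_bot_iff, ← hs j (Finset.mem_insert_self _ _) i (Finset.mem_insert_of_mem hi)
        (by rintro rfl; exact hj hi)]
      exact inf_le_inf_left _ inf_le_right
    rw [h2, card_bot, mul_one] at h1
    rw [← h1]
    apply card_le_of_le
    rintro _ ⟨v, ⟨hv, hv'⟩, rfl⟩
    exact mem_inf.2 ⟨⟨v, hv, rfl⟩, by
      rw [MonoidHom.mem_ker, hc, MonoidHom.mem_ker.1 hv', map_one]⟩

theorem mem_fixSub_zpowers {A K : Type*} [Group A] [Group K] (φ : A →* MulAut K) (a : A) (v : K) :
    v ∈ fixSub φ (zpowers a) ↔ φ a v = v := by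
  rw [mem_fixSub]
  refine ⟨fun h => h a (mem_zpowers a), fun h b hb => ?_⟩
  have : zpowers a ≤ (MulAction.stabilizer (MulAut K) v).comap φ := zpowers_le.2 h
  exact this hb

theorem prod_card_fixSub_le {P K : Type*} [Group P] [CommGroup K] [Finite K] {p : ℕ}
    (hp : p.Prime) (φ : P →* MulAut K) {z : P} (hz : φ z ^ p = 1) (hzc : ∀ x, Commute (φ x) (φ z))
    (hf : ∀ v, φ z v = v → v = 1) (x : P) :
    ∏ i ∈ Finset.range p, Nat.card (fixSub φ (zpowers (x * z ^ i))) ≤ Nat.card K := by
  let E : ℕ → (K →* K) := fun i => (φ (x * z ^ i)).toMonoidHom / MonoidHom.id K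
  have hE : ∀ i v, E i v = φ (x * z ^ i) v / v := fun _ _ => rfl
  have hker : ∀ i, (E i).ker = fixSub φ (zpowers (x * z ^ i)) := by
    intro i
    ext v
    rw [MonoidHom.mem_ker, hE, div_eq_one, mem_fixSub_zpowers]
  have := prod_card_inf_ker_le E (fun i j v => ?_) (Finset.range p) ?_ ⊤
  · simpa [hker] using this
  · have h : Commute (φ (x * z ^ i)) (φ (x * z ^ j)) := by
      simp only [map_mul, map_pow]
      exact ((Commute.refl _).mul_right ((hzc x).pow_right j)).mul_left
        (((hzc x).symm.pow_left i).mul_right (Commute.pow_pow_self _ _ _))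
    have h' : φ (x * z ^ i) (φ (x * z ^ j) v) = φ (x * z ^ j) (φ (x * z ^ i) v) :=
      congrArg (fun f : MulAut K => f v) h.eq
    simp only [hE, map_div, h']
    rw [div_div_div_comm]
  · have key : ∀ i j, i < j → j < p → (E i).ker ⊓ (E j).ker = ⊥ := by
      intro i j hij hj
      rw [eq_bot_iff]
      intro v hv
      obtain ⟨h1, h2⟩ := mem_inf.1 hv
      rw [hker, mem_fixSub_zpowers, ← MulAut.smul_def,
        ← MulAction.mem_stabilizer_iff] at h1 h2
      have h3 := mul_mem (inv_mem h1) h2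
      obtain ⟨k, rfl⟩ := Nat.exists_eq_add_of_lt hij
      rw [← map_inv, ← map_mul, add_assoc, pow_add, ← mul_assoc x, inv_mul_cancel_left,
        map_pow] at h3
      apply hf
      have h4 : φ z ∈ zpowers (φ z ^ (k + 1)) := by
        rw [mem_zpowers_pow_iff]
        exact (Nat.coprime_of_lt_prime (by omega) (by omega) hp).symm.coprime_dvd_right
          (orderOf_dvd_of_pow_eq_one hz)
      exact zpowers_le.2 h3 h4
    intro i hi j hj hij
    rcases lt_or_gt_of_ne hij with h | h
    · exact key i j h (Finset.mem_range.1 hj)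
    · rw [inf_comm]; exact key j i h (Finset.mem_range.1 hi)

theorem navarro_rizo_solvable {P : Type*} [Group P] [Fintype P] {p : ℕ} [hp : Fact p.Prime]
    (hP : IsPGroup p P) (n : ℕ) : ∀ (K : Type u) [Group K] [Finite K], Nat.card K = n →
    Group.IsSolvable K → ¬ p ∣ Nat.card K → ∀ φ : P →* MulAut K,
    ∏ x, Nat.card (fixSub φ (zpowers x)) ^ p ≤
      Nat.card K ^ Nat.card P * Nat.card (fixSub φ ⊤) ^ ((p - 1) * Nat.card P) := by
  induction n using Nat.strong_induction_on with
  | _ n ih =>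
  intro K _ _ hn hs hpK φ
  by_cases h : ∃ N : Subgroup K, N.Normal ∧ (∀ a, ∀ x ∈ N, φ a x ∈ N) ∧ N ≠ ⊥ ∧ N ≠ ⊤
  · obtain ⟨N, hN, hφ, h1, h2⟩ := h
    have hcop : ∀ B : Subgroup P, (Nat.card B).Coprime (Nat.card N) := fun B =>
      H1.coprime_card_of_isPGroup_of_coprime (hP.to_subgroup B)
        ((hp.out.coprime_iff_not_dvd.2 fun h => hpK (h.trans (card_subgroup_dvd_card N))).symm)
    have e := fun B : Subgroup P => card_fixSub_eq_mul φ N hφ B (hcop B) (Or.inr inferInstance)
    have i1 := ih _ (hn ▸ H1.card_lt_of_ne_top h2) N rfl inferInstance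
      (fun h => hpK (h.trans (card_subgroup_dvd_card N))) (subAut φ N hφ)
    have i2 := ih _ (hn ▸ H1.card_quotient_lt h1) (K ⧸ N) rfl inferInstance
      (fun h => hpK (h.trans (card_quotient_dvd_card N))) (quotAut φ N hφ)
    simp only [e, mul_pow, Finset.prod_mul_distrib, card_eq_card_quotient_mul_card_subgroup N]
    refine (Nat.mul_le_mul i1 i2).trans (le_of_eq ?_)
    ring
  push Not at h
  by_cases hφ : φ.ker = ⊤
  · have : ∀ B : Subgroup P, fixSub φ B = ⊤ := by
      intro B
      rw [eq_top_iff]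
      intro v _ b _
      rw [MonoidHom.mem_ker.1 (hφ ▸ mem_top b : b ∈ φ.ker)]; rfl
    simp only [this, card_top, Finset.prod_const, Finset.card_univ, ← Nat.card_eq_fintype_card,
      ← pow_mul, ← pow_add]
    apply le_of_eq
    congr 1
    obtain ⟨k, hk⟩ := Nat.exists_eq_add_of_lt hp.out.pos
    rw [hk]; simp; ring
  obtain ⟨z, -, hz1, hz2, hz3⟩ := H5.exists_step hP φ.ker ⊤ (by rwa [top_le_iff])
  have hzc : ∀ x, Commute (φ x) (φ z) := fun x => by
    rw [Commute.symm_iff, ← commutatorElement_eq_one_iff_commute, ← map_commutatorElement]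
    exact hz3 x
  have hnt : Nontrivial K := by
    by_contra hc
    rw [not_nontrivial_iff_subsingleton] at hc
    exact hz1 (MulEquiv.ext fun v => Subsingleton.elim _ _)
  have hc : IsMulCommutative K := by
    rw [← commutator_eq_bot_iff]
    by_contra hc
    have := h (commutator K) inferInstance
      (fun a x hx => characteristic_iff_le_comap.1 inferInstance (φ a) hx) hc
    exact (Group.IsSolvable.commutator_lt_top_of_nontrivial K).ne this
  have hf : fixSub φ (zpowers z) = ⊥ := by
    by_contra hc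
    have := h (fixSub φ (zpowers z)) inferInstance (fun a x hx => by
      rw [mem_fixSub_zpowers] at hx ⊢
      conv_rhs => rw [← hx]
      exact (congrArg (fun f : MulAut K => f x) (hzc a).eq).symm) hc
    exact hz1 (MulEquiv.ext fun v => (mem_fixSub_zpowers φ z v).1 (this ▸ mem_top v))
  have h1 := fun x => prod_card_fixSub_le hp.out φ (z := z) (by rw [← map_pow]; exact hz2) hzc
    (fun v hv => mem_bot.1 (hf ▸ (mem_fixSub_zpowers φ z v).2 hv)) x
  refine le_trans ?_ (Nat.le_mul_of_pos_right _ (pow_pos Nat.card_pos _))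
  have h2 := Finset.prod_le_prod' (s := Finset.univ) fun x _ => h1 x
  have e : ∀ i : ℕ, ∏ x, Nat.card (fixSub φ (zpowers (x * z ^ i))) =
      ∏ x, Nat.card (fixSub φ (zpowers x)) := fun i =>
    Equiv.prod_comp (Equiv.mulRight (z ^ i)) (fun x => Nat.card (fixSub φ (zpowers x)))
  rw [Finset.prod_comm, Finset.prod_const, Finset.card_univ, ← Nat.card_eq_fintype_card] at h2
  simp only [e, Finset.prod_const, Finset.card_range] at h2
  rwa [Finset.prod_pow]

/-- Navarro–Rizo inequality, ambient form. -/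
theorem navarro_rizo {P Γ : Type*} [Group P] [Fintype P] [Group Γ] [Finite Γ] {p : ℕ}
    [hp : Fact p.Prime] (hP : IsPGroup p P) (f : P →* Γ) {K : Subgroup Γ}
    (hK : f.range ≤ normalizer (K : Set Γ)) (hpK : ¬ p ∣ Nat.card K) :
    ∏ x, Nat.card (K ⊓ centralizer {f x} : Subgroup Γ) ^ p ≤
      Nat.card K ^ Nat.card P *
        Nat.card (K ⊓ centralizer (f.range : Set Γ) : Subgroup Γ) ^ ((p - 1) * Nat.card P) := by
  apply Nat.le_of_dvd (Nat.mul_pos (pow_pos Nat.card_pos _) (pow_pos Nat.card_pos _))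
  have hne : ∀ H : Subgroup Γ, Nat.card H ≠ 0 := fun H => Nat.card_pos.ne'
  rw [← Nat.factorization_prime_le_iff_dvd (Finset.prod_ne_zero_iff.2 fun x _ => pow_ne_zero _ (hne _))
    (mul_ne_zero (pow_ne_zero _ (hne _)) (pow_ne_zero _ (hne _)))]
  intro q hq
  have := Fact.mk hq
  have hr : IsPGroup p f.range := hP.of_surjective _ f.rangeRestrict_surjective
  have hcop : ∀ B ≤ f.range, (Nat.card B).Coprime (Nat.card K) := fun B hB =>
    H1.coprime_card_of_isPGroup_of_coprime (hr.to_le hB) (hp.out.coprime_iff_not_dvd.2 hpK).symm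
  obtain ⟨Q, hQ, hQn⟩ := exists_invariant_sylowIn hK (hcop _ le_rfl)
    (Or.inl (H1.isSolvable_of_isPGroup hr)) q
  let φ := (conjAut hQn).comp f.rangeRestrict
  have h1 : ∀ B : Subgroup P, Nat.card (fixSub φ B) =
      q ^ (Nat.card (K ⊓ centralizer (B.map f : Set Γ) : Subgroup Γ)).factorization q := by
    intro B
    have hB : B.map f ≤ f.range := map_le_range _ _
    rw [← (sylowIn_inf_centralizer (hB.trans hK) (hcop _ hB)
      (Or.inl (H1.isSolvable_of_isPGroup (hr.to_le hB))) hQ (hB.trans hQn)).card_eq, inf_comm,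
      ← H1.card_subgroupOf_eq]
    congr 2
    ext v
    simp only [mem_fixSub, mem_subgroupOf, mem_centralizer_iff, Subtype.ext_iff, φ,
      MonoidHom.comp_apply, coe_conjAut_apply, mul_inv_eq_iff_eq_mul]
    constructor
    · rintro h _ ⟨b, hb, rfl⟩
      exact h b hb
    · exact fun h b hb => h _ ⟨b, hb, rfl⟩
  have h2 := navarro_rizo_solvable hP _ Q rfl (H1.isSolvable_of_isPGroup hQ.isPGroup)
    (fun h => hpK (h.trans (card_dvd_of_le hQ.le))) φ
  simp only [h1, hQ.card_eq, ← pow_mul, ← pow_add, Finset.prod_pow_eq_pow_sum,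
    MonoidHom.map_zpowers, H2.centralizer_zpowers, ← MonoidHom.range_eq_map] at h2
  rw [Nat.factorization_prod fun x _ => pow_ne_zero _ (hne _), Nat.factorization_mul
    (pow_ne_zero _ (hne _)) (pow_ne_zero _ (hne _))]
  simpa [mul_comm] using (Nat.pow_le_pow_iff_right hq.one_lt).1 h2

end H80
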