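import Mathlib
import Cfsg.Agent.Lib.FGS.KPiFusion

/-!
Isolated elements of a Sylow subgroup form a subgroup; more than `|P|/2` classes of
`2`-elements force a normal `2`-complement.
-/

set_option autoImplicit false

namespace H77

open Finset
open scoped Pointwise

variable {G : Type*} [Group G] [Finite G] {p : ℕ} [Fact p.Prime]

omit [Finite G] [Fact p.Prime] in
theorem isolated_comm (P : Sylow p G) {w : G} (hw : w ∈ (P : Subgroup G))
    (hi : ∀ z ∈ (P : Subgroup G), IsConj w z → z = w) {t : G} (ht : t ∈ (P : Subgroup G)) :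
    t * w = w * t := by
  have := hi (t * w * t⁻¹) (mul_mem (mul_mem ht hw) (inv_mem ht)) (isConj_iff.mpr ⟨t, rfl⟩)
  exact mul_inv_eq_iff_eq_mul.mp this

theorem isolated_eq_of_mem_sylow (P S : Sylow p G) {w w' : G}
    (hi : ∀ z ∈ (P : Subgroup G), IsConj w z → z = w) (hw : w ∈ (S : Subgroup G))
    (hw' : w' ∈ (S : Subgroup G)) (hc : IsConj w w') : w' = w := by
  obtain ⟨h, rfl⟩ := MulAction.exists_smul_eq G P S
  have h1 := hi (h⁻¹ * w * h) (H4.mem_smul_sylow_iff.mp hw) (isConj_iff.mpr ⟨h⁻¹, by group⟩)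
  have h2 := hi (h⁻¹ * w' * h) (H4.mem_smul_sylow_iff.mp hw')
    (hc.trans (isConj_iff.mpr ⟨h⁻¹, by group⟩))
  have := h2.trans h1.symm
  simpa using this

/-- Fusion inside a Sylow subgroup can be realised by an element centralizing all isolated
elements. -/
theorem exists_conj_centralizing (P : Sylow p G) {x y : G} (hx : x ∈ (P : Subgroup G))
    (hy : y ∈ (P : Subgroup G)) (hxy : IsConj x y) :
    ∃ g : G, g * x * g⁻¹ = y ∧ ∀ w ∈ (P : Subgroup G),
      (∀ z ∈ (P : Subgroup G), IsConj w z → z = w) → g * w * g⁻¹ = w := by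
  obtain ⟨g, hg⟩ := isConj_iff.mp hxy
  set Z := (P : Subgroup G) ⊓ Subgroup.centralizer ((P : Subgroup G) : Set G) with hZ
  have hZp : IsPGroup p Z := P.isPGroup'.to_le inf_le_left
  have hA : Z ≤ Subgroup.centralizer ({y} : Set G) := fun z hz =>
    Subgroup.mem_centralizer_singleton_iff.mpr (hz.2 y hy).symm
  have hB : MulAut.conj g • Z ≤ Subgroup.centralizer ({y} : Set G) := fun z hz => by
    have h1 := (H1.mem_conj_smul_iff.mp hz).2 x hx
    rw [Subgroup.mem_centralizer_singleton_iff, ← hg]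
    calc z * (g * x * g⁻¹) = g * (g⁻¹ * z * g * x) * g⁻¹ := by group
      _ = g * (x * (g⁻¹ * z * g)) * g⁻¹ := by rw [h1]
      _ = g * x * g⁻¹ * z := by group
  obtain ⟨S, k, hk, hAS, hBS⟩ :=
    H4.exists_conj_le_common_sylow hZp hA (H4.isPGroup_conj_smul hZp g) hB
  refine ⟨k * g, ?_, fun w hw hi => ?_⟩
  · have := Subgroup.mem_centralizer_singleton_iff.mp hk
    calc k * g * x * (k * g)⁻¹ = k * (g * x * g⁻¹) * k⁻¹ := by group
      _ = y := by rw [hg, this]; group
  · have hwZ : w ∈ Z := ⟨hw, fun t ht => isolated_comm P hw hi ht⟩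
    refine isolated_eq_of_mem_sylow P S hi (hAS hwZ) ?_ (isConj_iff.mpr ⟨k * g, rfl⟩)
    have h1 := hBS _ (H1.conj_mem_conj_smul (g := g) hwZ)
    have h2 : k * g * w * (k * g)⁻¹ = k * (g * w * g⁻¹) * k⁻¹ := by group
    rw [h2]
    exact h1

/-- The isolated elements of a Sylow subgroup. -/
def isol (P : Sylow p G) : Subgroup G where
  carrier := {w | w ∈ (P : Subgroup G) ∧ ∀ z ∈ (P : Subgroup G), IsConj w z → z = w}
  one_mem' := ⟨one_mem _, fun z _ hz => isConj_one_right.mp hz⟩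
  mul_mem' := by
    rintro a b ⟨ha, ha'⟩ ⟨hb, hb'⟩
    refine ⟨mul_mem ha hb, fun z hz hc => ?_⟩
    obtain ⟨g, hg, hg'⟩ := exists_conj_centralizing P (mul_mem ha hb) hz hc
    rw [← hg]
    calc g * (a * b) * g⁻¹ = (g * a * g⁻¹) * (g * b * g⁻¹) := by group
      _ = a * b := by rw [hg' a ha ha', hg' b hb hb']
  inv_mem' := by
    rintro a ⟨ha, ha'⟩
    refine ⟨inv_mem ha, fun z hz hc => ?_⟩
    obtain ⟨g, hg⟩ := isConj_iff.mp hc
    have := ha' z⁻¹ (inv_mem hz) (isConj_iff.mpr ⟨g, by rw [← hg]; group⟩)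
    rw [← this, inv_inv]

theorem mem_isol {P : Sylow p G} {w : G} :
    w ∈ isol P ↔ w ∈ (P : Subgroup G) ∧ ∀ z ∈ (P : Subgroup G), IsConj w z → z = w := Iff.rfl

theorem isol_le (P : Sylow p G) : isol P ≤ P := fun _ hw => hw.1

theorem isConj_mul_isol (P : Sylow p G) {x y w : G} (hx : x ∈ (P : Subgroup G))
    (hy : y ∈ (P : Subgroup G)) (hxy : IsConj x y) (hw : w ∈ isol P) :
    IsConj (x * w) (y * w) := by
  obtain ⟨g, hg, hg'⟩ := exists_conj_centralizing P hx hy hxy
  refine isConj_iff.mpr ⟨g, ?_⟩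
  calc g * (x * w) * g⁻¹ = (g * x * g⁻¹) * (g * w * g⁻¹) := by group
    _ = y * w := by rw [hg, hg' w hw.1 hw.2]

theorem fuseCard_le_mul_isol (P : Sylow p G) {x w : G} (hx : x ∈ (P : Subgroup G))
    (hw : w ∈ isol P) :
    fuseCard ((P : Subgroup G) : Set G) x ≤ fuseCard ((P : Subgroup G) : Set G) (x * w) := by
  unfold fuseCard
  refine Set.ncard_le_ncard_of_injOn (fun y => y * w) ?_ (mul_left_injective w).injOn
    (Set.toFinite _)
  rintro y ⟨hy, hxy⟩
  exact ⟨mul_mem hy hw.1, isConj_mul_isol P hx hy hxy hw⟩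

theorem two_le_fuseCard (P : Sylow p G) {x : G} (hx : x ∈ (P : Subgroup G)) (hw : x ∉ isol P) :
    2 ≤ fuseCard ((P : Subgroup G) : Set G) x := by
  rw [mem_isol, not_and] at hw
  have hw' := hw hx
  push Not at hw'
  obtain ⟨z, hz, hc, hne⟩ := hw'
  exact (Set.one_lt_ncard (Set.toFinite _)).mpr ⟨z, ⟨hz, hc⟩, x, ⟨hx, IsConj.refl x⟩, hne⟩

/-- If all `G`-conjugates of `x` in `P` lie in the coset of the isolated subgroup, they are
conjugate in `P`. -/
theorem conj_in_sylow_of_coset (P : Sylow p G) {x : G} (hx : x ∈ (P : Subgroup G))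
    (h : ∀ y ∈ (P : Subgroup G), IsConj x y → x⁻¹ * y ∈ isol P) {y : G}
    (hy : y ∈ (P : Subgroup G)) (hxy : IsConj x y) :
    ∃ v ∈ (P : Subgroup G), v * x * v⁻¹ = y := by
  let H : Subgroup G :=
    { carrier := {g | (∀ w ∈ isol P, g * w * g⁻¹ = w) ∧ x⁻¹ * (g * x * g⁻¹) ∈ isol P}
      one_mem' := ⟨fun w _ => by group, by simp⟩
      mul_mem' := by
        rintro a b ⟨ha, ha'⟩ ⟨hb, hb'⟩
        refine ⟨fun w hw => ?_, ?_⟩
        · calc a * b * w * (a * b)⁻¹ = a * (b * w * b⁻¹) * a⁻¹ := by group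
            _ = w := by rw [hb w hw, ha w hw]
        · have := mul_mem ha' hb'
          rw [← ha _ hb'] at this
          convert this using 1
          group
      inv_mem' := by
        rintro a ⟨ha, ha'⟩
        have h1 : ∀ w ∈ isol P, a⁻¹ * w * a⁻¹⁻¹ = w := fun w hw => by
          conv_lhs => rw [← ha w hw]
          group
        refine ⟨h1, ?_⟩
        have := inv_mem ha'
        rw [← h1 _ this] at this
        convert this using 1
        group }
  let φ : H →* isol P :=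
    { toFun := fun g => ⟨x⁻¹ * (g * x * (g : G)⁻¹), g.2.2⟩
      map_one' := by ext; simp
      map_mul' := by
        intro a b
        ext
        simp only [Subgroup.coe_mul]
        rw [← a.2.1 _ b.2.2]
        group }
  have hxH : x ∈ H := ⟨fun w hw => by rw [isolated_comm P hw.1 hw.2 hx]; group, by simp⟩
  have hWp : IsPGroup p (isol P) := P.isPGroup'.to_le (isol_le P)
  have hxp : IsPGroup p (Subgroup.zpowers (⟨x, hxH⟩ : H)) := by
    obtain ⟨k, hk⟩ := (IsPGroup.iff_orderOf.mp P.isPGroup') ⟨x, hx⟩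
    refine IsPGroup.of_card (n := k) ?_
    rw [Nat.card_zpowers, Subgroup.orderOf_mk, ← hk, Subgroup.orderOf_mk]
  obtain ⟨S, hS⟩ := hxp.exists_le_sylow
  have hkey : ∀ z ∈ (P : Subgroup G), IsConj x z → ∃ s ∈ (S : Subgroup H), (s : G) * x * (s : G)⁻¹ = z := by
    intro z hz hxz
    obtain ⟨g, hg, hg'⟩ := exists_conj_centralizing P hx hz hxz
    have hgH : g ∈ H := ⟨fun w hw => hg' w hw.1 hw.2, by rw [hg]; exact h z hz hxz⟩
    obtain ⟨r, hr, s, hs, hrs⟩ := H4.exists_pResidual_mul (H4.coprime_index_sylow S) (⟨g, hgH⟩ : H)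
    have h1 : φ r = 1 := H4.pResidual_le_ker hWp φ hr
    have h2 : φ ⟨g, hgH⟩ = φ s := by rw [← hrs, map_mul, h1, one_mul]
    have h3 := congrArg Subtype.val h2
    refine ⟨s, hs, ?_⟩
    rw [← hg]
    exact (mul_left_cancel h3).symm
  have hSp : IsPGroup p ((S : Subgroup H).map H.subtype) := S.isPGroup'.map _
  obtain ⟨k, hk⟩ := H4.exists_conj_smul_le_sylow P hSp
  have hmem : ∀ s ∈ (S : Subgroup H), k * s * k⁻¹ ∈ (P : Subgroup G) := fun s hs =>
    hk (H1.conj_mem_conj_smul ⟨s, hs, rfl⟩)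
  have hx' : k * x * k⁻¹ ∈ (P : Subgroup G) := hmem ⟨x, hxH⟩ (hS (Subgroup.mem_zpowers _))
  let C : Set G := {z | z ∈ (P : Subgroup G) ∧ IsConj x z}
  have hf : ∀ z ∈ C, ∃ v ∈ (P : Subgroup G), v * (k * x * k⁻¹) * v⁻¹ = k * z * k⁻¹ := by
    rintro z ⟨hz, hxz⟩
    obtain ⟨s, hs, hsz⟩ := hkey z hz hxz
    exact ⟨k * s * k⁻¹, hmem s hs, by rw [← hsz]; group⟩
  have hmaps : Set.MapsTo (fun z => k * z * k⁻¹) C C := by
    intro z hz
    obtain ⟨v, hv, hv'⟩ := hf z hz
    refine ⟨?_, hz.2.trans (isConj_iff.mpr ⟨k, rfl⟩)⟩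
    show k * z * k⁻¹ ∈ (P : Subgroup G)
    rw [← hv']
    exact mul_mem (mul_mem hv hx') (inv_mem hv)
  have hsurj : Set.SurjOn (fun z => k * z * k⁻¹) C C :=
    (Set.Finite.injOn_iff_bijOn_of_mapsTo (Set.toFinite C) hmaps).mp
      (fun a _ b _ hab => by simpa using hab) |>.surjOn
  obtain ⟨a, ha, ha'⟩ := hsurj (⟨hx, IsConj.refl x⟩ : x ∈ C)
  obtain ⟨b, hb, hb'⟩ := hsurj (⟨hy, hxy⟩ : y ∈ C)
  obtain ⟨u, hu, hu'⟩ := hf a ha
  obtain ⟨v, hv, hv'⟩ := hf b hb
  simp only at ha' hb'
  refine ⟨v * u⁻¹, mul_mem hv (inv_mem hu), ?_⟩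
  rw [ha'] at hu'
  rw [hb'] at hv'
  rw [← hv']
  conv_lhs => rw [← hu']
  group

theorem conj_in_sylow_of_fuseCard_le_two (P : Sylow 2 G) {x : G} (hx : x ∈ (P : Subgroup G))
    (h : fuseCard ((P : Subgroup G) : Set G) x ≤ 2) {y : G}
    (hy : y ∈ (P : Subgroup G)) (hxy : IsConj x y) :
    ∃ v ∈ (P : Subgroup G), v * x * v⁻¹ = y := by
  by_cases hne : x = y
  · exact ⟨1, one_mem _, by rw [hne]; group⟩
  have hC : ∀ z ∈ (P : Subgroup G), IsConj x z → z = x ∨ z = y := by
    intro z hz hxz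
    by_contra hcon
    push Not at hcon
    have : 2 < fuseCard ((P : Subgroup G) : Set G) x :=
      (Set.two_lt_ncard (Set.toFinite _)).mpr ⟨x, ⟨hx, IsConj.refl x⟩, y, ⟨hy, hxy⟩, z, ⟨hz, hxz⟩,
        hne, hcon.1.symm, hcon.2.symm⟩
    omega
  by_cases hxc : x ∈ Subgroup.centralizer ((P : Subgroup G) : Set G)
  swap
  · rw [Subgroup.mem_centralizer_iff] at hxc
    push Not at hxc
    obtain ⟨t, ht, htx⟩ := hxc
    refine ⟨t, ht, ?_⟩
    refine (hC _ (mul_mem (mul_mem ht hx) (inv_mem ht)) (isConj_iff.mpr ⟨t, rfl⟩)).resolve_left ?_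
    exact fun h => htx (mul_inv_eq_iff_eq_mul.mp h)
  by_cases hyc : y ∈ Subgroup.centralizer ((P : Subgroup G) : Set G)
  swap
  · rw [Subgroup.mem_centralizer_iff] at hyc
    push Not at hyc
    obtain ⟨t, ht, hty⟩ := hyc
    refine ⟨t⁻¹, inv_mem ht, ?_⟩
    have := (hC _ (mul_mem (mul_mem ht hy) (inv_mem ht))
      (hxy.trans (isConj_iff.mpr ⟨t, rfl⟩))).resolve_right
        fun h => hty (mul_inv_eq_iff_eq_mul.mp h)
    rw [← this]
    group
  exfalso
  obtain ⟨g, hg⟩ := isConj_iff.mp hxy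
  obtain ⟨n, hn, hn'⟩ := H4.exists_normalizer_conj_eq_of_centralizer P (A := {x}) (g := g)
    (by rintro _ rfl; exact hxc) (by rintro _ rfl; rw [hg]; exact hyc)
  have h1 := relIndex_le_fuseCard le_rfl hx (Subgroup.le_normalizer hx)
  have h2 := two_le_relIndex_centralizer
    (N := Subgroup.normalizer ((P : Subgroup G) : Set G)) (x := x) fun hc => by
      have := hc n hn
      apply hne
      rw [← hg, ← hn' x rfl, this]
      group
  have hle : (P : Subgroup G) ≤ Subgroup.centralizer ({x} : Set G) := fun z hz =>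
    Subgroup.mem_centralizer_singleton_iff.mpr (hxc z hz)
  have h3 := H4.not_dvd_relIndex_sylow P
    (K := Subgroup.normalizer ((P : Subgroup G) : Set G)) Subgroup.le_normalizer
  exact h3 ((dvd_of_eq (by omega)).trans (Subgroup.relIndex_dvd_of_le_left _ hle))

theorem kP_bound_three (P : Sylow p G) {m : ℕ} (hm : 0 < m)
    (h : ∀ x ∈ (P : Subgroup G), 3 ≤ fuseCard ((P : Subgroup G) : Set G) x →
      m ≤ fuseCard ((P : Subgroup G) : Set G) x) :
    2 * m * kQ G (fun x => ∃ k, orderOf x = p ^ k) +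
      m * {x | x ∈ (P : Subgroup G) ∧ 3 ≤ fuseCard ((P : Subgroup G) : Set G) x}.ncard ≤
      m * Nat.card (P : Subgroup G) + m * Nat.card (isol P) +
      2 * {x | x ∈ (P : Subgroup G) ∧ 3 ≤ fuseCard ((P : Subgroup G) : Set G) x}.ncard := by
  classical
  have := Fintype.ofFinite G
  have h1 := kP_eq_sum P
  have h2 : (2 * m : ℚ) * ∑ x ∈ Finset.univ.filter (· ∈ (P : Subgroup G)),
        1 / (fuseCard ((P : Subgroup G) : Set G) x : ℚ) ≤
      ∑ x ∈ Finset.univ.filter (· ∈ (P : Subgroup G)), (m + (if x ∈ isol P then (m : ℚ) else 0) +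
        if 3 ≤ fuseCard ((P : Subgroup G) : Set G) x then (2 - m : ℚ) else 0) := by
    rw [Finset.mul_sum]
    refine Finset.sum_le_sum fun x hx => ?_
    have hxP := (Finset.mem_filter.mp hx).2
    have hpos : (0 : ℚ) < fuseCard ((P : Subgroup G) : Set G) x := by
      exact_mod_cast fuseCard_pos hxP
    have hone : (1 : ℚ) ≤ fuseCard ((P : Subgroup G) : Set G) x := by
      exact_mod_cast fuseCard_pos hxP
    have hm0 : (0 : ℚ) ≤ m := by positivity
    rw [mul_one_div, div_le_iff₀ hpos]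
    split_ifs with hxZ h3 h3
    · have : (m : ℚ) ≤ fuseCard ((P : Subgroup G) : Set G) x := by exact_mod_cast h x hxP h3
      nlinarith
    · nlinarith
    · have : (m : ℚ) ≤ fuseCard ((P : Subgroup G) : Set G) x := by exact_mod_cast h x hxP h3
      nlinarith
    · have : (2 : ℚ) ≤ fuseCard ((P : Subgroup G) : Set G) x := by
        exact_mod_cast two_le_fuseCard P hxP hxZ
      nlinarith
  rw [← h1, Finset.sum_add_distrib, Finset.sum_add_distrib, Finset.sum_const, card_filter_mem,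
    ← Finset.sum_filter, ← Finset.sum_filter,
    Finset.sum_const, Finset.sum_const, Finset.filter_filter, Finset.filter_filter] at h2
  have h3 : (Finset.univ.filter (fun x => x ∈ (P : Subgroup G) ∧ x ∈ isol P)).card =
      Nat.card (isol P) := by
    rw [← card_filter_mem]
    congr 1
    ext x
    simp only [Finset.mem_filter, Finset.mem_univ, true_and, and_iff_right_iff_imp]
    exact fun hx => hx.1
  have h4 : (Finset.univ.filter (fun x => x ∈ (P : Subgroup G) ∧
      3 ≤ fuseCard ((P : Subgroup G) : Set G) x)).card =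
      {x | x ∈ (P : Subgroup G) ∧ 3 ≤ fuseCard ((P : Subgroup G) : Set G) x}.ncard := by
    rw [← Set.ncard_coe_finset]
    congr 1
    ext x
    simp
  rw [h3, h4] at h2
  simp only [nsmul_eq_mul] at h2
  have : ((2 * m * kQ G (fun x => ∃ k, orderOf x = p ^ k) +
      m * {x | x ∈ (P : Subgroup G) ∧ 3 ≤ fuseCard ((P : Subgroup G) : Set G) x}.ncard : ℕ) : ℚ) ≤
      ((m * Nat.card (P : Subgroup G) + m * Nat.card (isol P) +
      2 * {x | x ∈ (P : Subgroup G) ∧ 3 ≤ fuseCard ((P : Subgroup G) : Set G) x}.ncard : ℕ) : ℚ) := by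
    push_cast
    linarith
  exact_mod_cast this

theorem mul_card_isol_le (P : Sylow p G) (A : Set G)
    (hA : A ⊆ {x | x ∈ (P : Subgroup G) ∧ 3 ≤ fuseCard ((P : Subgroup G) : Set G) x})
    (hinj : ∀ a ∈ A, ∀ b ∈ A, a⁻¹ * b ∈ isol P → a = b) :
    A.ncard * Nat.card (isol P) ≤
      {x | x ∈ (P : Subgroup G) ∧ 3 ≤ fuseCard ((P : Subgroup G) : Set G) x}.ncard := by
  have h1 : A.ncard * Nat.card (isol P) = (A ×ˢ (isol P : Set G)).ncard := by
    rw [Set.ncard_prod]
    rfl
  rw [h1]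
  refine Set.ncard_le_ncard_of_injOn (fun t => t.1 * t.2) ?_ ?_ (Set.toFinite _)
  · rintro ⟨a, w⟩ ⟨ha, hw⟩
    exact ⟨mul_mem (hA ha).1 hw.1, (hA ha).2.trans (fuseCard_le_mul_isol P (hA ha).1 hw)⟩
  · rintro ⟨a, w⟩ ⟨ha, hw⟩ ⟨b, v⟩ ⟨hb, hv⟩ hab
    simp only at hab ha hb hw hv
    have : a = b := hinj a ha b hb (by
      have : a⁻¹ * b = w * v⁻¹ := by
        rw [inv_mul_eq_iff_eq_mul, ← mul_assoc, hab]; group
      rw [this]
      exact mul_mem hw (inv_mem hv))
    subst this
    rw [mul_left_cancel hab]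

/-- More than `|P|/2` classes of `2`-elements force a normal `2`-complement. -/
theorem hasNormalPComplement_of_kTwo (P : Sylow 2 G)
    (h : Nat.card (P : Subgroup G) < 2 * kQ G (fun x => ∃ k, orderOf x = 2 ^ k)) :
    Cfsg.HasNormalPComplement 2 G := by
  classical
  have h1 := kP_bound_three P (m := 3) (by norm_num) fun _ _ h => h
  have hW : 0 < Nat.card (isol P) := Nat.card_pos
  have h4 : ∀ x ∈ (P : Subgroup G), 3 ≤ fuseCard ((P : Subgroup G) : Set G) x →
      4 ≤ fuseCard ((P : Subgroup G) : Set G) x := by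
    intro x hx h3
    by_contra hlt
    have heq : fuseCard ((P : Subgroup G) : Set G) x = 3 := by omega
    have h5 := mul_card_isol_le P {y | y ∈ (P : Subgroup G) ∧ IsConj x y}
      (fun y hy => ⟨hy.1, by rw [← fuseCard_congr hy.2]; exact h3⟩) (by
        rintro a ⟨ha, hxa⟩ b ⟨hb, hxb⟩ hw
        set w := a⁻¹ * b with hwdef
        have hb' : b = a * w := by rw [hwdef]; group
        have hstep : ∀ y ∈ (P : Subgroup G), IsConj x y → IsConj x (y * w) := fun y hy hxy =>
          hxb.trans (hb' ▸ isConj_mul_isol P ha hy (hxa.symm.trans hxy) hw)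
        let K := Subgroup.zpowers w
        have hK : ∀ k ∈ K, ∀ y ∈ (P : Subgroup G), IsConj x y → IsConj x (y * k) := by
          intro k hk
          obtain ⟨n, rfl⟩ := (mem_zpowers_iff_mem_range_orderOf.mp hk |> Finset.mem_image.mp :
            ∃ n ∈ Finset.range (orderOf w), w ^ n = k).imp fun _ h => h.2
          clear hk
          induction n with
          | zero => intro y _ hy; simpa using hy
          | succ n ih =>
            intro y hy hxy
            rw [pow_succ, ← mul_assoc]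
            exact hstep _ (mul_mem hy (pow_mem hw.1 n)) (ih y hy hxy)
        have hKW : K ≤ isol P := by simpa [K] using hw
        obtain ⟨j, hj⟩ := (IsPGroup.iff_orderOf.mp P.isPGroup') ⟨w, hw.1⟩
        rw [Subgroup.orderOf_mk] at hj
        by_contra hab
        have hw1 : w ≠ 1 := fun h => hab (by rw [hb', h, mul_one])
        have hj0 : j ≠ 0 := by
          rintro rfl
          exact hw1 (orderOf_eq_one_iff.mp hj)
        obtain ⟨t, htK, ht⟩ := H1.exists_mem_orderOf_eq_prime (H := K) Nat.prime_two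
          (by rw [Nat.card_zpowers, hj]; exact dvd_pow_self 2 hj0)
        have ht2 : t * t = 1 := by rw [← pow_two, ← ht, pow_orderOf_eq_one]
        have ht1 : t ≠ 1 := by rintro rfl; simp at ht
        -- right multiplication by `t` is a fixed-point-free involution of a set of size three
        obtain ⟨u, v, z, huv, huz, hvz, hset⟩ := Set.ncard_eq_three.mp heq
        have hmem : ∀ y, y = u ∨ y = v ∨ y = z → (y * t = u ∨ y * t = v ∨ y * t = z) := by
          intro y hy
          have hy' : y ∈ {y | y ∈ ((P : Subgroup G) : Set G) ∧ IsConj x y} := by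
            rw [hset]; simpa using hy
          have : y * t ∈ {y | y ∈ ((P : Subgroup G) : Set G) ∧ IsConj x y} :=
            ⟨mul_mem hy'.1 (hKW htK).1, hK t htK y hy'.1 hy'.2⟩
          rw [hset] at this
          simpa using this
        have hfix : ∀ y : G, y * t ≠ y := fun y h => ht1 (by simpa using h)
        have hinv : ∀ y y' : G, y * t = y' → y' * t = y := fun y y' h => by
          rw [← h, mul_assoc, ht2, mul_one]
        rcases hmem u (Or.inl rfl) with h6 | h6 | h6
        · exact hfix u h6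
        · rcases hmem z (Or.inr (Or.inr rfl)) with h7 | h7 | h7
          · exact hvz (h6.symm.trans (hinv _ _ h7))
          · exact huz ((hinv _ _ h6).symm.trans (hinv _ _ h7))
          · exact hfix z h7
        · rcases hmem v (Or.inr (Or.inl rfl)) with h7 | h7 | h7
          · exact hvz ((hinv _ _ h7).symm.trans h6)
          · exact hfix v h7
          · exact huv ((hinv _ _ h6).symm.trans (hinv _ _ h7)))
    change fuseCard ((P : Subgroup G) : Set G) x * _ ≤ _ at h5
    rw [heq] at h5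
    omega
  have h2 := kP_bound_three P (m := 4) (by norm_num) h4
  rw [H4.hasNormalPComplement_iff_controls_fusion P]
  intro x hx g hg
  by_cases h3 : 3 ≤ fuseCard ((P : Subgroup G) : Set G) x
  · refine conj_in_sylow_of_coset P hx (fun y hy hxy => ?_) hg (isConj_iff.mpr ⟨g, rfl⟩)
    by_contra hw
    have hne : x ≠ y := by rintro rfl; exact hw (by simp)
    have h5 := mul_card_isol_le P {x, y} (by
      rintro z (rfl | rfl)
      · exact ⟨hx, h3⟩
      · exact ⟨hy, by rw [← fuseCard_congr hxy]; exact h3⟩) (by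
      rintro a (rfl | rfl) b (rfl | rfl) hab
      · rfl
      · exact (hw hab).elim
      · exact (hw (by simpa using inv_mem hab)).elim
      · rfl)
    rw [Set.ncard_pair hne] at h5
    omega
  · exact conj_in_sylow_of_fuseCard_le_two P hx (by omega) hg (isConj_iff.mpr ⟨g, rfl⟩)

end H77
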