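import Mathlib
import Cfsg.Agent.Base
import Cfsg.Agent.Lib.FGS.PLength
import Cfsg.Agent.Lib.Core.HallSZ
import Cfsg.Agent.Lib.Core.MinNormal
import Cfsg.Agent.Lib.Core.Frattini

/-! `p`-solvable groups whose maximal subgroups are `p`-nilpotent or of prime index (helper76). -/

set_option autoImplicit false

namespace H76

open Cfsg Subgroup
open scoped commutatorElement Pointwise

universe u

variable {G : Type*} [Group G] {G' : Type*} [Group G'] {p : ℕ}

theorem RelP.exists_relIndex [Finite G] [Fact p.Prime] {A B : Subgroup G} [A.Normal]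
    (h : RelP p A B) : ∃ k, A.relIndex B = p ^ k := by
  have h1 : RelP p (QuotientGroup.mk' A).ker B := by rwa [QuotientGroup.ker_mk']
  rw [relP_ker_iff, IsPGroup.iff_card, H3.card_map_mk'_eq_relIndex] at h1
  exact h1

theorem RelQ.coprime_relIndex [Finite G] [Fact p.Prime] {A B : Subgroup G} [A.Normal]
    (h : RelQ p A B) : (A.relIndex B).Coprime p := by
  have h1 : RelQ p (QuotientGroup.mk' A).ker B := by rwa [QuotientGroup.ker_mk']
  rwa [relQ_ker_iff, H3.card_map_mk'_eq_relIndex] at h1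

/-- `O_{p'}` of a Frattini quotient by a `p`-group. -/
theorem pPrimeCore_eq_bot_of_ker_le_frattini' [Finite G] [Finite G'] [hp : Fact p.Prime]
    (hO : pPrimeCore p G = ⊥) {f : G →* G'} (hf : Function.Surjective f)
    (hk : f.ker ≤ frattini G) (hkp : IsPGroup p f.ker) : pPrimeCore p G' = ⊥ := by
  set L := (pPrimeCore p G').comap f with hL
  have hNL : f.ker ≤ L := fun x hx => by
    rw [hL, mem_comap, (MonoidHom.mem_ker).1 hx]; exact one_mem _
  have hq : RelQ p f.ker L := (le_comap_pPrimeCore_iff hf).1 le_rfl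
  have hc : (Nat.card f.ker).Coprime (f.ker.relIndex L) := by
    obtain ⟨k, hk⟩ := IsPGroup.iff_card.1 hkp
    rw [hk]
    exact (hq.coprime_relIndex.symm).pow_left k
  obtain ⟨K, hKL, hsup, hinf, hcard⟩ :=
    H3.exists_complement_in hNL (by rw [normalizer_eq_top]; exact le_top) hc
  have hs : Group.IsSolvable f.ker := by
    have := hkp.isNilpotent
    infer_instance
  have hN : normalizer (K : Set G) ⊔ f.ker = ⊤ := by
    rw [eq_top_iff]
    intro g _
    obtain ⟨e, he, hek⟩ := H3.exists_conj_eq_of_coprime (N := f.ker) (H := MulAut.conj g • K)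
      (K := K) (by rw [normalizer_eq_top]; exact le_top)
      (by
        rw [hsup, H3.conj_smul_le_iff]
        exact fun x hx => (inferInstance : L.Normal).conj_mem x (hKL hx) g)
      (H3.card_conj_smul g K) (hcard ▸ hc) (Or.inl hs)
    rw [H3.conj_smul_conj_smul, H3.conj_smul_eq_self_iff] at hek
    have : g = e⁻¹ * (e * g) := by group
    rw [this]
    exact mul_mem (mem_sup_right (inv_mem he)) (mem_sup_left hek)
  have hKn : K.Normal :=
    normalizer_eq_top_iff.1 (H1.eq_top_of_sup_eq_top_of_le_frattini hk hN)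
  have hKb : K = ⊥ := by
    rw [eq_bot_iff, ← hO, ← ups_one]
    refine (le_ups_odd_iff (k := 0)).2 ?_
    rw [show ups p G (2 * 0) = ⊥ from ups_zero, relQ_bot_iff, hcard]
    exact hq.coprime_relIndex
  rw [hKb, sup_bot_eq] at hsup
  rw [eq_bot_iff]
  intro y hy
  obtain ⟨x, rfl⟩ := hf y
  have : x ∈ f.ker := by rw [hsup]; exact hy
  exact mem_bot.2 this

theorem comap_ups_succ_le [Finite G] [Finite G'] [Fact p.Prime] (f : G →* G') {n : ℕ}
    (h : (ups p G' n).comap f ≤ ups p G n) : (ups p G' (n + 1)).comap f ≤ ups p G (n + 1) :=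
  le_ups_succ_iff.2 (((rel_ups n).comap f).mono h le_rfl)

/-- `M` is `p`-nilpotent (ambient form). -/
def PNil (p : ℕ) (M : Subgroup G) : Prop :=
  ∃ K : Subgroup G, (∀ m ∈ M, ∀ k ∈ K, m * k * m⁻¹ ∈ K) ∧ RelQ p ⊥ K ∧ RelP p K M

theorem PNil.map {M : Subgroup G} (h : PNil p M) (f : G →* G') : PNil p (M.map f) := by
  obtain ⟨K, h1, h2, h3⟩ := h
  refine ⟨K.map f, ?_, ?_, h3.map f⟩
  · rintro _ ⟨m, hm, rfl⟩ _ ⟨k, hk, rfl⟩
    exact ⟨_, h1 m hm k hk, by simp⟩
  · simpa using h2.map f

theorem pNil_of_normal [Finite G] [hp : Fact p.Prime] {M : Subgroup G} (K : Subgroup M)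
    [hK : K.Normal] (h1 : ¬ p ∣ Nat.card K) {k : ℕ} (h2 : K.index = p ^ k) : PNil p M := by
  refine ⟨K.map M.subtype, ?_, ?_, ?_⟩
  · rintro m hm _ ⟨x, hx, rfl⟩
    exact ⟨_, hK.conj_mem x hx ⟨m, hm⟩, rfl⟩
  · rw [relQ_bot_iff, H3.card_map_subtype]
    exact ((Nat.Prime.coprime_iff_not_dvd hp.out).2 h1).symm
  · intro x hx
    exact ⟨k, ⟨x, hx⟩ ^ p ^ k, h2 ▸ K.pow_index_mem _, rfl⟩

theorem PNil.ups_two_eq_top [Finite G] [Fact p.Prime] (h : PNil p (⊤ : Subgroup G)) :
    ups p G 2 = ⊤ := by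
  obtain ⟨K, h1, h2, h3⟩ := h
  have hK : K.Normal := ⟨fun k hk m => h1 m (mem_top _) k hk⟩
  have h4 : K ≤ ups p G (2 * 0 + 1) := le_ups_odd_iff.2 (h2.mono bot_le le_rfl)
  exact eq_top_iff.2 ((le_ups_even_iff (k := 0)).2 (h3.mono h4 le_rfl))

theorem ups_four_eq_top_aux [hp : Fact p.Prime] (n : ℕ) : ∀ (G : Type u) [Group G] [Finite G],
    Nat.card G = n → IsPSolvable p G →
    (∀ M : Subgroup G, IsCoatom M → PNil p M ∨ M.index.Prime) → ups p G 4 = ⊤ := by
  induction n using Nat.strong_induction_on with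
  | _ n ih =>
  intro G _ _ hG hs hmax
  have key : ∀ (N : Subgroup G) [N.Normal], N ≠ ⊥ → ups p (G ⧸ N) 4 = ⊤ := by
    intro N _ hN
    refine ih _ (hG ▸ H3.card_quotient_lt N hN) _ rfl (isPSolvable_quotient hs N) ?_
    intro M hM
    have hf := QuotientGroup.mk'_surjective N
    rcases hmax _ (isCoatom_comap_of_surjective hf hM) with h | h
    · left
      have := h.map (QuotientGroup.mk' N)
      rwa [map_comap_eq_self_of_surjective hf] at this
    · right
      rwa [index_comap_of_surjective _ hf] at h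
  rcases subsingleton_or_nontrivial G with hG1 | hG1
  · exact Subsingleton.elim _ _
  by_cases hO : pPrimeCore p G = ⊥
  swap
  · have := comap_ups_le' (p := p) (QuotientGroup.mk' (pPrimeCore p G)) (j := 0)
      (by rw [QuotientGroup.ker_mk']; exact (ups_one (p := p) (G := G)).ge) 3
    rw [show 3 + 1 = 4 from rfl, key _ hO, comap_top] at this
    exact eq_top_iff.2 this
  obtain ⟨N, hN⟩ := H3.exists_isMinNormal G
  have := hN.normal
  have hNp : IsPGroup p N := by
    rcases hN.isPiSubgroup_or (isPSolvable_iff.1 (isPSolvable_subgroup hs N)) with h | h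
    · rw [H3.isPiSubgroup_iff_piNum, H3.piNum_singleton_iff hp.out Nat.card_pos.ne'] at h
      exact IsPGroup.iff_card.2 h
    · rw [H3.isPiSubgroup_iff_piNum, H3.piNum_compl_singleton_iff hp.out] at h
      exfalso
      apply hN.ne_bot
      rw [eq_bot_iff, ← hO, ← ups_one]
      refine (le_ups_odd_iff (k := 0)).2 ?_
      rw [show ups p G (2 * 0) = ⊥ from ups_zero, relQ_bot_iff]
      exact h
  have hNc : IsMulCommutative N := hN.isMulCommutative (by have := hNp.isNilpotent; infer_instance)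
  have hN2 : N ≤ ups p G 2 :=
    (le_ups_even_iff (k := 0)).2 ((relP_bot_iff.2 hNp).mono bot_le le_rfl)
  have hf := QuotientGroup.mk'_surjective N
  by_cases hΦ : N ≤ frattini G
  · have h1 : pPrimeCore p (G ⧸ N) = ⊥ := pPrimeCore_eq_bot_of_ker_le_frattini' hO hf
      (by rwa [QuotientGroup.ker_mk']) (by rwa [QuotientGroup.ker_mk'])
    have h2 : (ups p (G ⧸ N) 2).comap (QuotientGroup.mk' N) ≤ ups p G 2 := by
      refine (le_ups_even_iff (k := 0)).2 ?_
      have h3 := (relP_ups (p := p) (G := G ⧸ N) 0).comap (QuotientGroup.mk' N)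
      rw [show 2 * 0 + 1 = 1 from rfl, ups_one, h1, MonoidHom.comap_bot,
        QuotientGroup.ker_mk'] at h3
      exact ((relP_bot_iff.2 hNp).trans h3).mono bot_le le_rfl
    have h4 := comap_ups_succ_le _ (comap_ups_succ_le _ h2)
    rw [show 2 + 1 + 1 = 4 from rfl, key N hN.ne_bot, comap_top] at h4
    exact eq_top_iff.2 h4
  rw [H1.le_frattini_iff] at hΦ
  push Not at hΦ
  obtain ⟨M, hM, hNM⟩ := hΦ
  have hsup : N ⊔ M = ⊤ := hM.2 _ (lt_of_le_of_ne le_sup_right fun h => hNM (h ▸ le_sup_left))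
  have hcomm : ∀ a ∈ N, ∀ b ∈ N, a * b = b * a := fun a ha b hb =>
    congrArg Subtype.val (hNc.is_comm.comm (⟨a, ha⟩ : N) ⟨b, hb⟩)
  -- a subgroup of `M` normalised by `M` and centralised by `N` is normal
  have hnorm : ∀ D : Subgroup G, (∀ m ∈ M, ∀ d ∈ D, m * d * m⁻¹ ∈ D) →
      (∀ a ∈ N, ∀ d ∈ D, a * d = d * a) → D.Normal := by
    intro D h1 h2
    refine ⟨fun d hd g => ?_⟩
    obtain ⟨a, ha, m, hm, rfl⟩ := H3.mem_sup_iff_of_normal.1 (hsup ▸ mem_top g : g ∈ N ⊔ M)
    have h3 := h1 m hm d hd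
    have : a * m * d * (a * m)⁻¹ = m * d * m⁻¹ := by
      calc a * m * d * (a * m)⁻¹ = (a * (m * d * m⁻¹)) * a⁻¹ := by group
        _ = m * d * m⁻¹ := by rw [h2 a ha _ h3]; group
    rwa [this]
  have hinf : N ⊓ M = ⊥ := by
    have := hnorm (N ⊓ M)
      (fun m hm d hd => mem_inf.2 ⟨hN.normal.conj_mem d (mem_inf.1 hd).1 m,
        M.mul_mem (M.mul_mem hm (mem_inf.1 hd).2) (M.inv_mem hm)⟩)
      (fun a ha d hd => hcomm a ha d (mem_inf.1 hd).1)
    rcases hN.eq_bot_or_eq _ this inf_le_left with h | h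
    · exact h
    · exact absurd (h ▸ inf_le_right) hNM
  rcases hmax M hM with h | h
  · have h1 := h.map (QuotientGroup.mk' N)
    have h2 : M.map (QuotientGroup.mk' N) = ⊤ := by
      have := congrArg (Subgroup.map (QuotientGroup.mk' N)) hsup
      rwa [Subgroup.map_sup, QuotientGroup.map_mk'_self, bot_sup_eq, map_top_of_surjective _ hf] at this
    rw [h2] at h1
    have h3 := comap_ups_le (p := p) (QuotientGroup.mk' N) (j := 1)
      (by rw [QuotientGroup.ker_mk']; exact hN2) 2
    rw [h1.ups_two_eq_top, comap_top] at h3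
    exact eq_top_iff.2 h3
  · set D := centralizer (N : Set G) ⊓ M with hD
    have hDn : D.Normal := hnorm D
      (fun m hm d hd => mem_inf.2 ⟨(inferInstance : (centralizer (N : Set G)).Normal).conj_mem d
        (mem_inf.1 hd).1 m, M.mul_mem (M.mul_mem hm (mem_inf.1 hd).2) (M.inv_mem hm)⟩)
      (fun a ha d hd => (mem_centralizer_iff.1 (mem_inf.1 hd).1) a ha)
    by_cases hDb : D = ⊥
    swap
    · have h3 := comap_inf_comap_ups_le (p := p) (QuotientGroup.mk' N) (QuotientGroup.mk' D)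
        (by
          rw [QuotientGroup.ker_mk', QuotientGroup.ker_mk', eq_bot_iff, ← hinf]
          exact inf_le_inf_left _ inf_le_right) 4
      rw [key N hN.ne_bot, key D hDb, comap_top, comap_top, top_inf_eq] at h3
      exact eq_top_iff.2 h3
    have hcard : Nat.card N = M.index := by
      have h1 := H3.card_sup_of_inf_eq_bot (N := N) (K := M)
        (by rw [normalizer_eq_top]; exact le_top) hinf
      rw [hsup, card_top, ← M.index_mul_card] at h1
      exact (Nat.eq_of_mul_eq_mul_right Nat.card_pos h1).symm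
    have hNp' : Nat.card N = p := by
      obtain ⟨k, hk⟩ := IsPGroup.iff_card.1 hNp
      rw [← hcard, hk] at h
      rw [hk, (Nat.Prime.eq_one_of_pow h), pow_one]
    have hcyc : IsCyclic N := isCyclic_of_prime_card hNp'
    have hC : centralizer (N : Set G) ≤ N := by
      intro c hc
      obtain ⟨a, ha, m, hm, rfl⟩ := H3.mem_sup_iff_of_normal.1 (hsup ▸ mem_top c : c ∈ N ⊔ M)
      have h1 : a ∈ centralizer (N : Set G) := fun b hb => hcomm b hb a ha
      have h2 : m ∈ D := mem_inf.2 ⟨by simpa using mul_mem (inv_mem h1) hc, hm⟩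
      rw [hDb, mem_bot] at h2
      rwa [h2, mul_one]
    have hq : RelQ p N ⊤ := by
      intro g _
      refine ⟨p - 1, (Nat.coprime_self_sub_left hp.out.one_le).2 (by simp), hC ?_⟩
      have h1 : (MulAut.conjNormal (H := N) g) ^ (p - 1) = 1 := by
        rw [← Nat.totient_prime hp.out, ← hNp', ← IsCyclic.card_mulAut]
        exact pow_card_eq_one'
      rw [← map_pow] at h1
      intro b hb
      have h2 := congrArg Subtype.val (DFunLike.congr_fun h1 ⟨b, hb⟩)
      simp only [MulAut.conjNormal_apply, MulAut.one_apply] at h2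
      rw [mul_inv_eq_iff_eq_mul] at h2
      exact h2.symm
    have h3 : ⊤ ≤ ups p G (2 * 1 + 1) := le_ups_odd_iff.2 (hq.mono hN2 le_rfl)
    exact eq_top_iff.2 (h3.trans (ups_mono (by norm_num)))

theorem ups_four_eq_top [Finite G] [hp : Fact p.Prime] (hs : IsPSolvable p G)
    (hmax : ∀ M : Subgroup G, IsCoatom M →
      (∃ K : Subgroup M, K.Normal ∧ ¬ p ∣ Nat.card K ∧ ∃ k : ℕ, K.index = p ^ k) ∨
        M.index.Prime) : ups p G 4 = ⊤ := by
  refine ups_four_eq_top_aux _ G rfl hs fun M hM => ?_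
  rcases hmax M hM with ⟨K, h1, h2, k, h3⟩ | h
  · exact Or.inl (pNil_of_normal K h2 h3)
  · exact Or.inr h

end H76
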