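import Cfsg.Agent.Lib.FGS.ConjSub
import Cfsg.Agent.Lib.PGroup.MaxClass2
import Cfsg.Agent.Lib.PGroup.Omega
import Cfsg.Agent.Lib.PGroup.Rank
import Cfsg.Agent.Lib.Core.CoprimeAbelian

/-!
Groups in which every non-cyclic subgroup contains its centralizer.
-/

set_option autoImplicit false

namespace H78.SelfCent

open Subgroup

variable {G : Type*} [Group G] {p : ℕ}

theorem not_isCyclic_of_pow_eq_one [Finite G] (hp : p.Prime) {E : Subgroup G}
    (hc : Nat.card E = p ^ 2) (h : ∀ x ∈ E, x ^ p = 1) : ¬ IsCyclic E := by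
  intro hE
  obtain ⟨g, hg⟩ := hE.exists_ofOrder_eq_natCard
  have h1 := orderOf_dvd_of_pow_eq_one (h g g.2)
  rw [orderOf_coe, hg, hc] at h1
  have := Nat.le_of_dvd hp.pos h1
  nlinarith [hp.two_le]

theorem centralizer_le_of_gens [Finite G] {a b : G} {m : ℕ} (ha : orderOf a = 2 ^ (m + 1))
    (hba : b * a * b⁻¹ = a⁻¹ ∨ (2 ≤ m ∧ b * a * b⁻¹ = a⁻¹ * a ^ 2 ^ m))
    (hi : (zpowers a).index = 2) (hb : b ∉ zpowers a) (H : Subgroup G) (hH : ¬ IsCyclic H) :
    centralizer (H : Set G) ≤ H := by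
  haveI := normal_of_index_eq_two hi
  obtain ⟨c, hcH, hca⟩ := SetLike.not_le_iff_exists.mp
    (fun e : H ≤ zpowers a => hH (Subgroup.isCyclic_of_le e))
  have hcb : c * a * c⁻¹ = b * a * b⁻¹ := by
    have h1 : b⁻¹ * c ∈ zpowers a :=
      (mul_mem_iff_of_index_two hi).mpr (iff_of_false (fun e => hb ((inv_mem_iff).mp e)) hca)
    obtain ⟨k, hk⟩ := h1
    have : c = b * a ^ k := by simp only at hk; rw [hk]; group
    rw [this]
    group
  rw [← hcb] at hba
  have hne : H ⊓ zpowers a ≠ ⊥ := by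
    intro e
    apply hH
    refine isCyclic_of_card_dvd_prime (p := 2) ?_
    have h1 := relIndex_dvd_index_of_normal (zpowers a) H
    rwa [← inf_relIndex_right, inf_comm, e, relIndex_bot_left, hi] at h1
  have hz : a ^ 2 ^ m ∈ H := by
    obtain ⟨x, hx, hxp⟩ := H2.exists_mem_prime_orderOf hne
    have h2 := orderOf_dvd_of_mem_zpowers hx.2
    rw [ha] at h2
    have h3 : orderOf x = 2 :=
      (Nat.prime_dvd_prime_iff_eq hxp Nat.prime_two).mp (hxp.dvd_of_dvd_pow h2)
    rcases H5.eq_one_or_half ha hx.2 (by rw [← sq, ← h3, pow_orderOf_eq_one]) with e | e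
    · rw [e, orderOf_one] at h3
      omega
    · exact e ▸ hx.1
  have hzc : c ∈ centralizer (zpowers (a ^ 2 ^ m) : Set G) := by
    rw [H80.centralizer_zpowers, H80.mem_Cx_iff_conj]
    exact H5.conj_half ha (Normal.conj_mem inferInstance a (mem_zpowers a) c)
  have hK : zpowers (a ^ 2 ^ m) ⊔ zpowers c = centralizer {c} := by
    refine eq_of_le_of_card_ge (sup_le ?_ (H80.zpowers_le_Cx c)) ?_
    · rw [← H80.centralizer_zpowers, le_centralizer_iff, zpowers_le]
      exact hzc
    · rw [H5.card_sup_zpowers Nat.prime_two (centralizer_le_normalizer _ hzc)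
        (fun e => hca (zpowers_le.mpr (pow_mem (mem_zpowers a) _) e)), Nat.card_zpowers,
        orderOf_eq_prime (by rw [sq, H5.half_mul_self ha]) (H5.half_ne_one ha)]
      · exact H5.card_centralizer_le_four ha hba hi
      · rcases H5.eq_one_or_half_of_commute ha hba (x := c ^ 2) (hi ▸ pow_index_mem _ c)
          (by group) with e | e <;> rw [e]
        exacts [one_mem _, mem_zpowers _]
  refine (centralizer_le (Set.singleton_subset_iff.mpr hcH)).trans ?_
  rw [← hK]
  exact sup_le (zpowers_le.mpr hz) (zpowers_le.mpr hcH)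

theorem exists_card_centralizer_le [Finite G] (hG : IsPGroup 2 G) (hnc : ¬ IsCyclic G)
    (h : ∀ H : Subgroup G, ¬ IsCyclic H → centralizer (H : Set G) ≤ H) :
    ∃ x : G, Nat.card (centralizer ({x} : Set G)) ≤ 2 ^ 2 := by
  obtain ⟨z, -, hz, hzo⟩ := H5.exists_mem_center_orderOf_eq hG ⊤ (fun e => by
    haveI : Subsingleton G := ⟨fun a b =>
      (mem_bot.mp (e.le (mem_top a))).trans (mem_bot.mp (e.le (mem_top b))).symm⟩
    exact hnc inferInstance)
  have hz1 : z ≠ 1 := fun e => by rw [e, orderOf_one] at hzo; omega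
  by_cases hx : ∃ x, orderOf x = 2 ∧ x ∉ zpowers z
  · obtain ⟨x, hxo, hx⟩ := hx
    have hx2 : x ^ 2 = 1 := hxo ▸ pow_orderOf_eq_one x
    have hxc : x ∈ centralizer (zpowers z : Set G) :=
      le_centralizer_iff.mp ((zpowers_le.mpr hz).trans (center_le_centralizer _)) (mem_zpowers x)
    refine ⟨x, ?_⟩
    have h1 := h (zpowers z ⊔ zpowers x) (H5.not_isCyclic_of_two_invol
      (mem_sup_left (mem_zpowers z)) (mem_sup_right (mem_zpowers x)) hz1
      (fun e => hx (e ▸ one_mem _)) (fun e => hx (e ▸ mem_zpowers z))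
      (by rw [← sq, ← hzo, pow_orderOf_eq_one]) (by rw [← sq, hx2]))
    refine (card_le_of_le (le_trans (fun g hg => ?_) h1)).trans ?_
    · exact H5.mem_centralizer_sup_zpowers
        (le_centralizer_iff.mp ((zpowers_le.mpr hz).trans (center_le_centralizer _))
          (mem_zpowers g)) hg
    · rw [H5.card_sup_zpowers Nat.prime_two (centralizer_le_normalizer _ hxc) hx
        (hx2 ▸ one_mem _), Nat.card_zpowers, hzo]
      norm_num
  · push Not at hx
    have aux : ∀ H : Subgroup G, Nat.card H = 2 → H = zpowers z := by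
      intro H hH
      obtain ⟨y, hy⟩ := (Subgroup.isCyclic_iff_exists_zpowers_eq_top H).mp
        (isCyclic_of_prime_card hH)
      subst hy
      rw [Nat.card_zpowers] at hH
      exact eq_of_le_of_card_ge (zpowers_le.mpr (hx y hH))
        (by rw [Nat.card_zpowers, Nat.card_zpowers, hH, hzo])
    obtain ⟨-, n, ⟨e⟩⟩ := (Cfsg.Agent.S0016.result 2 hG
      fun H K hH hK => (aux H hH).trans (aux K hK).symm).resolve_left hnc
    haveI : NeZero (2 ^ n) := ⟨by positivity⟩
    have ha : orderOf (e.symm (QuaternionGroup.a 1)) = 2 ^ (n + 1) := by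
      rw [MulEquiv.orderOf_eq, QuaternionGroup.orderOf_a_one]; ring
    refine ⟨e.symm (QuaternionGroup.xa 0), H5.card_centralizer_le_four ha (Or.inl ?_) ?_⟩
    · rw [← map_inv, ← map_inv, ← map_mul, ← map_mul, mul_inv_eq_iff_eq_mul.mpr]
      rw [eq_inv_mul_iff_mul_eq]
      simp
    · have h1 := (zpowers (e.symm (QuaternionGroup.a 1))).card_mul_index
      rw [Nat.card_zpowers, ha, Nat.card_congr e.toEquiv, Nat.card_eq_fintype_card,
        QuaternionGroup.card] at h1
      refine Nat.eq_of_mul_eq_mul_left (by positivity : 0 < 2 ^ (n + 1)) (h1.trans ?_)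
      ring

end H78.SelfCent
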