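import Cfsg.Agent.Base
import Cfsg.Agent.Lib.FGS.ClassSize
import Cfsg.Agent.Lib.Core.MinNormal
import Cfsg.Agent.Lib.Core.Fitting
import Cfsg.Agent.Lib.PGroup.Omega
import Cfsg.Agent.Lib.Solv.Supersolvable
import Cfsg.Agent.Lib.PGroup.Commutator

/-!
Solvable groups all of whose class sizes are square-free have cyclic derived subgroup of
square-free order.
-/

set_option autoImplicit false

namespace H78.SqFree

open Subgroup Cfsg H80
open scoped commutatorElement

section Comm

variable {V : Type*} [CommGroup V]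

/-- the map `v ↦ a v * v⁻¹` -/
def phi (a : MulAut V) : V →* V where
  toFun v := a v * v⁻¹
  map_one' := by simp
  map_mul' v w := by rw [map_mul, mul_inv, mul_mul_mul_comm]

theorem phi_apply (a : MulAut V) (v : V) : phi a v = a v * v⁻¹ := rfl

theorem mem_ker_phi {a : MulAut V} {v : V} : v ∈ (phi a).ker ↔ a v = v := by
  rw [MonoidHom.mem_ker, phi_apply, mul_inv_eq_one]

theorem range_le_ker {a b : MulAut V} (hab : Commute a b)
    (h : (phi a).range ⊓ (phi b).range = ⊥) : (phi b).range ≤ (phi a).ker := by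
  rintro _ ⟨v, rfl⟩
  have h1 : phi a (phi b v) = phi b (phi a v) := by
    have : a (b v) = b (a v) := by
      rw [← MulAut.mul_apply, hab.eq, MulAut.mul_apply]
    simp only [phi_apply, map_mul, map_inv, this, mul_inv, inv_inv]
    simp only [mul_assoc, mul_comm, mul_left_comm]
  have h2 : phi a (phi b v) ∈ (phi a).range ⊓ (phi b).range := ⟨⟨_, rfl⟩, ⟨_, h1.symm⟩⟩
  rwa [h] at h2

end Comm

theorem inf_eq_bot_of_card_prime {V : Type*} [Group V] {p : ℕ} (hp : p.Prime) {A B : Subgroup V}
    (hA : Nat.card A = p) (h : ¬ A ≤ B) : A ⊓ B = ⊥ := by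
  rcases (Nat.dvd_prime hp).mp (hA ▸ card_dvd_of_le (inf_le_left : A ⊓ B ≤ A)) with h1 | h1
  · exact card_eq_one.mp h1
  · haveI : Finite A := Nat.finite_of_card_ne_zero (hA ▸ hp.ne_zero)
    exact absurd (inf_eq_left.mp (eq_of_le_of_card_ge inf_le_left (by rw [h1, hA]))) h

theorem not_le_of_ne {V : Type*} [Group V] [Finite V] {A B : Subgroup V}
    (h : Nat.card A = Nat.card B) (hne : A ≠ B) : ¬ A ≤ B :=
  fun hle => hne (eq_of_le_of_card_ge hle h.ge)

theorem sq_dvd_card {V : Type*} [CommGroup V] [Finite V] {p : ℕ} (hp : p.Prime)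
    {A B C : Subgroup V} (hA : Nat.card A = p) (hB : Nat.card B = p) (hne : A ≠ B)
    (hAC : A ⊓ C ≠ ⊥) (hBC : B ⊓ C ≠ ⊥) : p ^ 2 ∣ Nat.card C := by
  have h1 : A ≤ C := by
    by_contra h
    exact hAC (inf_eq_bot_of_card_prime hp hA h)
  have h2 : B ≤ C := by
    by_contra h
    exact hBC (inf_eq_bot_of_card_prime hp hB h)
  have h3 := H1.card_sup_mul_card_inf_of_normal A B
  rw [inf_eq_bot_of_card_prime hp hA (not_le_of_ne (hA.trans hB.symm) hne), card_bot, mul_one,
    hA, hB] at h3
  rw [sq, ← h3]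
  exact card_dvd_of_le (sup_le h1 h2)

theorem lines {V : Type*} [CommGroup V] [Finite V] {p : ℕ} (hp : p.Prime) {a b : MulAut V}
    (hab : Commute a b) (ha : Nat.card (phi a).range = p) (hb : Nat.card (phi b).range = p)
    (hne : (phi a).range ≠ (phi b).range) (ha' : ¬ (phi a).range ≤ (phi a).ker)
    (hb' : ¬ (phi b).range ≤ (phi b).ker) : p ^ 2 ∣ Nat.card (phi (a * b)).range := by
  have hbot := inf_eq_bot_of_card_prime hp ha (not_le_of_ne (ha.trans hb.symm) hne)
  have h1 := range_le_ker hab hbot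
  have h2 := range_le_ker hab.symm (by rwa [inf_comm])
  refine sq_dvd_card hp ha hb hne ?_ ?_
  · obtain ⟨v, hv, hv'⟩ := SetLike.not_le_iff_exists.mp ha'
    intro h
    have h3 : phi a v ∈ (phi a).range ⊓ (phi (a * b)).range := ⟨⟨v, rfl⟩, ⟨v, by
      rw [phi_apply, phi_apply, MulAut.mul_apply, mem_ker_phi.mp (h2 hv)]⟩⟩
    rw [h] at h3
    exact hv' h3
  · obtain ⟨v, hv, hv'⟩ := SetLike.not_le_iff_exists.mp hb'
    intro h
    have h3 : phi b v ∈ (phi b).range ⊓ (phi (a * b)).range := ⟨⟨v, rfl⟩, ⟨v, by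
      rw [phi_apply, phi_apply, hab.eq, MulAut.mul_apply, mem_ker_phi.mp (h1 hv)]⟩⟩
    rw [h] at h3
    exact hv' h3

theorem eq_one_or_prime {p k n : ℕ} (hp : p.Prime) (h : n ∣ p ^ k) (hs : Squarefree n) :
    n = 1 ∨ n = p := by
  obtain ⟨j, -, rfl⟩ := (Nat.dvd_prime_pow hp).mp h
  rcases j with _ | _ | j
  · simp
  · simp
  · exact absurd (hs p ⟨p ^ j, by ring⟩) (by simpa using hp.one_lt.ne')

theorem not_sq_dvd {p n : ℕ} (hp : p.Prime) (hs : Squarefree n) : ¬ p ^ 2 ∣ n := fun h =>
  absurd (hs p (sq p ▸ h)) (by simpa using hp.one_lt.ne')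

variable {G : Type*} [Group G]

theorem conjNormal_eq_one_iff (V : Subgroup G) [V.Normal] (x : G) :
    (MulAut.conjNormal x : MulAut V) = 1 ↔ x ∈ centralizer (V : Set G) := by
  rw [mem_centralizer_iff]
  constructor
  · intro h v hv
    have := congrArg (fun b : MulAut V => ((b ⟨v, hv⟩ : V) : G)) h
    simp only [MulAut.conjNormal_apply, MulAut.one_apply] at this
    exact (mul_inv_eq_iff_eq_mul.mp this).symm
  · intro h
    ext v
    rw [MulAut.conjNormal_apply, ← h v v.2, MulAut.one_apply, mul_inv_cancel_right]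

theorem commute_conjNormal (V : Subgroup G) [V.Normal] {x y : G}
    (h : ⁅x, y⁆ ∈ centralizer (V : Set G)) :
    Commute (MulAut.conjNormal x : MulAut V) (MulAut.conjNormal y) := by
  rw [← commutatorElement_eq_one_iff_commute, ← map_commutatorElement, conjNormal_eq_one_iff]
  exact h

open scoped IsMulCommutative

theorem card_range (V : Subgroup G) [V.Normal] [IsMulCommutative V] (x : G) :
    Nat.card (phi (MulAut.conjNormal x : MulAut V)).range = (Cx⟦x⟧).relIndex V := by
  rw [← index_ker, relIndex]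
  congr 1
  ext v
  rw [mem_ker_phi, mem_subgroupOf, mem_Cx', Subtype.ext_iff, MulAut.conjNormal_apply,
    mul_inv_eq_iff_eq_mul]

theorem card_range_dvd [Finite G] (V : Subgroup G) [V.Normal] [IsMulCommutative V] (x : G) :
    Nat.card (phi (MulAut.conjNormal x : MulAut V)).range ∣ cs⟦x⟧ :=
  card_range V x ▸ relIndex_Cx_dvd_cs V x

theorem card_range_eq [Finite G] {p : ℕ} [hp : Fact p.Prime] (V : Subgroup G) [V.Normal]
    [IsMulCommutative V] (hV : IsPGroup p V) {x : G} (hs : Squarefree cs⟦x⟧)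
    (hx : x ∉ centralizer (V : Set G)) :
    Nat.card (phi (MulAut.conjNormal x : MulAut V)).range = p := by
  obtain ⟨k, hk⟩ := (hV.to_subgroup (phi (MulAut.conjNormal x : MulAut V)).range).exists_card_eq
  refine (eq_one_or_prime hp.out hk.dvd (hs.squarefree_of_dvd (card_range_dvd V x))).resolve_left ?_
  rw [card_range, relIndex_eq_one, le_Cx_iff]
  exact hx

theorem normal_map_range (V : Subgroup G) [V.Normal] [IsMulCommutative V] (x : G)
    (h : ∀ g : G, (phi (MulAut.conjNormal (g * x * g⁻¹) : MulAut V)).range =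
      (phi (MulAut.conjNormal x : MulAut V)).range) :
    ((phi (MulAut.conjNormal x : MulAut V)).range.map V.subtype).Normal := by
  constructor
  rintro _ ⟨_, ⟨v, rfl⟩, rfl⟩ g
  refine ⟨phi (MulAut.conjNormal (g * x * g⁻¹) : MulAut V) (MulAut.conjNormal g v),
    h g ▸ ⟨_, rfl⟩, ?_⟩
  simp only [phi_apply, coe_subtype, coe_mul, coe_inv, MulAut.conjNormal_apply]
  group

theorem card_prime_of_isMinNormal [Finite G] [Group.IsSolvable G]
    (h : ∀ x : G, Squarefree cs⟦x⟧) {N : Subgroup G} (hN : H3.IsMinNormal N) :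
    (Nat.card N).Prime := by
  haveI := hN.normal
  obtain ⟨hc, p, hp, hd, hpow, hNp⟩ := hN.elementary inferInstance
  haveI : Fact p.Prime := ⟨hp⟩
  by_cases hZ : centralizer (N : Set G) = ⊤
  · obtain ⟨x, hx⟩ := exists_prime_orderOf_dvd_card' p hd
    have h1 : (zpowers (x : G)).Normal := H21.zpowers_normal_of_mem_center (by
      rw [mem_center_iff]
      intro g
      exact (mem_centralizer_iff.mp (hZ.ge (mem_top g)) x x.2).symm)
    rcases hN.eq_bot_or_eq _ h1 (zpowers_le.mpr x.2) with e | e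
    · rw [zpowers_eq_bot, OneMemClass.coe_eq_one] at e
      rw [e, orderOf_one] at hx
      exact absurd hx hp.one_lt.ne
    · rw [← e, Nat.card_zpowers, orderOf_coe, hx]
      exact hp
  set K := centralizer (N : Set G) with hK
  haveI : Nontrivial (G ⧸ K) := QuotientGroup.nontrivial_iff.mpr hZ
  obtain ⟨B, hB, -, hBc, r, hr, -, hBr, -⟩ :=
    H3.exists_normal_elementary_le (⊤ : Subgroup (G ⧸ K)) top_ne_bot inferInstance
  haveI := hB.normal
  let M : Subgroup G := B.comap (QuotientGroup.mk' K)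
  have hMr : ∀ x ∈ M, (MulAut.conjNormal x : MulAut N) ^ r = 1 := by
    intro x hx
    rw [← map_pow, conjNormal_eq_one_iff, ← hK, ← QuotientGroup.eq_one_iff, QuotientGroup.mk_pow]
    exact hBr _ hx
  have hMK : ¬ M ≤ K := by
    intro hle
    apply hB.ne_bot
    rw [eq_bot_iff]
    intro b hb
    obtain ⟨g, rfl⟩ := QuotientGroup.mk_surjective b
    exact (QuotientGroup.eq_one_iff g).mpr (hle hb)
  have hrp : r ≠ p := by
    rintro rfl
    have hA : IsPGroup r (M.map (MulAut.conjNormal : G →* MulAut N)) := by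
      rintro ⟨_, x, hx, rfl⟩
      exact ⟨1, Subtype.ext (by rw [pow_one]; exact hMr x hx)⟩
    obtain ⟨b, hb, hb1⟩ := hA.exists_fixed_point_of_prime_dvd_card_of_fixed_point N hd
      (a := 1) (fun g => smul_one g)
    rcases hN.eq_bot_or_eq (N ⊓ centralizer (M : Set G)) inferInstance inf_le_left with e | e
    · have : (b : G) ∈ N ⊓ centralizer (M : Set G) := ⟨b.2, mem_centralizer_iff.mpr fun g hg =>
        mul_inv_eq_iff_eq_mul.mp (congrArg Subtype.val (hb ⟨_, g, hg, rfl⟩))⟩
      rw [e] at this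
      exact hb1 (Subtype.ext this.symm)
    · exact hMK (le_centralizer_iff.mp (inf_eq_left.mp e))
  have hnot : ∀ x ∈ M, x ∉ K → ¬ (phi (MulAut.conjNormal x : MulAut N)).range ≤
      (phi (MulAut.conjNormal x : MulAut N)).ker := by
    intro x hx hxK hle
    apply hxK
    rw [hK, ← conjNormal_eq_one_iff, ← orderOf_eq_one_iff]
    refine Nat.eq_one_of_dvd_coprimes ((Nat.coprime_primes hr hp).mpr hrp)
      (orderOf_dvd_of_pow_eq_one (hMr x hx)) (orderOf_dvd_of_pow_eq_one ?_)
    ext1 v
    rw [H5.aut_pow_apply_of_apply_eq_mul _ (c := phi (MulAut.conjNormal x : MulAut N) v)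
      (by rw [phi_apply, mul_comm, inv_mul_cancel_right]) (mem_ker_phi.mp (hle ⟨v, rfl⟩)),
      MulAut.one_apply, mul_eq_left]
    exact Subtype.ext (hpow _ (SetLike.coe_mem _))
  obtain ⟨x, hxM, hxK⟩ := SetLike.not_le_iff_exists.mp hMK
  have hcard := card_range_eq N hNp (h x) hxK
  have hn := normal_map_range N x (fun g => by
    by_contra hne
    have hgM : g * x * g⁻¹ ∈ M := Normal.conj_mem inferInstance x hxM g
    have hgK : g * x * g⁻¹ ∉ K := fun e => hxK (by
      have := Normal.conj_mem inferInstance _ e g⁻¹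
      simpa [mul_assoc] using this)
    have h1 := lines hp (commute_conjNormal N (by
      rw [← hK, ← QuotientGroup.eq_one_iff]
      have := congrArg Subtype.val (mul_comm' (⟨_, hgM⟩ : B) ⟨_, hxM⟩)
      exact (map_commutatorElement (QuotientGroup.mk' K) _ _).trans
        (commutatorElement_eq_one_iff_mul_comm.mpr this)))
      (card_range_eq N hNp (h _) hgK) hcard hne (hnot _ hgM hgK) (hnot _ hxM hxK)
    rw [← map_mul] at h1
    exact not_sq_dvd hp (h _) (h1.trans (card_range_dvd N _)))
  have hc2 := (card_map_of_injective (K := (phi (MulAut.conjNormal x : MulAut N)).range)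
    N.subtype_injective).trans hcard
  rcases hN.eq_bot_or_eq _ hn (map_subtype_le _) with e | e
  · rw [e, card_bot] at hc2
    exact absurd hc2 hp.one_lt.ne
  · rw [e] at hc2
    exact hc2 ▸ hp

/-- the homomorphism `g ↦ [x, g]` in a group of class two -/
def psi (hZ : ∀ x y z : G, Commute x ⁅y, z⁆) (x : G) : G →* G where
  toFun g := ⁅x, g⁆
  map_one' := by simp
  map_mul' a b := H5.commutator_mul_right_of_commute (hZ _ _ _)

theorem ker_psi (hZ : ∀ x y z : G, Commute x ⁅y, z⁆) (x : G) : (psi hZ x).ker = Cx⟦x⟧ := by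
  ext g
  rw [MonoidHom.mem_ker, mem_Cx']
  exact commutatorElement_eq_one_iff_mul_comm

theorem false_of_central [Finite G] (h : ∀ x : G, Squarefree cs⟦x⟧) {p : ℕ} (hp : p.Prime)
    (hD : Nat.card (_root_.commutator G) = p ^ 2) (hc : _root_.commutator G ≤ center G) :
    False := by
  set D := _root_.commutator G with hDdef
  have hmem : ∀ y z : G, ⁅y, z⁆ ∈ D := fun y z => commutator_mem_commutator (mem_top _) (mem_top _)
  have hZ : ∀ x y z : G, Commute x ⁅y, z⁆ := fun x y z => mem_center_iff.mp (hc (hmem y z)) x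
  haveI : IsMulCommutative D := ⟨⟨fun a b => Subtype.ext (mem_center_iff.mp (hc b.2) a)⟩⟩
  let R : G → Subgroup D := fun x => (psi hZ x).range.subgroupOf D
  have hle : ∀ x, (psi hZ x).range ≤ D := by
    rintro x _ ⟨g, rfl⟩
    exact hmem _ _
  have hR : ∀ x, Nat.card (R x) = cs⟦x⟧ := fun x => by
    rw [← ker_psi hZ, index_ker]
    exact Nat.card_congr (subgroupOfEquivOfLe (hle x)).toEquiv
  have hRm : ∀ x g, (⟨⁅x, g⁆, hmem x g⟩ : D) ∈ R x := fun x g => ⟨g, rfl⟩
  have hRp : ∀ x g : G, ⁅x, g⁆ ≠ 1 → Nat.card (R x) = p := by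
    intro x g hg
    refine (eq_one_or_prime hp (hD ▸ card_subgroup_dvd_card (R x)) (hR x ▸ h x)).resolve_left ?_
    rw [card_eq_one]
    intro e
    have := hRm x g
    rw [e, mem_bot] at this
    exact hg (congrArg Subtype.val this)
  have key : ∀ x y g g' : G, ⁅x, g⁆ ≠ 1 → ⁅y, g'⁆ ≠ 1 → R x = R y := by
    intro x y g g' hx hy
    by_contra hne
    have hpx := hRp x g hx
    have hpy := hRp y g' hy
    by_cases hC : Cx⟦x⟧ = Cx⟦y⟧
    · have hy' : ⁅y, g⁆ ≠ 1 := by
        intro e
        apply hx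
        have : g ∈ Cx⟦y⟧ := mem_Cx'.mpr (commutatorElement_eq_one_iff_mul_comm.mp e)
        rw [← hC] at this
        exact commutatorElement_eq_one_iff_mul_comm.mpr (mem_Cx'.mp this)
      have aux : ∀ w : G, ⁅w, g⁆ ≠ 1 → R w = R g := by
        intro w hw
        have hg : ⁅g, w⁆ ≠ 1 := by
          rw [← commutatorElement_inv]
          exact inv_ne_one.mpr hw
        by_contra hne
        have hb := inf_eq_bot_of_card_prime hp (hRp w g hw)
          (not_le_of_ne ((hRp w g hw).trans (hRp g w hg).symm) hne)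
        have : (⟨⁅w, g⁆, hmem w g⟩ : D) ∈ R w ⊓ R g := ⟨hRm w g, by
          have e : (⟨⁅w, g⁆, hmem w g⟩ : D) = (⟨⁅g, w⁆, hmem g w⟩ : D)⁻¹ :=
            Subtype.ext (commutatorElement_inv g w).symm
          rw [e]
          exact (R g).inv_mem (hRm g w)⟩
        rw [hb, mem_bot] at this
        exact hw (congrArg Subtype.val this)
      exact hne ((aux x hx).trans (aux y hy').symm)
    · have hcard : Nat.card Cx⟦x⟧ = Nat.card Cx⟦y⟧ := by
        have h1 := card_Cx_mul_cs x
        have h2 := card_Cx_mul_cs y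
        rw [← hR, hpx] at h1
        rw [← hR, hpy] at h2
        exact Nat.eq_of_mul_eq_mul_right hp.pos (h1.trans h2.symm)
      obtain ⟨a, ha, ha'⟩ := SetLike.not_le_iff_exists.mp (not_le_of_ne hcard hC)
      obtain ⟨b, hb, hb'⟩ := SetLike.not_le_iff_exists.mp (not_le_of_ne hcard.symm (Ne.symm hC))
      rw [mem_Cx', ← commutatorElement_eq_one_iff_mul_comm] at ha ha' hb hb'
      refine not_sq_dvd hp (h (x * y)) (hR (x * y) ▸ sq_dvd_card hp hpx hpy hne ?_ ?_)
      · intro e
        have : (⟨⁅x, b⁆, hmem x b⟩ : D) ∈ R x ⊓ R (x * y) := ⟨hRm x b, b, by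
          change ⁅x * y, b⁆ = ⁅x, b⁆
          rw [H5.commutator_mul_left_of_commute (hZ _ _ _), hb, one_mul]⟩
        rw [e, mem_bot] at this
        exact hb' (congrArg Subtype.val this)
      · intro e
        have : (⟨⁅y, a⁆, hmem y a⟩ : D) ∈ R y ⊓ R (x * y) := ⟨hRm y a, a, by
          change ⁅x * y, a⁆ = ⁅y, a⁆
          rw [H5.commutator_mul_left_of_commute (hZ _ _ _), ha, mul_one]⟩
        rw [e, mem_bot] at this
        exact ha' (congrArg Subtype.val this)
  have hlt : p < p ^ 2 := by nlinarith [hp.two_le]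
  by_cases hex : ∃ x g : G, ⁅x, g⁆ ≠ 1
  · obtain ⟨x, g, hx⟩ := hex
    have : D ≤ (R x).map D.subtype := by
      refine commutator_le.mpr fun a _ b _ => ?_
      by_cases hab : ⁅a, b⁆ = 1
      · rw [hab]; exact one_mem _
      · exact ⟨_, key a x b g hab hx ▸ hRm a b, rfl⟩
    have h2 := card_le_of_le this
    rw [card_map_of_injective D.subtype_injective, hRp x g hx, hD] at h2
    omega
  · push Not at hex
    have : D ≤ ⊥ := by
      rw [hDdef, _root_.commutator_def, commutator_le]
      intro a _ b _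
      exact hex a b
    rw [le_bot_iff.mp this, card_bot] at hD
    have := hp.two_le
    omega

theorem false_of_card_sq [Finite G] (h : ∀ x : G, Squarefree cs⟦x⟧) {p : ℕ} (hp : p.Prime)
    (hD : Nat.card (_root_.commutator G) = p ^ 2) : False := by
  haveI : Fact p.Prime := ⟨hp⟩
  set D := _root_.commutator G with hDdef
  have hmem : ∀ y z : G, ⁅y, z⁆ ∈ D := fun y z => commutator_mem_commutator (mem_top _) (mem_top _)
  haveI : IsMulCommutative D := IsPGroup.isMulCommutative_of_card_eq_prime_sq hD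
  have hDp : IsPGroup p D := IsPGroup.of_card hD
  set K := centralizer (D : Set G) with hK
  by_cases hZ : K = ⊤
  · exact false_of_central h hp hD (centralizer_eq_top_iff_subset.mp hZ)
  have hDK : D ≤ K := le_centralizer D
  have hlt : p < p ^ 2 := by nlinarith [hp.two_le]
  have hker : ∀ x ∉ K, Nat.card (phi (MulAut.conjNormal x : MulAut D)).ker = p := by
    intro x hx
    have h1 := card_mul_index (phi (MulAut.conjNormal x : MulAut D)).ker
    rw [index_ker, card_range_eq D hDp (h x) hx, hD, sq] at h1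
    exact Nat.eq_of_mul_eq_mul_right hp.pos h1
  have key : ∀ x ∉ K, ∀ y ∉ K, (phi (MulAut.conjNormal x : MulAut D)).range =
      (phi (MulAut.conjNormal y : MulAut D)).range := by
    intro x hx y hy
    by_contra hne
    have hcx := card_range_eq D hDp (h x) hx
    have hcy := card_range_eq D hDp (h y) hy
    have hab := commute_conjNormal D (hDK (hmem x y))
    have hbot := inf_eq_bot_of_card_prime hp hcx (not_le_of_ne (hcx.trans hcy.symm) hne)
    have h1 := eq_of_le_of_card_ge (range_le_ker hab hbot) (by rw [hker x hx, hcy])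
    have h2 := eq_of_le_of_card_ge (range_le_ker hab.symm (by rwa [inf_comm]))
      (by rw [hker y hy, hcx])
    have h3 := lines hp hab hcx hcy hne
      (by rw [← h1]; exact not_le_of_ne (hcx.trans hcy.symm) hne)
      (by rw [← h2]; exact not_le_of_ne (hcy.trans hcx.symm) (Ne.symm hne))
    rw [← map_mul] at h3
    exact not_sq_dvd hp (h _) (h3.trans (card_range_dvd D _))
  obtain ⟨x, hx⟩ : ∃ x, x ∉ K := by
    by_contra hn
    push Not at hn
    exact hZ (eq_top_iff.mpr fun x _ => hn x)
  haveI hL := normal_map_range D x (fun g => key _ (fun e => hx (by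
      have := Normal.conj_mem inferInstance _ e g⁻¹
      simpa [mul_assoc] using this)) _ hx)
  set L := (phi (MulAut.conjNormal x : MulAut D)).range.map D.subtype with hLdef
  have hLc : Nat.card L = p := (card_map_of_injective D.subtype_injective).trans
    (card_range_eq D hDp (h x) hx)
  obtain ⟨P, hP⟩ := hDp.exists_le_sylow
  haveI : (P : Subgroup G).Normal := Normal.of_commutator_le G hP
  have h1 : ∀ y ∉ K, ∀ u ∈ (P : Subgroup G), ⁅u, y⁆ ∈ L := by
    intro y hy u hu
    have hsub : ((fun g : G => g * y * g⁻¹) '' (D : Set G)) ⊆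
        ((fun g : G => g * y * g⁻¹) '' ((P : Subgroup G) : Set G)) := Set.image_mono hP
    have heq := Set.eq_of_subset_of_ncard_le hsub (by
      rw [ncard_image_conj, ncard_image_conj, ← card_range D, card_range_eq D hDp (h y) hy]
      obtain ⟨k, hk⟩ := P.isPGroup'.exists_card_eq
      rcases eq_one_or_prime hp (hk ▸ relIndex_dvd_card _ _)
        ((h y).squarefree_of_dvd (relIndex_Cx_dvd_cs (P : Subgroup G) y)) with e | e
      · rw [e]; exact hp.one_le
      · rw [e])
    obtain ⟨d, hd, e⟩ : u * y * u⁻¹ ∈ ((fun g : G => g * y * g⁻¹) '' (D : Set G)) :=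
      heq ▸ ⟨u, hu, rfl⟩
    have : ⁅u, y⁆ = (((phi (MulAut.conjNormal y : MulAut D) ⟨d, hd⟩)⁻¹ : D) : G) := by
      rw [commutatorElement_def, ← e]
      simp only [phi_apply, coe_mul, coe_inv, MulAut.conjNormal_apply]
      group
    rw [this]
    exact ⟨_, inv_mem (key y hy x hx ▸ ⟨_, rfl⟩), rfl⟩
  have h2 : ∀ u ∈ (P : Subgroup G), ∀ y : G,
      Commute (QuotientGroup.mk' L u) (QuotientGroup.mk' L y) := by
    have aux : ∀ u ∈ (P : Subgroup G), ∀ y ∉ K,
        Commute (QuotientGroup.mk' L u) (QuotientGroup.mk' L y) := by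
      intro u hu y hy
      rw [← commutatorElement_eq_one_iff_commute, ← map_commutatorElement]
      exact (QuotientGroup.eq_one_iff _).mpr (h1 y hy u hu)
    intro u hu y
    by_cases hy : y ∈ K
    · have := (aux u hu (y * x) fun e => hx ((mul_mem_cancel_left hy).mp e)).mul_right
        (aux u hu x hx).inv_right
      rwa [map_mul, mul_inv_cancel_right] at this
    · exact aux u hu y hy
  have h3 : D ≤ L := by
    refine commutator_le.mpr fun a _ b _ => ?_
    rw [← QuotientGroup.eq_one_iff, ← orderOf_eq_one_iff]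
    refine Nat.eq_one_of_dvd_coprimes ((H4.coprime_index_sylow P).pow_right 2)
      (orderOf_dvd_of_pow_eq_one ?_) (orderOf_dvd_of_pow_eq_one ?_)
    · have e := H5.commutator_pow_left (x := QuotientGroup.mk' L a) (y := QuotientGroup.mk' L b)
        (by rw [← map_commutatorElement]; exact (h2 _ (hP (hmem a b)) a).symm)
        (P : Subgroup G).index
      rw [← map_pow, commutatorElement_eq_one_iff_commute.mpr (h2 _ (pow_index_mem _ a) b),
        ← map_commutatorElement] at e
      exact e.symm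
    · rw [← QuotientGroup.mk_pow, ← hD]
      have := congrArg Subtype.val (pow_card_eq_one' (x := (⟨_, hmem a b⟩ : D)))
      rw [show ⁅a, b⁆ ^ Nat.card D = 1 from this, QuotientGroup.mk_one]
  have := card_le_of_le h3
  omega

theorem card_map_mk_mul [Finite G] {D N : Subgroup G} [N.Normal] (h : N ≤ D) :
    Nat.card (D.map (QuotientGroup.mk' N)) * Nat.card N = Nat.card D := by
  have h1 := H1.card_map_mul_card_inf_ker (QuotientGroup.mk' N) D
  rwa [QuotientGroup.ker_mk', inf_of_le_left h] at h1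

theorem commutator_cyclic_squarefree (n : ℕ) : ∀ (G : Type*) [Group G] [Finite G]
    [Group.IsSolvable G], Nat.card G = n → (∀ x : G, Squarefree cs⟦x⟧) →
    IsCyclic (_root_.commutator G) ∧ Squarefree (Nat.card (_root_.commutator G)) := by
  induction n using Nat.strong_induction_on with
  | _ n ih =>
  intro G _ _ _ hn h
  set D := _root_.commutator G with hDdef
  have step : ∀ N : Subgroup G, H3.IsMinNormal N → N ≤ D → IsMulCommutative D ∧
      ∃ m, Squarefree m ∧ m * Nat.card N = Nat.card D ∧ (Nat.card N).Prime := by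
    intro N hN hND
    haveI := hN.normal
    have hp := card_prime_of_isMinNormal h hN
    obtain ⟨h1, h2⟩ := ih _ (hn ▸ H1.card_quotient_lt hN.ne_bot) (G ⧸ N) rfl
      (fun x => by
        obtain ⟨x, rfl⟩ := QuotientGroup.mk_surjective x
        exact (h x).squarefree_of_dvd (cs_mk_dvd N x))
    have e : D.map (QuotientGroup.mk' N) = _root_.commutator (G ⧸ N) := by
      rw [hDdef, map_commutator_eq, MonoidHom.range_eq_top_of_surjective _ (QuotientGroup.mk'_surjective N)]
      rfl
    rw [← e] at h1 h2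
    refine ⟨?_, _, h2, card_map_mk_mul hND, hp⟩
    haveI : Fact (Nat.card N).Prime := ⟨hp⟩
    obtain ⟨g, rfl⟩ := (Subgroup.isCyclic_iff_exists_zpowers_eq_top N).mp (isCyclic_of_prime_card rfl)
    have hc := H21.commutator_le_centralizer_zpowers hN.normal
    refine MonoidHom.isMulCommutative_of_isCyclic_of_ker_le_center
      ((QuotientGroup.mk' (zpowers g)).subgroupMap D) ?_
    intro x hx
    have hx' : (x : G) ∈ zpowers g :=
      (QuotientGroup.eq_one_iff _).mp (congrArg Subtype.val (MonoidHom.mem_ker.mp hx))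
    exact mem_center_iff.mpr fun y => Subtype.ext (mem_centralizer_iff.mp (hc y.2) _ hx').symm
  by_cases hD : D = ⊥
  · rw [hD]
    exact ⟨inferInstance, by simp⟩
  obtain ⟨N₀, hN₀, hN₀D⟩ := H3.exists_isMinNormal_le D hD
  haveI hcomm := (step N₀ hN₀ hN₀D).1
  have hDF : D ≤ fittingSubgroup G := H1.le_fitting_of_isMulCommutative
  have step2 : ∀ r : ℕ, r.Prime → r ∣ Nat.card D → ∃ m, Squarefree m ∧ m * r = Nat.card D := by
    intro r hr hd
    haveI : Fact r.Prime := ⟨hr⟩
    obtain ⟨x, hx⟩ := exists_prime_orderOf_dvd_card' r hd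
    have hx1 : IsPGroup r (zpowers (x : G)) :=
      IsPGroup.of_card (n := 1) (by rw [Nat.card_zpowers, orderOf_coe, hx, pow_one])
    have hx2 := H1.le_pCore_of_le_fitting hx1 ((zpowers_le.mpr x.2).trans hDF)
    have hne : pCore r G ⊓ D ≠ ⊥ := by
      intro e
      have : (x : G) ∈ pCore r G ⊓ D := ⟨hx2 (mem_zpowers _), x.2⟩
      rw [e, mem_bot, OneMemClass.coe_eq_one] at this
      rw [this, orderOf_one] at hx
      exact hr.one_lt.ne hx
    obtain ⟨N, hN, hNle⟩ := H3.exists_isMinNormal_le (pCore r G ⊓ D) hne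
    obtain ⟨-, m, hm, hm2, hNp⟩ := step N hN (hNle.trans inf_le_right)
    obtain ⟨k, hk⟩ := ((H1.isPGroup_pCore (p := r) (G := G)).to_le (hNle.trans inf_le_left)).exists_card_eq
    have : Nat.card N = r :=
      (Nat.prime_dvd_prime_iff_eq hNp hr).mp (hNp.dvd_of_dvd_pow hk.dvd)
    exact ⟨m, hm, this ▸ hm2⟩
  have hsq : Squarefree (Nat.card D) := by
    rw [Nat.squarefree_iff_prime_squarefree]
    intro p hp hpp
    obtain ⟨m, hm, hm2⟩ := step2 p hp (dvd_of_mul_left_dvd hpp)
    have hall : ∀ q : ℕ, q.Prime → q ∣ m → q = p := by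
      intro q hq hqm
      by_contra hne
      obtain ⟨m', hm', hm2'⟩ := step2 q hq (hqm.trans (Dvd.intro _ hm2))
      rw [← hm2'] at hpp
      have hc : (p * p).Coprime q :=
        ((Nat.coprime_primes hp hq).mpr (Ne.symm hne)).mul_left
          ((Nat.coprime_primes hp hq).mpr (Ne.symm hne))
      exact not_sq_dvd hp hm' (sq p ▸ hc.dvd_of_dvd_mul_right hpp)
    have hm3 := Nat.eq_prime_pow_of_unique_prime_dvd hm.ne_zero (fun hq hqm => hall _ hq hqm)
    rcases eq_one_or_prime hp hm3.dvd hm with e | e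
    · rw [← hm2, e, one_mul] at hpp
      have := Nat.le_of_dvd hp.pos hpp
      nlinarith [hp.two_le]
    · exact false_of_card_sq h hp (by rw [← hDdef, ← hm2, e, sq])
  haveI := IsZGroup.of_squarefree hsq
  haveI : Group.IsNilpotent D := H1.isNilpotent_of_isMulCommutative
  exact ⟨inferInstance, hsq⟩

end H78.SqFree
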