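import Mathlib
import Cfsg.Agent.Lib.FGS.Casolo
import Cfsg.Agent.Lib.Core.HallSZ

/-! Counting conjugates of a `p`-subgroup inside `P M` along a normal series. -/

set_option autoImplicit false

namespace H80

open Subgroup Cfsg H68

variable {G : Type*} [Group G] {p : ℕ}

theorem sylow_sup_eq_of_relIndex_pow [Finite G] [Fact p.Prime] (P : Sylow p G) {M L : Subgroup G}
    [M.Normal] [L.Normal] (hML : M ≤ L) {m : ℕ} (h : M.relIndex L = p ^ m) :
    (P : Subgroup G) ⊔ M = (P : Subgroup G) ⊔ L := by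
  refine le_antisymm (sup_le_sup_left hML _) (sup_le le_sup_left ?_)
  have h1 : SylowIn p ((P : Subgroup G).map (QuotientGroup.mk' M)) ⊤ := by
    have := (sylowIn_top P).map (QuotientGroup.mk' M)
    rwa [map_top_of_surjective _ (QuotientGroup.mk'_surjective M)] at this
  have h2 : IsPGroup p (L.map (QuotientGroup.mk' M)) :=
    IsPGroup.of_card (by rw [H1.card_map_mk'_eq_relIndex, h])
  have := Subgroup.Normal.map (inferInstance : L.Normal) _ (QuotientGroup.mk'_surjective M)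
  have h3 := h1.le_of_le_normalizer h2 le_top (by rw [normalizer_eq_top]; exact le_top)
  rw [map_le_iff_le_comap, comap_map_eq, QuotientGroup.ker_mk'] at h3
  exact h3

theorem sylow_sup_inf_of_coprime [Finite G] [hp : Fact p.Prime] {P M L : Subgroup G}
    (hP : IsPGroup p P) [M.Normal] (hML : M ≤ L) (h : (M.relIndex L).Coprime p) :
    (P ⊔ M) ⊓ L = M := by
  rw [sup_comm, H3.sup_inf_assoc_of_le_normalizer (by rw [normalizer_eq_top]; exact le_top) hML,
    sup_eq_left, ← subgroupOf_eq_top, ← index_eq_one]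
  obtain ⟨k, hk⟩ := IsPGroup.iff_card.1 (hP.to_le (inf_le_left : P ⊓ L ≤ P))
  have h1 : M.relIndex (P ⊓ L) ∣ p ^ k := hk ▸ relIndex_dvd_card _ _
  have h2 : M.relIndex (P ⊓ L) ∣ M.relIndex L := by
    rw [← H1.card_map_mk'_eq_relIndex, ← H1.card_map_mk'_eq_relIndex]
    exact card_dvd_of_le (map_mono inf_le_right)
  exact Nat.eq_one_of_dvd_coprimes (h.pow_right k) h2 h1

theorem card_sylow_sup_of_coprime [Finite G] [hp : Fact p.Prime] {P M L : Subgroup G}
    (hP : IsPGroup p P) [M.Normal] [L.Normal] (hML : M ≤ L) (h : (M.relIndex L).Coprime p) :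
    Nat.card (P ⊔ L : Subgroup G) = Nat.card (P ⊔ M : Subgroup G) * M.relIndex L := by
  have h1 := H1.card_sup_mul_card_inf_of_normal (P ⊔ M) L
  rw [sylow_sup_inf_of_coprime hP hML h, sup_assoc, sup_eq_right.2 hML,
    ← H3.relIndex_mul_card hML, ← mul_assoc] at h1
  exact Nat.eq_of_mul_eq_mul_right Nat.card_pos h1

/-- `C_{L/M}(H)`, pulled back -/
def secCent (H M L : Subgroup G) [hM : M.Normal] : Subgroup G where
  carrier := {u | u ∈ L ∧ ∀ h ∈ H, h * u * h⁻¹ * u⁻¹ ∈ M}
  one_mem' := ⟨L.one_mem, fun h _ => by simp⟩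
  mul_mem' := by
    rintro a b ⟨ha, ha'⟩ ⟨hb, hb'⟩
    refine ⟨L.mul_mem ha hb, fun h hh => ?_⟩
    have := M.mul_mem (ha' h hh) (hM.conj_mem _ (hb' h hh) a)
    convert this using 1
    group
  inv_mem' := by
    rintro a ⟨ha, ha'⟩
    refine ⟨L.inv_mem ha, fun h hh => ?_⟩
    have := hM.conj_mem _ (M.inv_mem (ha' h hh)) a⁻¹
    convert this using 1
    group

theorem mem_secCent {H M L : Subgroup G} [M.Normal] {u : G} :
    u ∈ secCent H M L ↔ u ∈ L ∧ ∀ h ∈ H, h * u * h⁻¹ * u⁻¹ ∈ M := Iff.rfl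

theorem le_secCent {H M L : Subgroup G} [hM : M.Normal] (hML : M ≤ L) : M ≤ secCent H M L :=
  fun u hu => ⟨hML hu, fun h _ => M.mul_mem (hM.conj_mem u hu h) (M.inv_mem hu)⟩

theorem secCent_bot (H L : Subgroup G) : secCent H ⊥ L = L ⊓ centralizer (H : Set G) := by
  ext u
  simp only [mem_secCent, mem_bot, mem_inf, mem_centralizer_iff, SetLike.mem_coe,
    mul_inv_eq_iff_eq_mul, one_mul]

theorem secCent_cj (H M L : Subgroup G) [hM : M.Normal] [hL : L.Normal] (x : G) :
    secCent (cj x H) M L = cj x (secCent H M L) := by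
  ext u
  rw [mem_cj, mem_secCent, mem_secCent]
  constructor
  · rintro ⟨h1, h2⟩
    refine ⟨by simpa using hL.conj_mem u h1 x⁻¹, fun h hh => ?_⟩
    have := hM.conj_mem _ (h2 _ (conj_mem_cj.2 hh)) x⁻¹
    convert this using 1
    group
  · rintro ⟨h1, h2⟩
    refine ⟨by simpa [mul_assoc] using hL.conj_mem _ h1 x, fun h hh => ?_⟩
    have := hM.conj_mem _ (h2 _ (mem_cj.1 hh)) x
    convert this using 1
    group

theorem ncard_cj_le_step [Finite G] [hp : Fact p.Prime] (P : Sylow p G) {H M L : Subgroup G}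
    (hH : IsPGroup p H) [M.Normal] [L.Normal] (hML : M ≤ L) (h : (M.relIndex L).Coprime p) :
    Nat.card L * {x : G | cj x H ≤ (P : Subgroup G) ⊔ M}.ncard =
      Nat.card (secCent H M L) * {x : G | cj x H ≤ (P : Subgroup G) ⊔ L}.ncard := by
  let S : Set (G × G) := {z | z.1 ∈ L ∧ cj (z.1 * z.2) H ≤ (P : Subgroup G) ⊔ M}
  rw [← ncard_eq_mul_of_fiber S _ (fun z => z.1 * z.2) (fun z hz => by exact hz.2),
    ← ncard_eq_mul_of_fiber S _ Prod.snd]
  · rintro ⟨l, x⟩ ⟨h1, h2⟩
    change cj x H ≤ (P : Subgroup G) ⊔ L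
    rw [cj_mul, cj_le_iff] at h2
    exact h2.trans (cj_le_of_mem (inv_mem (mem_sup_right h1)) (sup_le_sup_left hML _))
  · intro x hx
    obtain ⟨g, hg, h1⟩ := (sylowIn_of_le P (le_sup_left : _ ≤ (P : Subgroup G) ⊔ L)).exists_cj_le
      (isPGroup_cj x hH) hx
    obtain ⟨y, hy, l, hl, rfl⟩ := H3.mem_sup_iff_of_normal'.1 hg
    rw [cj_mul, cj_le_iff, cj_eq_of_mem (inv_mem hy), ← cj_mul] at h1
    rw [← card_cj (l * x), ← secCent_cj, ← ncard_coe_subgroup,
      ← Set.ncard_image_of_injective (f := fun u => (u * l, x)) _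
        (fun a b hab => mul_right_cancel (congrArg Prod.fst hab))]
    congr 1
    have key : ∀ u ∈ L, cj u (cj (l * x) H) ≤ (P : Subgroup G) ⊔ M ↔ u ∈ secCent (cj (l * x) H) M L := by
      intro u hu
      rw [cj_le_iff', mem_secCent, and_iff_right hu]
      refine forall₂_congr fun k hk => ?_
      have h2 : k * u * k⁻¹ * u⁻¹ ∈ L := L.mul_mem (Normal.conj_mem inferInstance u hu k) (L.inv_mem hu)
      have h3 : k ∈ (P : Subgroup G) ⊔ M := mem_sup_left (h1 hk)
      rw [← sylow_sup_inf_of_coprime P.2 hML h, mem_inf, and_iff_left h2,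
        sylow_sup_inf_of_coprime P.2 hML h, mul_assoc k, mul_assoc k, mul_mem_cancel_left h3,
        ← inv_mem_iff]
      simp [mul_assoc]
    ext ⟨a, b⟩
    constructor
    · rintro ⟨⟨h2, h3⟩, rfl⟩
      refine ⟨a * l⁻¹, (key _ (mul_mem h2 (inv_mem hl))).1 ?_, by simp⟩
      rw [← cj_mul]
      simpa [mul_assoc] using h3
    · rintro ⟨u, hu, h2⟩
      obtain ⟨rfl, rfl⟩ := Prod.ext_iff.1 h2
      refine ⟨⟨mul_mem hu.1 hl, ?_⟩, rfl⟩
      have := (key u hu.1).2 hu
      rwa [← cj_mul, ← mul_assoc] at this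
  · intro y hy
    rw [← ncard_coe_subgroup, ← Set.ncard_image_of_injective (f := fun u => (u, u⁻¹ * y)) _
        (fun a b hab => congrArg Prod.fst hab)]
    congr 1
    ext ⟨a, b⟩
    constructor
    · rintro ⟨⟨h2, -⟩, rfl⟩
      exact ⟨a, h2, by simp⟩
    · rintro ⟨u, hu, h2⟩
      obtain ⟨rfl, rfl⟩ := Prod.ext_iff.1 h2
      exact ⟨⟨hu, by simpa using hy⟩, by simp⟩

theorem ncard_cj_le_step' [Finite G] [hp : Fact p.Prime] (P : Sylow p G) {H M L : Subgroup G}
    (hH : IsPGroup p H) [M.Normal] [L.Normal] (hML : M ≤ L) (h : (M.relIndex L).Coprime p) :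
    M.relIndex L * {x : G | cj x H ≤ (P : Subgroup G) ⊔ M}.ncard =
      M.relIndex (secCent H M L) * {x : G | cj x H ≤ (P : Subgroup G) ⊔ L}.ncard := by
  have h1 := ncard_cj_le_step P hH hML h
  rw [← H3.relIndex_mul_card hML, ← H3.relIndex_mul_card (le_secCent (H := H) hML),
    mul_right_comm, mul_right_comm (M.relIndex (secCent H M L))] at h1
  exact Nat.eq_of_mul_eq_mul_right Nat.card_pos h1

theorem ncard_cj_le_chain [Finite G] [hp : Fact p.Prime] (P : Sylow p G) {H : Subgroup G}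
    (hH : IsPGroup p H) (n : ℕ) : ∀ (M : Fin (n + 1) → Subgroup G) (_ : M (Fin.last n) = ⊤)
    (_ : Monotone M) (hnormal : ∀ i, (M i).Normal)
    (_ : ∀ i : Fin n, (∃ m : ℕ, (M i.castSucc).relIndex (M i.succ) = p ^ m) ∨
      ((M i.castSucc).relIndex (M i.succ)).Coprime p),
    {x : G | cj x H ≤ (P : Subgroup G) ⊔ M 0}.ncard = Nat.card ((P : Subgroup G) ⊔ M 0 : Subgroup G) *
      ∏ i : Fin n, (if ((M i.castSucc).relIndex (M i.succ)).Coprime p then
        (M i.castSucc).relIndex (secCent H (M i.castSucc) (M i.succ)) else 1) := by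
  induction n with
  | zero =>
    intro M hn _ _ _
    have : M 0 = ⊤ := hn
    simp [this]
  | succ n ih =>
    intro M hn hmono hnormal hfac
    have h1 := ih (fun i => M i.succ) hn (fun i j hij => hmono (Fin.succ_le_succ_iff.2 hij))
      (fun i => hnormal _) (fun i => hfac i.succ)
    have hle : M 0 ≤ M (Fin.succ 0) := hmono (Fin.zero_le _)
    rw [Fin.prod_univ_succ]
    by_cases hc : ((M 0).relIndex (M (Fin.succ 0))).Coprime p
    · have h2 := ncard_cj_le_step' P hH hle hc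
      rw [h1, card_sylow_sup_of_coprime P.2 hle hc] at h2
      have h3 : 0 < (M 0).relIndex (M (Fin.succ 0)) :=
        Nat.pos_of_ne_zero (FiniteIndex.index_ne_zero)
      apply Nat.eq_of_mul_eq_mul_left h3
      rw [h2, Fin.castSucc_zero, if_pos hc]
      simp only [Fin.succ_castSucc]
      ring
    · obtain ⟨m, hm⟩ := (hfac 0).resolve_right hc
      rw [Fin.castSucc_zero, if_neg hc, one_mul, sylow_sup_eq_of_relIndex_pow P hle hm, h1]
      rfl

end H80
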