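import Mathlib
import Cfsg.Agent.S0016
import Cfsg.Agent.Lib.FGS.EqOrder
import Cfsg.Agent.Lib.Core.Hall
import Cfsg.Agent.Lib.Core.CoprimeAbelian
import Cfsg.Agent.Lib.LocEven.Basic

/-! TI-subgroups that are Hall subgroups of their normalizer. -/

set_option autoImplicit false
set_option linter.unusedSectionVars false
set_option linter.style.haveILetI false

namespace H80

open Subgroup H68 Cfsg

variable {G : Type*} [Group G] [Finite G] {H : Subgroup G}

theorem ti_mem_normalizer (hTI : IsTISubset (H : Set G)) {g x : G} (hx : x ∈ H) (h1 : x ≠ 1)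
    (h : g * x * g⁻¹ ∈ H) : g ∈ normalizer (H : Set G) := by
  by_contra hc
  exact h1 (hTI g hc x hx h)

theorem ti_normalizer_le (hTI : IsTISubset (H : Set G)) {T : Subgroup G} (hT : T ≤ H)
    (hne : T ≠ ⊥) : normalizer (T : Set G) ≤ normalizer (H : Set G) := by
  obtain ⟨⟨x, hx⟩, hx1⟩ := ne_bot_iff_exists_ne_one.1 hne
  intro g hg
  exact ti_mem_normalizer hTI (hT hx) (fun h => hx1 (Subtype.ext h))
    (hT (conj_mem_of_mem_normalizer hg hx))

theorem ti_centralizer_le (hTI : IsTISubset (H : Set G)) {x : G} (hx : x ∈ H) (h1 : x ≠ 1) :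
    centralizer ({x} : Set G) ≤ normalizer (H : Set G) := by
  intro g hg
  refine ti_mem_normalizer hTI hx h1 ?_
  have := mem_centralizer_singleton_iff.1 hg
  rw [this]; simpa using hx

theorem ti_sylowIn_top (hTI : IsTISubset (H : Set G))
    (hHall : (Nat.card H).Coprime (H.relIndex (normalizer (H : Set G)))) {p : ℕ} [hp : Fact p.Prime]
    (hd : p ∣ Nat.card H) {T : Subgroup G} (hT : SylowIn p T H) : SylowIn p T ⊤ := by
  apply sylowIn_of_sylowIn_normalizer
  rw [top_inf_eq]
  have h1 := ti_normalizer_le hTI hT.le (hT.ne_bot hd)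
  have h2 : SylowIn p T (normalizer (H : Set G)) := by
    refine sylowIn_of_not_dvd_relIndex hT.isPGroup (hT.le.trans le_normalizer) ?_
    rw [← relIndex_mul_relIndex T H _ hT.le le_normalizer, hp.out.dvd_mul]
    rintro (h | h)
    · exact hT.not_dvd_relIndex h
    · exact hp.out.one_lt.ne' (Nat.eq_one_of_dvd_coprimes hHall hd h)
  exact h2.mono le_normalizer h1

theorem ti_coprime_index (hTI : IsTISubset (H : Set G))
    (hHall : (Nat.card H).Coprime (H.relIndex (normalizer (H : Set G)))) :
    (Nat.card H).Coprime H.index := by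
  apply Nat.Coprime.symm
  apply Nat.coprime_of_dvd
  intro p hp h1 h2
  haveI := Fact.mk hp
  obtain ⟨T, hT⟩ := exists_sylowIn p H
  have h3 := (ti_sylowIn_top hTI hHall h2 hT).not_dvd_relIndex
  rw [relIndex_top_right] at h3
  exact h3 (h1.trans (index_dvd_of_le hT.le))

theorem ti_exists_normal_coprime (hTI : IsTISubset (H : Set G)) (hne : H ≠ ⊥)
    (hHall : (Nat.card H).Coprime (H.relIndex (normalizer (H : Set G))))
    (hsep : H3.IsPiSeparable {p | p ∣ Nat.card H} G) :
    ∃ M : Subgroup G, M.Normal ∧ (Nat.card M).Coprime (Nat.card H) ∧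
      M ⊔ normalizer (H : Set G) = ⊤ := by
  have hH := H3.isPiHall_of_coprime (ti_coprime_index hTI hHall)
  refine hsep.induction (P := fun M => (Nat.card M).Coprime (Nat.card H) →
    ∃ M : Subgroup G, M.Normal ∧ (Nat.card M).Coprime (Nat.card H) ∧
      M ⊔ normalizer (H : Set G) = ⊤) ?_ ?_ ⊥ inferInstance (by simp)
  · intro h
    exact absurd (eq_bot_of_card_eq _ (Nat.eq_one_of_dvd_coprimes h
      (card_dvd_of_le le_top) dvd_rfl)) hne
  · intro M L hM hL hML hor ih hc
    rcases hor with h | h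
    swap
    · apply ih
      rw [← H3.relIndex_mul_card hML.le]
      exact Nat.Coprime.mul_left (H3.piNum_compl_dvd_iff.1 h) hc
    refine ⟨M, hM, hc, ?_⟩
    obtain ⟨p, hp, hd⟩ := Nat.exists_prime_and_dvd
      (n := M.relIndex L) (fun h => hML.not_ge (relIndex_eq_one.1 h))
    haveI := Fact.mk hp
    have hpH : p ∣ Nat.card H := H3.piNum_iff.1 h p hp hd
    obtain ⟨T, hT⟩ := exists_sylowIn p H
    have hT' := (ti_sylowIn_top hTI hHall hpH hT).inf_of_normal_le (N := L)
      le_normalizer_of_normal le_top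
    have hne' : T ⊓ L ≠ ⊥ := hT'.ne_bot (hd.trans (relIndex_dvd_card _ _))
    have h1 := ti_normalizer_le hTI (inf_le_left.trans hT.le) hne'
    have h2 : L ≤ M ⊔ H := by
      have h3 := H3.isPiHallOf_iff.1 (H3.isPiHallOf_inf_normal hH L)
      have h4 : (M ⊔ H ⊓ L).relIndex L = 1 :=
        H3.PiNum.eq_one (h.of_dvd (relIndex_dvd_of_le_left _ le_sup_left))
          (h3.2.2.of_dvd (relIndex_dvd_of_le_left _ le_sup_right))
      exact (relIndex_eq_one.1 h4).trans (sup_le_sup_left inf_le_left _)
    rw [eq_top_iff]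
    intro g _
    obtain ⟨n, hn, x, hx, rfl⟩ := hT'.frattini (g := g) (le_normalizer_of_normal (mem_top g))
    exact mul_mem ((h2.trans (sup_le_sup_left le_normalizer _)) hn) (mem_sup_right (h1 hx))

theorem ti_isCyclic_of_comm (hTI : IsTISubset (H : Set G)) (hnn : ¬ H.Normal) {M : Subgroup G}
    [M.Normal] (hc : (Nat.card M).Coprime (Nat.card H)) (hM : M ⊔ normalizer (H : Set G) = ⊤)
    {A : Subgroup G} (hA : A ≤ H) (hcomm : IsMulCommutative A) : IsCyclic A := by
  by_contra hnc
  apply hnn
  have := H2.le_of_forall_centralizer_le (K := M) (M := normalizer (H : Set G)) hcomm hnc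
    le_normalizer_of_normal (hc.symm.coprime_dvd_left (card_dvd_of_le hA))
    (fun a ha h1 => inf_le_right.trans (ti_centralizer_le hTI (hA ha) h1))
  rw [← normalizer_eq_top_iff, ← hM]
  exact (sup_eq_right.2 this).symm

theorem isZGroup_of_forall_comm_isCyclic {K : Type*} [Group K] [Finite K]
    (h : ∀ A : Subgroup K, IsMulCommutative A → IsCyclic A)
    (h2 : ∀ P : Sylow 2 K, IsMulCommutative (P : Subgroup K)) : IsZGroup K := by
  refine ⟨fun p hp P => ?_⟩
  haveI := Fact.mk hp
  by_cases hp2 : p = 2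
  · subst hp2
    exact h _ (h2 P)
  · refine (Cfsg.Agent.S0016.result p P.isPGroup'
      (eq_of_forall_comm_isCyclic P.isPGroup' fun A hA => ?_)).resolve_right (fun h => hp2 h.1)
    have := h (A.map (P : Subgroup K).subtype) inferInstance
    exact isCyclic_of_surjective _
      (A.equivMapOfInjective _ (P : Subgroup K).subtype_injective).symm.surjective

end H80
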