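import Cfsg.Agent.Base
import Cfsg.Agent.Lib.BG3.ElemAb
import Cfsg.Agent.Lib.FGS.ClassSize
import Cfsg.Agent.Lib.Core.CoprimeAbelian
import Cfsg.Agent.Lib.Core.Fitting

/-!
Tools for groups whose automorphism group has three orbits.
-/

set_option autoImplicit false

namespace H78.ThreeOrbits

open Polynomial Subgroup

theorem exists_linearEquiv_of_card_eq {K V W : Type*} [Field K] [AddCommGroup V] [Module K V]
    [AddCommGroup W] [Module K W] [Finite V] [Finite W] (h : Nat.card V = Nat.card W) {v : V}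
    {w : W} (hv : v ≠ 0) (hw : w ≠ 0) : 
    ∃ β : V ≃+ W, (∀ (c : K) (u : V), β (c • u) = c • β u) ∧ β v = w := by
  haveI : Finite K := Finite.of_injective (fun c : K => c • v) (smul_left_injective K hv)
  rw [Module.natCard_eq_pow_finrank (K := K) (V := V),
    Module.natCard_eq_pow_finrank (K := K) (V := W)] at h
  let e : V ≃ₗ[K] W := LinearEquiv.ofFinrankEq V W
    (Nat.pow_right_injective (Finite.one_lt_card (α := K)) h)
  have h1 : e v ≠ 0 := by simpa using hv
  obtain ⟨g, hg⟩ := Submodule.exists_linearEquiv_restrict_eq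
    ((LinearEquiv.toSpanNonzeroSingleton K W (e v) h1).symm ≪≫ₗ
      LinearEquiv.toSpanNonzeroSingleton K W w hw)
  refine ⟨(e ≪≫ₗ g).toAddEquiv, (e ≪≫ₗ g).map_smul, ?_⟩
  have := hg (LinearEquiv.toSpanNonzeroSingleton K W (e v) h1 1)
  rw [LinearEquiv.trans_apply, LinearEquiv.symm_apply_apply] at this
  simpa using this.symm

theorem exists_intertwine {k V : Type*} [Field k] [AddCommGroup V] [Module k V] [Finite V]
    {f : k[X]} (hf : Irreducible f) (S T : Module.End k V) (hS : aeval S f = 0)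
    (hT : aeval T f = 0) {v w : V} (hv : v ≠ 0) (hw : w ≠ 0) :
    ∃ β : V ≃+ V, (∀ u, β (S u) = T (β u)) ∧ β v = w := by
  haveI := PrincipalIdealRing.isMaximal_of_irreducible hf
  letI := Ideal.Quotient.field (Ideal.span {f})
  have aux : ∀ U : Module.End k V, aeval U f = 0 → ∀ a ∈ Ideal.span {f},
      (aeval U : k[X] →ₐ[k] Module.End k V).toRingHom a = 0 := by
    intro U hU a ha
    obtain ⟨b, rfl⟩ := Ideal.mem_span_singleton'.mp ha
    simp [hU]
  let ρ : ∀ U : Module.End k V, aeval U f = 0 → (k[X] ⧸ Ideal.span {f} →+* Module.End k V) :=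
    fun U hU => Ideal.Quotient.lift _ _ (aux U hU)
  obtain ⟨β, hβ', hβ⟩ := @exists_linearEquiv_of_card_eq (k[X] ⧸ Ideal.span {f}) V V _ _
    (Module.compHom V (ρ S hS)) _ (Module.compHom V (ρ T hT)) _ _ rfl v w hv hw
  refine ⟨β, fun u => ?_, hβ⟩
  have := hβ' (Ideal.Quotient.mk _ X) u
  have e1 : ∀ U hU u, ρ U hU (Ideal.Quotient.mk _ X) u = U u := by
    intro U hU u
    simp [ρ]
  rw [← e1 S hS, ← e1 T hT]
  exact this

theorem exists_hom_of_isComplement' {G G' : Type*} [Group G] [Group G'] {N H : Subgroup G}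
    [N.Normal] (hc : N.IsComplement' H) (f : N →* G') (g : H →* G')
    (h : ∀ (y : H) (n : N), f (MulAut.conjNormal (y : G) n) = g y * f n * (g y)⁻¹) :
    ∃ φ : G →* G', (∀ n : N, φ n = f n) ∧ ∀ y : H, φ y = g y := by
  let e := SemidirectProduct.mulEquivSubgroup hc
  let ψ := SemidirectProduct.lift
    (φ := (N.normalizerMonoidHom).comp (inclusion (N.normalizer_eq_top ▸ le_top))) f g
    (fun y => MonoidHom.ext fun n => h y n)
  refine ⟨ψ.comp e.symm.toMonoidHom, fun n => ?_, fun y => ?_⟩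
  · have : e.symm n = SemidirectProduct.inl n := by
      rw [MulEquiv.symm_apply_eq]
      simp [e]
    simp [this, ψ]
  · have : e.symm y = SemidirectProduct.inr y := by
      rw [MulEquiv.symm_apply_eq]
      simp [e]
    simp [this, ψ]

theorem orderOf_unit {p q : ℕ} (h : p.Coprime q) :
    orderOf (ZMod.unitOfCoprime p h) = orderOf (p : ZMod q) := by
  rw [← orderOf_units, ZMod.coe_unitOfCoprime]

theorem aeval_cyclotomic_eq_zero {k V : Type*} [Field k] [AddCommGroup V] [Module k V] {q : ℕ}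
    [Fact q.Prime] {T : Module.End k V} (hT : T ^ q = 1) (hfix : ∀ v, T v = v → v = 0) :
    aeval T (cyclotomic q k) = 0 := by
  ext v
  apply hfix
  have h1 := congrArg (aeval T) (cyclotomic_prime_mul_X_sub_one k q)
  rw [mul_comm, map_mul] at h1
  simp only [map_sub, aeval_X, map_one, map_pow, hT, sub_self] at h1
  have h2 := LinearMap.congr_fun h1 v
  simpa [sub_eq_zero] using h2

/-- If every non-zero polynomial in `T` is injective and every `T ^ k` is conjugate to `T`, then
`p` is a primitive root modulo the order of `T`. -/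
theorem orderOf_eq {p q : ℕ} [hp : Fact p.Prime] [hq : Fact q.Prime] (hpq : p ≠ q) {V : Type*}
    [AddCommGroup V] [Module (ZMod p) V] [Finite V] [Nontrivial V] {T : Module.End (ZMod p) V}
    (hT : T ^ q = 1) (hfix : ∀ v, T v = v → v = 0)
    (hdom : ∀ (g : (ZMod p)[X]) (v : V), v ≠ 0 → aeval T g v = 0 → aeval T g = 0)
    (hconj : ∀ k, 0 < k → k < q → ∀ g : (ZMod p)[X], aeval T g = 0 → aeval (T ^ k) g = 0) :
    orderOf (p : ZMod q) = q - 1 := by
  classical
  have hcop : p.Coprime q := (Nat.coprime_primes hp.out hq.out).mpr hpq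
  have hint : IsIntegral (ZMod p) T := Algebra.IsIntegral.isIntegral T
  set f := minpoly (ZMod p) T with hf
  have hirr : Irreducible f := by
    refine ⟨minpoly.not_isUnit _ _, fun a b hab => ?_⟩
    have h0 : aeval T a * aeval T b = 0 := by rw [← map_mul, ← hab, minpoly.aeval]
    have hf0 : f ≠ 0 := minpoly.ne_zero hint
    obtain ⟨v, hv⟩ := exists_ne (0 : V)
    by_cases hb : aeval T b v = 0
    · left
      have h1 : f ∣ b := minpoly.dvd _ _ (hdom b v hv hb)
      rw [hab] at h1 hf0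
      exact isUnit_of_dvd_one ((mul_dvd_mul_iff_right (right_ne_zero_of_mul hf0)).mp
        (by rwa [one_mul]))
    · right
      have h1 : f ∣ a := minpoly.dvd _ _ (hdom a _ hb (LinearMap.congr_fun h0 v))
      rw [hab] at h1 hf0
      exact isUnit_of_dvd_one ((mul_dvd_mul_iff_left (left_ne_zero_of_mul hf0)).mp
        (by rwa [mul_one]))
  have hdvd : f ∣ cyclotomic q (ZMod p) := minpoly.dvd _ _ (aeval_cyclotomic_eq_zero hT hfix)
  have hdeg := natDegree_of_dvd_cyclotomic_of_irreducible (f := 1) (p := p) (by simp)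
    (by simpa using hcop) hdvd hirr
  have hdeg' : f.natDegree = orderOf (p : ZMod q) := by
    rw [hdeg, orderOf_unit, pow_one]
  haveI : Fact (Irreducible f) := ⟨hirr⟩
  have hroot : IsPrimitiveRoot (AdjoinRoot.root f) q := by
    haveI : NeZero (q : AdjoinRoot f) := by
      haveI : NeZero (q : ZMod p) := ⟨by
        rw [Ne, ZMod.natCast_eq_zero_iff]
        exact hp.out.coprime_iff_not_dvd.mp hcop⟩
      exact NeZero.of_faithfulSMul (ZMod p) _ q
    rw [← isRoot_cyclotomic_iff, ← map_cyclotomic q (algebraMap (ZMod p) (AdjoinRoot f)),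
      IsRoot.def, eval_map_algebraMap, AdjoinRoot.aeval_eq, AdjoinRoot.mk_eq_zero]
    exact hdvd
  have hle : q - 1 ≤ f.natDegree := by
    have h1 : (Finset.Ioo 0 q).image (fun k => AdjoinRoot.root f ^ k) ⊆
        (f.aroots (AdjoinRoot f)).toFinset := by
      intro x hx
      obtain ⟨k, hk, rfl⟩ := Finset.mem_image.mp hx
      rw [Finset.mem_Ioo] at hk
      rw [Multiset.mem_toFinset, mem_aroots]
      refine ⟨hirr.ne_zero, ?_⟩
      have h2 : f ∣ f.comp (X ^ k) := minpoly.dvd _ _ (by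
        rw [aeval_comp, map_pow, aeval_X]
        exact hconj k hk.1 hk.2 f (minpoly.aeval _ _))
      rw [← AdjoinRoot.mk_eq_zero, ← AdjoinRoot.aeval_eq, aeval_comp, map_pow, aeval_X] at h2
      exact h2
    have h2 := Finset.card_le_card h1
    rw [Finset.card_image_of_injOn, Nat.card_Ioo] at h2
    · exact h2.trans ((Multiset.toFinset_card_le _).trans ((card_roots' _).trans natDegree_map_le))
    · intro a ha b hb hab
      rw [Finset.coe_Ioo] at ha hb
      exact hroot.pow_inj ha.2 hb.2 hab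
  refine le_antisymm ?_ (hdeg' ▸ hle)
  rw [← orderOf_unit hcop, ← ZMod.card_units q]
  exact orderOf_le_card_univ

theorem semiconjBy_aeval {k R : Type*} [CommRing k] [Ring R] [Algebra k R] {A S T : R}
    (h : SemiconjBy A S T) (g : k[X]) : SemiconjBy A (aeval S g) (aeval T g) := by
  induction g using Polynomial.induction_on' with
  | add a b ha hb => rw [map_add, map_add]; exact ha.add_right hb
  | monomial n a =>
    rw [aeval_monomial, aeval_monomial]
    exact SemiconjBy.mul_right (Algebra.commutes a A).symm (h.pow_right n)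

theorem aeval_eq_zero_of_transitive {k V : Type*} [Field k] [AddCommGroup V] [Module k V]
    [Finite V] {T : Module.End k V}
    (h : ∀ v w : V, v ≠ 0 → w ≠ 0 → ∃ (A : Module.End k V) (j : ℕ), Function.Injective A ∧
      A v = w ∧ SemiconjBy A T (T ^ j)) (g : k[X]) (v : V) (hv : v ≠ 0) (hg : aeval T g v = 0) :
    aeval T g = 0 := by
  let M : V → Submodule k V := fun v =>
    LinearMap.range ((LinearMap.applyₗ v).comp (aeval T : k[X] →ₐ[k] Module.End k V).toLinearMap)
  have hM : ∀ v u, u ∈ M v ↔ ∃ f : k[X], aeval T f v = u := fun v u => Iff.rfl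
  have hself : ∀ v, v ∈ M v := fun v => (hM v v).mpr ⟨1, by simp⟩
  have hle : ∀ v u, u ∈ M v → M u ≤ M v := by
    intro v u hu w hw
    obtain ⟨a, rfl⟩ := (hM _ _).mp hu
    obtain ⟨b, rfl⟩ := (hM _ _).mp hw
    exact (hM _ _).mpr ⟨b * a, by rw [map_mul]; rfl⟩
  have hcard : ∀ v w, v ≠ 0 → w ≠ 0 → Nat.card (M v) ≤ Nat.card (M w) := by
    intro v w hv hw
    obtain ⟨A, j, hA, rfl, hs⟩ := h v w hv hw
    refine Nat.card_le_card_of_injective (fun u : M v => (⟨A u, ?_⟩ : M (A v))) ?_
    · obtain ⟨a, ha⟩ := (hM _ _).mp u.2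
      refine (hM _ _).mpr ⟨a.comp (X ^ j), ?_⟩
      rw [aeval_comp, map_pow, aeval_X, ← ha]
      exact (LinearMap.congr_fun (semiconjBy_aeval hs a).eq v).symm
    · intro a b hab
      exact Subtype.ext (hA (congrArg Subtype.val hab))
  have heq : ∀ v u, u ∈ M v → u ≠ 0 → M u = M v := by
    intro v u hu hu0
    have hv : v ≠ 0 := by
      rintro rfl
      obtain ⟨a, rfl⟩ := (hM _ _).mp hu
      exact hu0 (map_zero _)
    apply SetLike.coe_injective
    exact Set.eq_of_subset_of_ncard_le (hle v u hu) (hcard v u hv hu0)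
  ext w
  by_cases hw : w ∈ M v
  · obtain ⟨a, rfl⟩ := (hM _ _).mp hw
    rw [← Module.End.mul_apply, ← map_mul, mul_comm, map_mul, Module.End.mul_apply, hg, map_zero,
      LinearMap.zero_apply]
  · by_contra hne
    apply hw
    have h1 := heq w _ ((hM _ _).mpr ⟨g, rfl⟩) hne
    have h2 := heq (v + w) (aeval T g w) ((hM _ _).mpr ⟨g, by rw [map_add, hg, zero_add]⟩) hne
    have h3 : v ∈ M w := by
      have := sub_mem (h1 ▸ h2 ▸ hself (v + w) : v + w ∈ M w) (hself w)
      rwa [add_sub_cancel_right] at this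
    rw [heq w v h3 hv]
    exact hself w

variable {G : Type*} [Group G]

theorem isComplement'_zpowers [Finite G] {p q n : ℕ} (hp : p.Prime) (hq : q.Prime) (hpq : p ≠ q)
    {P : Subgroup G} (hP : Nat.card P = p ^ n) (hG : Nat.card G = p ^ n * q) {x : G}
    (hx : orderOf x = q) : P.IsComplement' (zpowers x) :=
  isComplement'_of_coprime (by rw [hP, Nat.card_zpowers, hx, hG])
    (by rw [hP, Nat.card_zpowers, hx]; exact ((Nat.coprime_primes hp hq).mpr hpq).pow_left n)

theorem rep_pow_eq_one {p q : ℕ} {P : Subgroup G} [P.Normal]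
    (hE : IsMulCommutative P ∧ ∀ x : P, x ^ p = 1) {x : G} (hx : orderOf x = q) :
    H46.EA.rep hE (MulAut.conjNormal x) ^ q = 1 := by
  rw [← map_pow, ← map_pow, ← hx, pow_orderOf_eq_one, map_one, map_one]

theorem rep_fix {p : ℕ} [Fact p.Prime] {P : Subgroup G} [P.Normal]
    (hE : IsMulCommutative P ∧ ∀ x : P, x ^ p = 1) {x : G}
    (hfix : ∀ y : G, orderOf y = p → x * y * x⁻¹ ≠ y) (v : H46.EA p P hE)
    (hv : H46.EA.rep hE (MulAut.conjNormal x) v = v) : v = 0 := by
  obtain ⟨y, rfl⟩ := (H46.EA.of hE).surjective v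
  by_contra hne
  refine hfix y ?_ (congrArg Subtype.val ((H46.EA.of hE).injective hv))
  rw [orderOf_coe]
  exact orderOf_eq_prime (hE.2 y) hne

theorem exists_mulAut [Finite G] {p q n : ℕ} [hp : Fact p.Prime] [hq : Fact q.Prime] (hpq : p ≠ q)
    {P : Subgroup G} [P.Normal] (hE : IsMulCommutative P ∧ ∀ x : P, x ^ p = 1)
    (hP : Nat.card P = p ^ n) (hG : Nat.card G = p ^ n * q) (hord : orderOf (p : ZMod q) = q - 1)
    (hfix : ∀ x y : G, orderOf x = q → orderOf y = p → x * y * x⁻¹ ≠ y) {x y : G} {v w : P}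
    (hx : orderOf x = q) (hy : orderOf y = q) (hv : v ≠ 1) (hw : w ≠ 1) :
    ∃ α : MulAut G, α x = y ∧ α v = w := by
  have hcop : p.Coprime q := (Nat.coprime_primes hp.out hq.out).mpr hpq
  have hirr : Irreducible (cyclotomic q (ZMod p)) :=
    ZMod.irreducible_of_dvd_cyclotomic_of_natDegree (hp.out.coprime_iff_not_dvd.mp hcop) dvd_rfl
      (by rw [natDegree_cyclotomic, Nat.totient_prime hq.out, orderOf_unit, hord])
  obtain ⟨β, hβ, hβv⟩ := exists_intertwine hirr _ _
    (aeval_cyclotomic_eq_zero (rep_pow_eq_one hE hx) (rep_fix hE (hfix x · hx)))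
    (aeval_cyclotomic_eq_zero (rep_pow_eq_one hE hy) (rep_fix hE (hfix y · hy)))
    (v := H46.EA.of hE v) (w := H46.EA.of hE w) hv hw
  let f : P →* G := P.subtype.comp
    { toFun := fun u => (H46.EA.of hE).symm (β (H46.EA.of hE u))
      map_one' := map_zero β
      map_mul' := fun a b => map_add β _ _ }
  have hf : ∀ u, f u = ((H46.EA.of hE).symm (β (H46.EA.of hE u)) : P) := fun u => rfl
  have hgen : ∀ z : zpowers x, z ∈ zpowers (⟨x, mem_zpowers x⟩ : zpowers x) := by
    rintro ⟨_, k, rfl⟩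
    exact ⟨k, rfl⟩
  have hdvd : orderOf y ∣ orderOf (⟨x, mem_zpowers x⟩ : zpowers x) := by
    rw [← orderOf_coe, hx, hy]
  obtain ⟨φ, h1, h2⟩ := exists_hom_of_isComplement'
    (isComplement'_zpowers hp.out hq.out hpq hP hG hx) f (monoidHomOfForallMemZpowers hgen hdvd)
    (by
      intro z
      obtain ⟨k, rfl⟩ := mem_powers_iff_mem_zpowers.mpr (hgen z)
      simp only [map_pow, monoidHomOfForallMemZpowers_apply_gen, SubmonoidClass.coe_pow]
      induction k with
      | zero => simp
      | succ k ih =>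
        intro u
        have e : ∀ u : P, f (MulAut.conjNormal x u) = y * f u * y⁻¹ := fun u =>
          congrArg Subtype.val ((H46.EA.of hE).symm.congr_arg (hβ (H46.EA.of hE u)))
        rw [pow_succ', MulAut.mul_apply, e, ih, pow_succ']
        group)
  have hφx : φ x = y := (h2 ⟨x, mem_zpowers x⟩).trans (monoidHomOfForallMemZpowers_apply_gen _ _)
  have hsurj : Function.Surjective φ := by
    rw [← MonoidHom.range_eq_top, eq_top_iff,
      ← (isComplement'_zpowers hp.out hq.out hpq hP hG hy).sup_eq_top, sup_le_iff, zpowers_le]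
    refine ⟨fun u hu => ⟨((H46.EA.of hE).symm (β.symm (H46.EA.of hE ⟨u, hu⟩)) : P), ?_⟩, x, hφx⟩
    rw [h1, hf]
    simp
  refine ⟨MulEquiv.ofBijective φ (Finite.surjective_iff_bijective.mp hsurj), hφx, ?_⟩
  rw [MulEquiv.ofBijective_apply, h1, hf, hβv]
  simp

theorem mk_eq_iff (x y : G) : (Quotient.mk _ x : MulAction.orbitRel.Quotient (MulAut G) G) =
    Quotient.mk _ y ↔ ∃ α : MulAut G, α y = x := by
  rw [Quotient.eq]
  rfl

theorem mk_ne {x y : G} (h : orderOf x ≠ orderOf y) :
    (Quotient.mk _ x : MulAction.orbitRel.Quotient (MulAut G) G) ≠ Quotient.mk _ y := by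
  rw [Ne, mk_eq_iff]
  rintro ⟨α, rfl⟩
  exact h (α.orderOf_eq y)

theorem forward [Finite G] {p q : ℕ} [hp : Fact p.Prime] [hq : Fact q.Prime] (hpq : p ≠ q)
    (hqd : q ∣ Nat.card G) (hord : ∀ g : G, orderOf g = 1 ∨ orderOf g = p ∨ orderOf g = q)
    (htr : ∀ g h : G, orderOf g = orderOf h → ∃ α : MulAut G, α g = h)
    {a b : ℕ} (hG : Nat.card G = p ^ a * q ^ b) (hne : Cfsg.pCore p G ≠ ⊥) :
    ∃ n : ℕ, 1 ≤ n ∧ Nat.card G = p ^ n * q ∧
      (∀ P : Sylow p G, (P : Subgroup G).Normal ∧ Cfsg.IsElementaryAbelian p (P : Subgroup G)) ∧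
      orderOf (p : ZMod q) = q - 1 ∧
      ∀ x y : G, orderOf x = q → orderOf y = p → x * y * x⁻¹ ≠ y := by
  have hcop : p.Coprime q := (Nat.coprime_primes hp.out hq.out).mpr hpq
  set P := Cfsg.pCore p G with hPdef
  have hPp : IsPGroup p P := H1.isPGroup_pCore
  have hpe : ∀ (S : Subgroup G), IsPGroup p S → ∀ g ∈ S, g = 1 ∨ orderOf g = p := by
    intro S hS g hg
    rcases hord g with e | e | e
    · exact Or.inl (orderOf_eq_one_iff.mp e)
    · exact Or.inr e
    · obtain ⟨k, hk⟩ := IsPGroup.iff_orderOf.mp hS ⟨g, hg⟩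
      rw [← orderOf_coe, e] at hk
      exact absurd ((Nat.prime_dvd_prime_iff_eq hq.out hp.out).mp
        (hq.out.dvd_of_dvd_pow hk.dvd)).symm hpq
  haveI : Nontrivial P := (nontrivial_iff_ne_bot P).mpr hne
  haveI := hPp.center_nontrivial
  obtain ⟨⟨z, hz⟩, hz1⟩ := exists_ne (1 : center P)
  have hz2 : orderOf (z : G) = p :=
    (hpe P hPp z z.2).resolve_left fun e => hz1 (Subtype.ext (Subtype.ext e))
  have hZ : ∀ g : G, orderOf g = p → g ∈ P ⊓ centralizer (P : Set G) := by
    intro g hg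
    obtain ⟨α, rfl⟩ := htr z g (hz2.trans hg.symm)
    refine (characteristic_iff_le_comap (H := P ⊓ centralizer (P : Set G))).mp inferInstance α
      (mem_inf.mpr ⟨z.2, ?_⟩)
    exact mem_centralizer_iff.mpr fun y hy => congrArg Subtype.val (mem_center_iff.mp hz ⟨y, hy⟩)
  have hZ' : ∀ (S : Subgroup G), IsPGroup p S → S ≤ P ⊓ centralizer (P : Set G) := by
    intro S hS g hg
    rcases hpe S hS g hg with rfl | e
    · exact one_mem _
    · exact hZ g e
  have hS : ∀ S : Sylow p G, (S : Subgroup G) = P := fun S =>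
    le_antisymm ((hZ' S S.isPGroup').trans inf_le_left) (H1.pCore_le_sylow S)
  have hE0 : Cfsg.IsElementaryAbelian p P := by
    refine ⟨le_centralizer_iff_isMulCommutative.mp ((hZ' P hPp).trans inf_le_right), ?_⟩
    intro g hg
    rcases hpe P hPp g hg with rfl | e
    · exact one_pow _
    · rw [← e, pow_orderOf_eq_one]
  have hE : IsMulCommutative P ∧ ∀ x : P, x ^ p = 1 := ⟨hE0.1, fun x => Subtype.ext (hE0.2 x x.2)⟩
  have hfix : ∀ x y : G, orderOf x = q → orderOf y = p → x * y * x⁻¹ ≠ y := by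
    intro x y hx hy e
    have hc : Commute x y := mul_inv_eq_iff_eq_mul.mp e
    have h1 := hc.orderOf_mul_eq_mul_orderOf_of_coprime (by rw [hx, hy]; exact hcop.symm)
    rw [hx, hy] at h1
    have := hp.out.two_le
    have := hq.out.two_le
    rcases hord (x * y) with e | e | e <;> rw [h1] at e <;> nlinarith
  have hP : Nat.card P = p ^ a := by
    obtain ⟨S⟩ : Nonempty (Sylow p G) := inferInstance
    rw [← hS S, S.card_eq_multiplicity, hG, Nat.factorization_mul (pow_ne_zero _ hp.out.ne_zero)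
      (pow_ne_zero _ hq.out.ne_zero), hp.out.factorization_pow, hq.out.factorization_pow]
    simp [hpq.symm]
  have hb : b = 1 := by
    rcases b with _ | _ | b
    · rw [hG, pow_zero, mul_one] at hqd
      exact absurd ((Nat.prime_dvd_prime_iff_eq hq.out hp.out).mp
        (hq.out.dvd_of_dvd_pow hqd)).symm hpq
    · rfl
    exfalso
    obtain ⟨A, hA⟩ := Sylow.exists_subgroup_card_pow_prime (G := G) q (n := 2)
      (hG ▸ Dvd.dvd.mul_left (pow_dvd_pow q (by omega)) _)
    have hA1 : ∀ g ∈ A, g ≠ 1 → orderOf g = q := by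
      intro g hg h1
      rcases hord g with e | e | e
      · exact absurd (orderOf_eq_one_iff.mp e) h1
      · have := orderOf_dvd_natCard A hg
        rw [hA, e] at this
        exact absurd ((Nat.prime_dvd_prime_iff_eq hp.out hq.out).mp
          (hp.out.dvd_of_dvd_pow this)) hpq
      · exact e
    obtain ⟨x, hx, hx1, hx2⟩ := H2.exists_inf_centralizer_ne_bot (A := A) (K := P)
      (IsPGroup.isMulCommutative_of_card_eq_prime_sq hA) (by
        intro hc
        obtain ⟨g, hg⟩ := hc.exists_ofOrder_eq_natCard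
        rw [hA, ← orderOf_coe] at hg
        have := hq.out.two_le
        by_cases h1 : (g : G) = 1
        · rw [h1, orderOf_one] at hg
          nlinarith
        · rw [hA1 g g.2 h1] at hg
          nlinarith) le_normalizer_of_normal
      (by rw [hA, hP]; exact hcop.symm.pow _ _) hne
    obtain ⟨⟨y, hy⟩, hy1⟩ := ne_bot_iff_exists_ne_one.mp hx2
    refine hfix x y (hA1 x hx hx1)
      ((hpe P hPp y hy.1).resolve_left fun e => hy1 (Subtype.ext e)) ?_
    exact mul_inv_eq_iff_eq_mul.mpr (H80.mem_Cx'.mp hy.2)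
  rw [hb, pow_one] at hG
  refine ⟨a, ?_, hG, fun S => (hS S).symm ▸ ⟨inferInstance, hE0⟩, ?_, hfix⟩
  · rcases a with _ | a
    · exact absurd (card_eq_one.mp hP) hne
    · omega
  obtain ⟨x, hx⟩ := exists_prime_orderOf_dvd_card' q hqd
  haveI : Nontrivial (H46.EA p P hE) := (H46.EA.of hE).symm.nontrivial
  have hA : ∀ α : MulAut G, ∃ A : Module.End (ZMod p) (H46.EA p P hE), Function.Bijective A ∧
      (∀ u v : P, α u = v → A (H46.EA.of hE u) = H46.EA.of hE v) ∧
      SemiconjBy A (H46.EA.rep hE (MulAut.conjNormal x))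
        (H46.EA.rep hE (MulAut.conjNormal (α x))) := by
    intro α
    let f : P →* P := (α.toMonoidHom.comp P.subtype).codRestrict P
      fun u => characteristic_iff_le_comap.mp inferInstance α u.2
    refine ⟨H46.EA.lin hE f, ?_, fun u v e => ?_, ?_⟩
    · rw [← Finite.injective_iff_bijective]
      intro u v e
      exact (H46.EA.of hE).symm.injective
        (Subtype.ext (α.injective (congrArg Subtype.val ((H46.EA.of hE).injective e))))
    · exact congrArg (H46.EA.of hE) (Subtype.ext e)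
    · ext u
      refine congrArg (H46.EA.of hE) (Subtype.ext ?_)
      change α (x * _ * x⁻¹) = α x * α _ * (α x)⁻¹
      rw [map_mul, map_mul, map_inv]
      rfl
  refine orderOf_eq hpq (rep_pow_eq_one hE hx) (rep_fix hE (hfix x · hx))
    (aeval_eq_zero_of_transitive fun v w hv hw => ?_) fun k hk0 hk g hg => ?_
  · obtain ⟨v, rfl⟩ := (H46.EA.of hE).surjective v
    obtain ⟨w, rfl⟩ := (H46.EA.of hE).surjective w
    obtain ⟨α, hα⟩ := htr v w (by
      rw [orderOf_coe, orderOf_coe, orderOf_eq_prime (hE.2 v) hv, orderOf_eq_prime (hE.2 w) hw])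
    obtain ⟨A, h1, h2, h3⟩ := hA α
    obtain ⟨⟨u, y⟩, hy⟩ := (isComplement'_zpowers hp.out hq.out hpq hP hG hx).2 (α x)
    obtain ⟨j, hj⟩ := mem_powers_iff_mem_zpowers.mpr y.2
    refine ⟨A, j, h1.1, h2 v w hα, ?_⟩
    have e : (MulAut.conjNormal (u : G) : MulAut P) = 1 := by
      ext t
      rw [MulAut.conjNormal_apply, MulAut.one_apply, mul_inv_eq_iff_eq_mul]
      exact congrArg Subtype.val (hE.1.is_comm.comm ⟨u, u.2⟩ t)
    simp only at hy hj
    rwa [← hy, map_mul, e, one_mul, ← hj, map_pow, map_pow] at h3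
  · obtain ⟨α, hα⟩ := htr x (x ^ k) (by
      rw [Nat.Coprime.orderOf_pow]
      rw [hx]
      exact (Nat.coprime_of_lt_prime hk0.ne' hk hq.out))
    obtain ⟨A, h1, -, h3⟩ := hA α
    rw [hα, map_pow, map_pow] at h3
    have h4 := (semiconjBy_aeval h3 g).eq
    rw [hg, mul_zero] at h4
    ext v
    obtain ⟨v, rfl⟩ := h1.2 v
    exact (LinearMap.congr_fun h4 v).symm

end H78.ThreeOrbits
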