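import Mathlib

/-! Two primes at distance at least 3 in `(m/2, m]`. -/

set_option autoImplicit false

namespace H80

open Nat

theorem centralBinom_le_of_few_primes (n : ℕ) (n_large : 2 < n) (t : ℕ)
    (few : ((Finset.range (2 * n + 1)).filter (fun p => p.Prime ∧ n < p)).card ≤ t) :
    centralBinom n ≤ (2 * n) ^ sqrt (2 * n) * 4 ^ (2 * n / 3) * (2 * n) ^ t := by
  have n_pos : 0 < n := (Nat.zero_le _).trans_lt n_large
  have n2_pos : 1 ≤ 2 * n := mul_pos (zero_lt_two' ℕ) n_pos
  let f x := x ^ n.centralBinom.factorization x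
  have hf : ∀ p, f p ≤ 2 * n := fun p => pow_factorization_choose_le (mul_pos two_pos n_pos)
  let T := (Finset.range (2 * n + 1)).filter (fun p => p.Prime ∧ n < p)
  let S := {p ∈ Finset.range (2 * n / 3 + 1) | Nat.Prime p}
  have h0 : centralBinom n = ∏ p ∈ S ∪ T, f p := by
    rw [← n.prod_pow_factorization_centralBinom]
    symm
    apply Finset.prod_subset
    · intro x hx
      rcases Finset.mem_union.1 hx with h | h
      · have := Finset.mem_range.1 (Finset.mem_filter.1 h).1
        exact Finset.mem_range.2 (by omega)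
      · exact (Finset.mem_filter.1 h).1
    · intro x hx h2x
      by_cases hp : x.Prime
      · have h1 : x ≤ n := by
          by_contra hc
          exact h2x (Finset.mem_union_right _ (Finset.mem_filter.2 ⟨hx, hp, by omega⟩))
        have h2 : 2 * n < 3 * x := by
          by_contra hc
          exact h2x (Finset.mem_union_left _ (Finset.mem_filter.2
            ⟨Finset.mem_range.2 (by omega), hp⟩))
        show x ^ _ = 1
        rw [factorization_centralBinom_of_two_mul_self_lt_three_mul n_large h1 h2, Nat.pow_zero]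
      · show x ^ _ = 1
        rw [factorization_eq_zero_of_not_prime n.centralBinom hp, Nat.pow_zero]
  have hd : Disjoint S T := by
    rw [Finset.disjoint_left]
    intro x hx hx'
    have h1 := Finset.mem_range.1 (Finset.mem_filter.1 hx).1
    have h2 := (Finset.mem_filter.1 hx').2.2
    omega
  rw [h0, Finset.prod_union hd]
  apply mul_le_mul'
  · rw [← Finset.prod_filter_mul_prod_filter_not S (· ≤ sqrt (2 * n))]
    apply mul_le_mul'
    · refine (Finset.prod_le_prod' fun p _ => (hf p)).trans ?_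
      have : (Finset.Icc 1 (sqrt (2 * n))).card = sqrt (2 * n) := by
        rw [card_Icc, Nat.add_sub_cancel]
      rw [Finset.prod_const]
      refine pow_right_mono₀ n2_pos ((Finset.card_le_card fun x hx => ?_).trans this.le)
      obtain ⟨h1, h2⟩ := Finset.mem_filter.1 hx
      exact Finset.mem_Icc.mpr ⟨(Finset.mem_filter.1 h1).2.one_lt.le, h2⟩
    · refine le_trans ?_ (primorial_le_four_pow (2 * n / 3))
      refine (Finset.prod_le_prod' fun p hp => (?_ : f p ≤ p)).trans ?_
      · obtain ⟨h1, h2⟩ := Finset.mem_filter.1 hp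
        refine (pow_right_mono₀ (Finset.mem_filter.1 h1).2.one_lt.le ?_).trans (pow_one p).le
        exact Nat.factorization_choose_le_one (sqrt_lt'.mp <| not_le.1 h2)
      refine Finset.prod_le_prod_of_subset_of_one_le' (Finset.filter_subset _ _) ?_
      exact fun p hp _ => (Finset.mem_filter.1 hp).2.one_lt.le
  · refine (Finset.prod_le_prod' fun p _ => (hf p)).trans ?_
    rw [Finset.prod_const]
    exact pow_right_mono₀ n2_pos few

theorem seven_mul_le_two_pow (k : ℕ) (hk : 6 ≤ k) : 7 * (k + 1) ≤ 2 ^ k := by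
  induction k, hk using Nat.le_induction with
  | base => norm_num
  | succ k hk ih => rw [pow_succ]; omega

theorem few_primes_ineq (n : ℕ) (hn : 2048 ≤ n) :
    n * ((2 * n) ^ sqrt (2 * n) * 4 ^ (2 * n / 3) * (2 * n) ^ 3) ≤ 4 ^ n := by
  set s := sqrt (2 * n) with hs
  have hs1 : s * s ≤ 2 * n := Nat.sqrt_le _
  have hs2 : 2 * n < (s + 1) * (s + 1) := Nat.lt_succ_sqrt _
  have hs64 : 64 ≤ s := by
    rw [hs, Nat.le_sqrt]; omega
  set k := Nat.log 2 s with hk
  have hk1 : 2 ^ k ≤ s := Nat.pow_log_le_self 2 (by omega)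
  have hk2 : s < 2 ^ (k + 1) := Nat.lt_pow_succ_log_self (by norm_num) _
  have hk6 : 6 ≤ k := by
    rw [hk]
    exact (Nat.le_log_iff_pow_le (by norm_num) (by omega)).2 (by omega)
  have hk7 := seven_mul_le_two_pow k hk6
  have h2n : 2 * n ≤ 4 ^ (k + 1) := by
    have : (s + 1) * (s + 1) ≤ 2 ^ (k + 1) * 2 ^ (k + 1) := Nat.mul_le_mul hk2 hk2
    rw [← mul_pow] at this
    exact hs2.le.trans this
  have hexp : (k + 1) * (s + 4) + 2 * n / 3 ≤ n := by
    have h1 : 7 * (k + 1) ≤ s := hk7.trans hk1
    have h2 : 6 * (s + 4) ≤ 7 * s := by omega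
    have h3 : 42 * ((k + 1) * (s + 4)) ≤ 7 * (s * s) := by
      calc 42 * ((k + 1) * (s + 4)) = (7 * (k + 1)) * (6 * (s + 4)) := by ring
        _ ≤ s * (7 * s) := Nat.mul_le_mul h1 h2
        _ = 7 * (s * s) := by ring
    omega
  calc n * ((2 * n) ^ s * 4 ^ (2 * n / 3) * (2 * n) ^ 3)
      ≤ (2 * n) * ((2 * n) ^ s * 4 ^ (2 * n / 3) * (2 * n) ^ 3) :=
        Nat.mul_le_mul_right _ (by omega)
    _ = (2 * n) ^ (s + 4) * 4 ^ (2 * n / 3) := by ring
    _ ≤ (4 ^ (k + 1)) ^ (s + 4) * 4 ^ (2 * n / 3) :=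
        Nat.mul_le_mul_right _ (Nat.pow_le_pow_left h2n _)
    _ = 4 ^ ((k + 1) * (s + 4) + 2 * n / 3) := by rw [← pow_mul, ← pow_add]
    _ ≤ 4 ^ n := Nat.pow_le_pow_right (by norm_num) hexp

theorem exists_two_primes_large (n : ℕ) (hn : 2048 ≤ n) :
    ∃ p q : ℕ, p.Prime ∧ q.Prime ∧ n < p ∧ p + 3 ≤ q ∧ q ≤ 2 * n := by
  by_contra hc
  push Not at hc
  have h1 : 4 ^ n < n * n.centralBinom := Nat.four_pow_lt_mul_centralBinom n (by omega)
  have few : ((Finset.range (2 * n + 1)).filter (fun p => p.Prime ∧ n < p)).card ≤ 3 := by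
    set T := (Finset.range (2 * n + 1)).filter (fun p => p.Prime ∧ n < p) with hT
    rcases T.eq_empty_or_nonempty with h | h
    · simp [h]
    · have hm := T.min'_mem h
      have : T ⊆ Finset.Icc (T.min' h) (T.min' h + 2) := by
        intro x hx
        refine Finset.mem_Icc.2 ⟨T.min'_le x hx, ?_⟩
        by_contra hx'
        have h2 := Finset.mem_filter.1 hm
        have h3 := Finset.mem_filter.1 hx
        have := hc _ x h2.2.1 h3.2.1 h2.2.2 (by omega)
        have := Finset.mem_range.1 h3.1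
        omega
      refine (Finset.card_le_card this).trans ?_
      rw [Nat.card_Icc]; omega
  have h2 := centralBinom_le_of_few_primes n (by omega) 3 few
  have h3 := few_primes_ineq n hn
  have := Nat.mul_le_mul_left n h2
  omega

/-- For `m ≥ 17` there are primes `m/2 < p`, `p + 3 ≤ q ≤ m`. -/
theorem exists_two_primes (m : ℕ) (hm : 17 ≤ m) :
    ∃ p q : ℕ, p.Prime ∧ q.Prime ∧ m < 2 * p ∧ p + 3 ≤ q ∧ q ≤ m := by
  by_cases h1 : m < 26
  · exact ⟨13, 17, by norm_num, by norm_num, by omega, by omega, by omega⟩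
  by_cases h2 : m < 38
  · exact ⟨19, 23, by norm_num, by norm_num, by omega, by omega, by omega⟩
  by_cases h3 : m < 62
  · exact ⟨31, 37, by norm_num, by norm_num, by omega, by omega, by omega⟩
  by_cases h4 : m < 106
  · exact ⟨53, 59, by norm_num, by norm_num, by omega, by omega, by omega⟩
  by_cases h5 : m < 194
  · exact ⟨97, 101, by norm_num, by norm_num, by omega, by omega, by omega⟩
  by_cases h6 : m < 362
  · exact ⟨181, 191, by norm_num, by norm_num, by omega, by omega, by omega⟩
  by_cases h7 : m < 698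
  · exact ⟨349, 353, by norm_num, by norm_num, by omega, by omega, by omega⟩
  by_cases h8 : m < 1366
  · exact ⟨683, 691, by norm_num, by norm_num, by omega, by omega, by omega⟩
  by_cases h9 : m < 2654
  · exact ⟨1327, 1361, by norm_num, by norm_num, by omega, by omega, by omega⟩
  by_cases h10 : m < 5266
  · exact ⟨2633, 2647, by norm_num, by norm_num, by omega, by omega, by omega⟩
  obtain ⟨p, q, hp, hq, h, h', h''⟩ := exists_two_primes_large (m / 2) (by omega)
  exact ⟨p, q, hp, hq, by omega, h', by omega⟩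

end H80
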