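import Mathlib
import Cfsg.Agent.Base
import Cfsg.Agent.Lib.FGS.HHWeight2
import Cfsg.Agent.Lib.FGS.FpfGross
import Cfsg.Agent.Lib.Wielandt.FixPoint

/-! Fixed-point-free elementary abelian groups of automorphisms of order `p ^ 2`. -/

set_option autoImplicit false

namespace H76

open Polynomial Module Subgroup Cfsg H46
open scoped commutatorElement

universe u

variable {F : Type*} [Field F] {V : Type*} [AddCommGroup V] [Module F V] {G : Type*} [Group G]

theorem mem_of_pow_mem_of_ne_one {p : ℕ} [hp : Fact p.Prime] {a c : G} (ha : a ^ p = 1)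
    (hc : c ∈ zpowers a) (hc1 : c ≠ 1) {M : Subgroup G} (hM : c ∈ M) : a ∈ M := by
  obtain ⟨i, rfl⟩ := (isOfFinOrder_iff_pow_eq_one.2 ⟨p, hp.out.pos, ha⟩).mem_powers_iff_mem_zpowers.2
    hc
  refine mem_of_pow_mem_of_coprime (a := i) (b := p) (((Nat.Prime.coprime_iff_not_dvd hp.out).2
    ?_).symm) hM (ha ▸ one_mem _)
  rintro ⟨k, rfl⟩
  exact hc1 (by simp only [pow_mul, ha, one_pow])

theorem le_of_mem_of_card_eq_sq {p : ℕ} [hp : Fact p.Prime] {A : Subgroup G}
    (hA : Nat.card A = p ^ 2) {a b : G} (ha : a ∈ A) (ha1 : a ≠ 1) (hap : a ^ p = 1) (hb : b ∈ A)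
    (hba : b ∉ zpowers a) {M : Subgroup G} (haM : a ∈ M) (hbM : b ∈ M) : A ≤ M := by
  have : Finite A := Nat.finite_of_card_ne_zero (hA ▸ pow_ne_zero _ hp.out.ne_zero)
  have : Finite (A ⊓ M :) := H68.finite_of_le (inf_le_left : A ⊓ M ≤ A)
  obtain ⟨i, hi, h⟩ := (Nat.dvd_prime_pow hp.out).1
    (hA ▸ card_dvd_of_le (inf_le_left : A ⊓ M ≤ A))
  have h1 : zpowers a ≤ A ⊓ M := zpowers_le.2 ⟨ha, haM⟩
  by_cases h2 : i = 2
  · exact inf_eq_left.1 (eq_of_le_of_card_ge inf_le_left (by rw [h, hA, h2]))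
  refine absurd ?_ hba
  rw [eq_of_le_of_card_ge h1 (by
    rw [h, Nat.card_zpowers, orderOf_eq_prime hap ha1]
    exact (Nat.pow_le_pow_right hp.out.pos (by omega)).trans (pow_one p).le)]
  exact ⟨hb, hbM⟩

theorem end_pow_apply_of_fix {u : End F V} {w : V} (h : u w = w) (n : ℕ) : (u ^ n) w = w := by
  induction n with
  | zero => rfl
  | succ n ih => rw [pow_succ, End.mul_apply, h, ih]

theorem sq_lt_three_pow (n : ℕ) : n ^ 2 < 3 ^ n := by
  induction n with
  | zero => norm_num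
  | succ n ih =>
    rcases n with _ | _ | n
    · norm_num
    · norm_num
    · rw [pow_succ 3]
      nlinarith

variable {ρ : G →* End F V} {Q : Subgroup G} [Fintype Q] {lam : G → F}

variable (ρ Q lam) in
/-- The representation of the stabilizer of a weight on the weight space. -/
noncomputable def wsrep : wstab Q lam →* End F (wsp ρ Q lam) :=
  restrictRep (ρ.comp (wstab Q lam).subtype) _ fun x _ => apply_mem_wsp x.2

theorem wsrep_geom_sum {n : ℕ} {b : wstab Q lam} (hb : b ^ n = 1)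
    (h : ∀ w ∈ wsp ρ Q lam, ρ b w = w → w = 0) :
    ∑ i ∈ Finset.range n, wsrep ρ Q lam b ^ i = 0 :=
  geom_sum_eq_zero_of_fixed _ hb fun w hw => Subtype.ext (h w w.2 (congrArg Subtype.val hw))

variable [hcl : ClassTwo Q]

theorem wact_special_prime [IsAlgClosed F] [FiniteDimensional F V]
    (hQ : (Fintype.card Q : F) ≠ 0) (h0 : wsp ρ Q lam ≠ ⊥) {p : ℕ} [hp : Fact p.Prime]
    (hpQ : p.Coprime (Nat.card Q)) {b : wstab Q lam} (hb : b ^ p = 1)
    (h : ∀ w ∈ wsp ρ Q lam, ρ b w = w → w = 0) :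
    wact ρ Q lam b = 1 ∨ Special (wact ρ Q lam b) p := by
  have := wact_special (ρ := ρ) (k := 0) hQ h0 hpQ b (by
    rw [zero_add, pow_one, ← map_pow, hb, map_one])
    (geom_poly_ne_zero hp.out.ne_zero) (fun v hv => by
      rw [← coe_aeval_restrict (fun _ => apply_mem_wsp b.2) _ ⟨v, hv⟩, aeval_geom_poly]
      exact congrArg Subtype.val (LinearMap.congr_fun (wsrep_geom_sum hb h) ⟨v, hv⟩))
    (by simpa using natDegree_geom_poly_lt hp.out.ne_zero)
  simpa using this.imp id And.left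

theorem exists_wS_ne_one (hQ : (Fintype.card Q : F) ≠ 0) (hnt : ¬ Q ≤ wker ρ Q lam)
    {R : Subgroup G} (hR : R ≤ wstab Q lam) (hQR : Q ≤ ⁅Q, R⁆) : ∃ s : wS ρ Q lam, s ≠ 1 := by
  by_contra! h
  exact hnt (hQR.trans ((commutator_mono (fun g hg => (coe_mem_wZ (g := ⟨g, hg⟩)).2 (h _))
    le_rfl).trans (commutator_wZ_le hQ hR)))

theorem ward_case_one [IsAlgClosed F] [FiniteDimensional F V] [Finite G]
    (hQ : (Fintype.card Q : F) ≠ 0) (h0 : wsp ρ Q lam ≠ ⊥) (hnt : ¬ Q ≤ wker ρ Q lam)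
    {p s : ℕ} [hp : Fact p.Prime] [hs : Fact s.Prime] (hps : p ≠ s) (hpQ : p.Coprime (Nat.card Q))
    (hsQ : (Nat.card Q).Coprime s) {R : Subgroup G} (hR : IsPGroup s R) (hRs : R ≤ wstab Q lam)
    (hQR : Q ≤ ⁅Q, R⁆) (hCR : Q ⊓ centralizer (R : Set G) ≤ wZ ρ Q lam) {a : G}
    (ha : a ∈ wstab Q lam) (hap : a ^ p = 1) (hRa : R ≤ centralizer {a})
    (hCa : Q ⊓ centralizer {a} ≤ wZ ρ Q lam) (hfix : ∀ w ∈ wsp ρ Q lam, ρ a w = w → w = 0) :
    False := by
  obtain ⟨s₀, hs₀⟩ := exists_wS_ne_one hQ hnt hRs hQR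
  set φ := wact ρ Q lam with hφ
  let a' : wstab Q lam := ⟨a, ha⟩
  have hap' : a' ^ p = 1 := Subtype.ext hap
  have h1 : ∀ t, φ a' t = t → t = 1 := fun t ht => eq_one_of_wact_fixed (zpowers_le.2 ha)
    (hpQ.coprime_dvd_left (by rw [Nat.card_zpowers]; exact orderOf_dvd_of_pow_eq_one hap))
    (H2.isSolvable_zpowers a) (by rwa [H2.centralizer_zpowers]) fun c hc => by
      obtain ⟨i, rfl⟩ := mem_powers_iff_mem_zpowers.2 hc
      exact (MulEquiv.congr_fun (map_pow φ a' i) t).trans (pow_apply_of_fix ht i)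
  have ha1 : φ a' ≠ 1 := fun h => hs₀ (h1 _ (by rw [h]; rfl))
  have hsp := (wact_special_prime hQ h0 hpQ hap' hfix).resolve_left ha1
  have hU : cU (φ a') = ⊤ := eq_top_iff.2 fun t _ => by
    obtain ⟨w, -, hw⟩ := exists_dHom_eq (U := ⊤) (fun _ _ => mem_top _) (fun u _ => h1 u)
      (mem_top t)
    exact ⟨w, hw⟩
  obtain ⟨y, hy, hy1⟩ : ∃ y, ∃ hy : y ∈ R, φ ⟨y, hRs hy⟩ ≠ 1 := by
    by_contra! h
    exact hs₀ (eq_one_of_wact_fixed hRs (H1.coprime_card_of_isPGroup_of_coprime hR hsQ)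
      (H1.isSolvable_of_isPGroup hR) hCR fun t ht => by rw [← hφ, h t ht]; rfl)
  obtain ⟨x, hx, hxs⟩ : ∃ x : wstab Q lam, (x : G) ∈ R ∧ orderOf (φ x) = s := by
    obtain ⟨e, he⟩ := IsPGroup.iff_orderOf.1 (isPGroup_map_subgroupOf hR φ)
      ⟨φ ⟨y, hRs hy⟩, _, hy, rfl⟩
    rw [← Subgroup.orderOf_coe] at he
    obtain ⟨e, rfl⟩ : ∃ k, e = k + 1 := ⟨e - 1, by
      rcases e with _ | e
      · exact absurd (orderOf_eq_one_iff.1 he) hy1
      · rfl⟩
    refine ⟨⟨y, hRs hy⟩ ^ s ^ e, pow_mem hy _, ?_⟩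
    rw [map_pow, orderOf_pow, he, Nat.gcd_eq_right (pow_dvd_pow s e.le_succ), pow_succ,
      Nat.mul_div_cancel_left _ (pow_pos hs.out.pos e)]
  have hxa : Commute x a' := Subtype.ext (mem_centralizer_singleton_iff.1 (hRa hx))
  have hord : orderOf (φ (x * a')) = s * p := by
    rw [map_mul, (hxa.map φ).orderOf_mul_eq_mul_orderOf_of_coprime, hxs,
      orderOf_eq_prime hsp.pow ha1]
    rw [hxs, orderOf_eq_prime hsp.pow ha1]
    exact (Nat.coprime_primes hs.out hp.out).2 hps.symm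
  have hfree : ∀ j, 0 < j → j < s * p → ∀ t, (φ (x * a') ^ j) t = t → t = 1 := by
    intro j hj hjs t ht
    have hc : Commute (φ (x * a') ^ j) (φ a') := ((hxa.mul_left (Commute.refl a')).map φ).pow_left j
    rcases hsp.irreducible (U := (dHom (φ (x * a') ^ j)).ker) (hU ▸ le_top) (fun u hu =>
      dHom_eq_one.2 (by rw [← MulAut.mul_apply, hc.eq, MulAut.mul_apply, dHom_eq_one.1 hu]))
      with h | h
    · exact mem_bot.1 (h ▸ dHom_eq_one.2 ht)
    · refine absurd (MulEquiv.ext fun u => dHom_eq_one.1 ?_)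
        (pow_ne_one_of_lt_orderOf hj.ne' (hord ▸ hjs))
      rw [← MonoidHom.mem_ker, h, hU]
      exact mem_top _
  have hxs' : ⁅Q, zpowers ((x ^ s : wstab Q lam) : G)⁆ ≤ wker ρ Q lam := by
    have h2 : zpowers ((x ^ s : wstab Q lam) : G) ≤ wstab Q lam := zpowers_le.2 (x ^ s).2
    rw [← H2.commutator_commutator_eq (h2.trans wstab_le) (H2.coprime_of_le_left
      (H1.coprime_card_of_isPGroup_of_coprime hR hsQ) (zpowers_le.2 (pow_mem hx s)))]
    refine (commutator_mono ?_ le_rfl).trans (commutator_wZ_le hQ h2)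
    rw [commutator_comm, commutator_le]
    rintro _ ⟨i, rfl⟩
    exact (wact_eq_one_iff ((x ^ s) ^ i)).1 (by
      rw [map_zpow, map_pow, ← hφ, ← hxs, pow_orderOf_eq_one, one_zpow])
  have : Nontrivial (wsp ρ Q lam) := Submodule.nontrivial_iff_ne_bot.2 h0
  have h3 := hh_free_eigen (wrep ρ Q lam) hQ hcl.comm (homog_wrep hQ) (conjAut Q (x * a').2.1)
    (u := wsrep ρ Q lam (x * a')) (y := wsrep ρ Q lam (x ^ s)) (w := wsrep ρ Q lam (a' ^ s))
    (isUnit_rep _ _) (wres_mul_wrep (x * a').2) hs.out.two_le hp.out.pos (fun g => by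
      ext v
      have := hxs' (commutator_mem_commutator g.2 (mem_zpowers _)) _
        (apply_mem_wsp (x ^ s).2 (apply_mem_wsp_of_mem' g.2 v.2))
      rw [← End.mul_apply, ← End.mul_apply, ← map_mul, ← map_mul, commutatorElement_def] at this
      simp only [mul_assoc, inv_mul_cancel, mul_one] at this
      rw [map_mul] at this
      exact this.symm)
    ((((Commute.refl x).mul_right hxa).pow_left s).map _) ((hxa.pow_pow s s).map _)
    (by rw [← map_pow, hxa.mul_pow, map_mul]) (wsrep_geom_sum (by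
      rw [← pow_mul, mul_comm, pow_mul, hap', one_pow]) fun w hw h => hfix w hw (by
      obtain ⟨m, hm⟩ := exists_pow_eq_self_of_coprime (x := a) (n := s)
        (((Nat.coprime_primes hs.out hp.out).2 hps.symm).coprime_dvd_right
          (orderOf_dvd_of_pow_eq_one hap))
      rw [← hm, map_pow]
      exact end_pow_apply_of_fix h m)) (fun j hj hjs g hg => by
      rw [← ker_wπ, MonoidHom.mem_ker] at hg ⊢
      refine hfree j hj hjs _ ?_
      rw [map_mul, map_inv, inv_mul_eq_one] at hg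
      rw [pow_apply_map _ (wact_wπ (x * a')), ← hg])
  obtain ⟨g, rfl⟩ := wπ_surjective s₀
  exact hs₀ (ker_wπ.ge (h3 ▸ mem_top g))

theorem ward_case_two [IsAlgClosed F] [FiniteDimensional F V] [Finite G]
    (hQ : (Fintype.card Q : F) ≠ 0) (h0 : wsp ρ Q lam ≠ ⊥) (hnt : ¬ Q ≤ wker ρ Q lam)
    {p s : ℕ} [hp : Fact p.Prime] [hs : Fact s.Prime] (hps : p ≠ s) (hpQ : p.Coprime (Nat.card Q))
    (hsQ : (Nat.card Q).Coprime s) {R : Subgroup G} (hR : IsPGroup s R) (hRs : R ≤ wstab Q lam)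
    (hQR : Q ≤ ⁅Q, R⁆) (hCR : Q ⊓ centralizer (R : Set G) ≤ wZ ρ Q lam) {b : G}
    (hb : b ∈ wstab Q lam) (hbp : b ^ p = 1) (hbR : b ∈ normalizer (R : Set G))
    (hRb : R ⊓ centralizer {b} = ⊥) (hfix : ∀ w ∈ wsp ρ Q lam, ρ b w = w → w = 0) : False := by
  obtain ⟨s₀, hs₀⟩ := exists_wS_ne_one hQ hnt hRs hQR
  set φ := wact ρ Q lam with hφ
  let b' : wstab Q lam := ⟨b, hb⟩
  have hbp' : b' ^ p = 1 := Subtype.ext hbp
  have h1 : ∀ t, (∀ x (hx : x ∈ R), φ ⟨x, hRs hx⟩ t = t) → t = 1 := fun t ht =>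
    eq_one_of_wact_fixed hRs (H1.coprime_card_of_isPGroup_of_coprime hR hsQ)
      (H1.isSolvable_of_isPGroup hR) hCR ht
  have hb1 : φ b' ≠ 1 := fun h => hs₀ (h1 _ fun y hy => by
    obtain ⟨x, hx, rfl⟩ := H2.exists_commutator_eq_of_fpf hbR hRb hy
    have : φ (⟨x, hRs hx⟩ * b' * ⟨x, hRs hx⟩⁻¹ * b'⁻¹) = 1 := by simp [h]
    exact MulEquiv.congr_fun this s₀)
  have hsp := (wact_special_prime hQ h0 hpQ hbp' hfix).resolve_left hb1
  have hob : Nat.card (zpowers b') = p := by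
    rw [Nat.card_zpowers, orderOf_eq_prime hbp' fun h => hb1 (by rw [h, map_one])]
  let R' := R.subgroupOf (wstab Q lam)
  have hR' : IsPGroup s R' := H68.isPGroup_subgroupOf hR _
  have hn : H2.sdR φ (zpowers b') ≤ normalizer (H2.sdR φ R' : Set _) := by
    rw [H2.sdR, MonoidHom.map_zpowers, zpowers_le]
    refine mem_normalizer_fintype ?_
    rintro _ ⟨x, hx, rfl⟩
    exact ⟨b' * x * b'⁻¹, H68.conj_mem_of_mem_normalizer (H := R) hbR hx, by simp⟩
  have hcop : (Nat.card (H2.sdR φ (zpowers b'))).Coprime (Nat.card (H2.sdR φ R')) := by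
    rw [H2.card_sdR, H2.card_sdR]
    exact H2.coprime_card_of_isPGroup (hob ▸ (Nat.coprime_primes hp.out hs.out).2 hps) hR'
  have hd := H2.inf_eq_bot_of_coprime_card hcop
  have hW := H53.Wielandt.frobenius_card_eq (H2.sdR φ R') (H2.sdR φ (zpowers b')) (H2.sdL φ ⊤)
    (by rw [inf_comm, hd]) (fun e he u hu => H68.conj_mem_of_mem_normalizer (hn he) hu) (by
      rintro _ ⟨e, he, rfl⟩ he1 _ ⟨x, hx, rfl⟩ h
      rw [← map_mul, ← map_mul] at h
      have h2 : b' ∈ centralizer {x} := mem_of_pow_mem_of_ne_one hbp' he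
        (fun h => he1 (by rw [h, map_one]))
        (mem_centralizer_singleton_iff.2 (SemidirectProduct.inr_injective h))
      have h3 : (x : G) ∈ R ⊓ centralizer {b} := ⟨hx, mem_centralizer_singleton_iff.2
        (congrArg Subtype.val (mem_centralizer_singleton_iff.1 h2)).symm⟩
      rw [hRb] at h3
      rw [show x = 1 from Subtype.ext h3, map_one])
    (sup_le (H2.sdR_le_normalizer_top _) (H2.sdR_le_normalizer_top _))
    (H1.isSolvable_map inferInstance _) (by
      rw [H2.card_sup_of_le_normalizer hn hd, H2.card_sdL, card_top, H2.card_sdR, H2.card_sdR, hob]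
      rw [H2.card_subgroupOf_of_le hRs]
      exact ((H2.coprime_card_of_isPGroup hsQ hR).mul_right hpQ.symm).coprime_dvd_left
        card_wS_dvd) (by
      rw [← H2.sdL_inf_fixSub, Subgroup.map_eq_bot_iff_of_injective _
        SemidirectProduct.inl_injective, eq_bot_iff]
      exact fun t ht => h1 t fun x hx => ht.2 ⟨x, hRs hx⟩ hx)
  have h2 : ⊤ ⊓ H2.fixSub φ (zpowers b') = (dHom (φ b')).ker := by
    ext t
    rw [top_inf_eq, MonoidHom.mem_ker, dHom_eq_one, H2.mem_fixSub]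
    refine ⟨fun h => h _ (mem_zpowers _), fun h c hc => ?_⟩
    obtain ⟨i, rfl⟩ := mem_powers_iff_mem_zpowers.2 hc
    exact (MulEquiv.congr_fun (map_pow φ b' i) t).trans (pow_apply_of_fix h i)
  rw [← H2.sdL_inf_fixSub, H2.card_sdL, H2.card_sdL, H2.card_sdR, hob, card_top, h2,
    ← (dHom (φ b')).ker.index_mul_card, index_ker] at hW
  have h3 : Nat.card (dHom (φ b')).ker = 2 := by
    have h4 : Nat.card (dHom (φ b')).range = (p - 1) ^ 2 := hsp.card
    have h5 := hsp.three_le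
    have h6 : 0 < Nat.card (dHom (φ b')).ker := Nat.card_pos
    rw [h4] at hW
    generalize Nat.card (dHom (φ b')).ker = c at hW h6
    obtain ⟨n, rfl⟩ : ∃ n, p = n + 1 := ⟨p - 1, by omega⟩
    rw [pow_succ c, Nat.add_sub_cancel, Nat.mul_left_inj h6.ne'] at hW
    rcases c with _ | _ | _ | c
    · omega
    · rw [zero_add, one_pow, pow_eq_one_iff] at hW
      omega
    · rfl
    · exact absurd ((Nat.pow_le_pow_left (by omega) n).trans hW.ge) (sq_lt_three_pow n).not_ge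
  obtain ⟨w, hw1, hw⟩ := (Nat.card_eq_two_iff' (1 : (dHom (φ b')).ker)).1 h3
  obtain ⟨c, hc⟩ := wπ_surjective (w : wS ρ Q lam)
  refine hw1 (Subtype.ext (hc ▸ ker_wπ.ge fun g => ?_))
  obtain ⟨u, hu, w', hw', h⟩ := exists_mul_fix (hpQ.coprime_dvd_right card_wS_dvd) hsp.pow
    (wπ ρ Q lam g)
  obtain ⟨y, rfl⟩ := wπ_surjective u
  have h4 := (homog_wrep hQ).comm_of_mem_cU hcl.comm (conjAut Q hb.1) (isUnit_wres hb)
    (wres_mul_wrep hb) (wπ ρ Q lam) wπ_surjective ker_wπ (wact_wπ b') (c := c)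
    (hc ▸ dHom_eq_one.1 w.2) hu
  have h5 : ∀ z, wπ ρ Q lam z = 1 → wrep ρ Q lam z * wrep ρ Q lam c =
      wrep ρ Q lam c * wrep ρ Q lam z := fun z hz => (ker_wπ.le hz c).symm
  by_cases h6 : w' = 1
  · rw [← mul_inv_cancel_left y g, map_mul, mul_assoc, h5 _ (by simp [h, h6]), ← mul_assoc, h4,
      mul_assoc]
  · have h7 : w' = w := congrArg Subtype.val
      (hw ⟨w', dHom_eq_one.2 hw'⟩ fun h => h6 (congrArg Subtype.val h))
    have h8 : g = y * (c * (c⁻¹ * (y⁻¹ * g))) := by group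
    rw [h8, map_mul, map_mul, mul_assoc, mul_assoc, h5 _ (by simp [h, h7, hc]), ← mul_assoc, h4,
      mul_assoc]

omit [Fintype Q] hcl in
theorem ward_core [IsAlgClosed F] [FiniteDimensional F V] [Finite G] (ρ : G →* End F V)
    {p q s : ℕ} [hp : Fact p.Prime] [hq : Fact q.Prime] [hs : Fact s.Prime] (hpF : (p : F) ≠ 0)
    (hqF : (q : F) ≠ 0) (hpq : p ≠ q) (hps : p ≠ s) (hqs : q ≠ s) {A R : Subgroup G}
    (hA : IsElementaryAbelian p A) (hAc : Nat.card A = p ^ 2) (hR : IsPGroup s R)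
    (hAR : A ≤ normalizer (R : Set G)) {a : G} (ha : a ∈ A) (ha1 : a ≠ 1)
    (hRa : R ≤ centralizer {a}) (hRA : R ⊓ centralizer (A : Set G) = ⊥)
    (hQA : Q ⊓ centralizer (A : Set G) = ⊥) (hM : H47.MinAct q (R ⊔ A) R Q)
    (hf : ∀ g ∈ Q, ρ g = 1 → g = 1) (hfix : ∀ w : V, (∀ a ∈ A, ρ a w = w) → w = 0) : False := by
  have hAp : IsPGroup p A := IsPGroup.iff_card.2 ⟨2, hAc⟩
  have hcomm : ∀ b ∈ A, ∀ c ∈ A, b * c = c * b := fun b hb c hc =>
    congrArg Subtype.val (hA.1.is_comm.comm ⟨b, hb⟩ ⟨c, hc⟩)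
  have hC : ∀ b ∈ A, b ∉ zpowers a → ∀ g ∈ centralizer {a}, g ∈ centralizer {b} →
      g ∈ centralizer (A : Set G) := fun b hb hba g h1 h2 c hc =>
    mem_centralizer_singleton_iff.1 (le_of_mem_of_card_eq_sq hAc ha ha1 (hA.2 a ha) hb hba
      (M := centralizer {g}) (mem_centralizer_singleton_iff.2
        (mem_centralizer_singleton_iff.1 h1).symm) (mem_centralizer_singleton_iff.2
        (mem_centralizer_singleton_iff.1 h2).symm) hc)
  have hRb : ∀ b ∈ A, b ∉ zpowers a → R ⊓ centralizer {b} = ⊥ := fun b hb hba =>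
    eq_bot_iff.2 fun g hg => hRA.le ⟨hg.1, hC b hb hba g (hRa hg.1) hg.2⟩
  have hRQ : R ≤ normalizer (Q : Set G) := le_sup_left.trans hM.hBP
  have hAQ : A ≤ normalizer (Q : Set G) := le_sup_right.trans hM.hBP
  obtain ⟨e, he⟩ := IsPGroup.iff_card.1 hM.pgrp
  have hpQ : p.Coprime (Nat.card Q) :=
    he ▸ ((Nat.coprime_primes hp.out hq.out).2 hpq).pow_right e
  have hsQ : (Nat.card Q).Coprime s :=
    he ▸ ((Nat.coprime_primes hq.out hs.out).2 hqs).pow_left e
  have hCa : Q ⊓ centralizer {a} < Q := by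
    refine lt_of_le_of_ne inf_le_left fun h => hM.nontriv ?_
    obtain ⟨d, hd, hda⟩ : ∃ d ∈ A, d ∉ zpowers a := by
      by_contra! h1
      have := card_le_of_le (show A ≤ zpowers a from h1)
      rw [hAc, Nat.card_zpowers, orderOf_eq_prime (hA.2 a ha) ha1] at this
      nlinarith [hp.out.two_le]
    have hdA := zpowers_le.2 hd
    rw [commutator_comm, commutator_eq_bot_iff_le_centralizer]
    refine H2.le_centralizer_of_frobenius_action_pGroup (hdA.trans hAR) (fun c hc hc1 =>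
      hRb c (hdA hc) fun h1 => hda (mem_of_pow_mem_of_ne_one (hA.2 d hd) hc hc1 h1)) hM.pgrp hRQ
      (hdA.trans hAQ) (H1.coprime_card_of_isPGroup_of_coprime hR hsQ)
      (H1.coprime_card_of_isPGroup_of_coprime (hAp.to_le hdA) hpQ.symm) ?_
    rw [H2.centralizer_zpowers]
    exact eq_bot_iff.2 fun g hg => hQA.le ⟨hg.1, hC d hd hda g (h.ge hg.1).2 hg.2⟩
  have hCn : R ⊔ A ≤ normalizer ((Q ⊓ centralizer {a} : Subgroup G) : Set G) :=
    H2.le_normalizer_inf hM.hBP ((sup_le hRa fun c hc =>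
      mem_centralizer_singleton_iff.2 (hcomm c hc a ha)).trans le_normalizer)
  have : ClassTwo Q := ⟨fun a b c => Subtype.ext
    (hM.commutator_le_center (commutator_mem_commutator a.2 b.2) c c.2).symm⟩
  let _ := Fintype.ofFinite Q
  have hQF : (Fintype.card Q : F) ≠ 0 := by
    rw [← Nat.card_eq_fintype_card, he, Nat.cast_pow]
    exact pow_ne_zero _ hqF
  obtain ⟨⟨g, hg⟩, hg1⟩ := ne_bot_iff_exists_ne_one.1 hM.ne_bot
  obtain ⟨lam, v, hv, hgv⟩ := exists_wsp (ρ := ρ) hQF hg fun h => hg1 (Subtype.ext (hf g hg h))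
  have hnt : ¬ Q ≤ wker ρ Q lam := fun h => hgv (h hg v hv)
  have hv0 : v ≠ 0 := fun h => hgv (by rw [h, map_zero])
  have h0 : wsp ρ Q lam ≠ ⊥ := (Submodule.ne_bot_iff _).2 ⟨v, hv, hv0⟩
  have hAs : ¬ A ≤ wstab Q lam := fun h => hnt (le_wker_of_wZ_le (by
    rw [← H2.commutator_sup_centralizer (h.trans wstab_le_normalizer_wZ) (H2.coprime_of_le_right
      (H1.coprime_card_of_isPGroup_of_coprime hAp hpQ.symm) wZ_le)
      (Or.inl (H1.isSolvable_of_isPGroup hAp))]
    exact sup_le (commutator_wZ_le hQF h)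
      (((inf_le_inf_right _ wZ_le).trans hQA.le).trans bot_le)))
  have hAF : (Nat.card A : F) ≠ 0 := by rw [hAc, Nat.cast_pow]; exact pow_ne_zero _ hpF
  have hex : ∀ x ∈ normalizer (Q : Set G), ∃ c ∈ A, c ≠ 1 ∧ x * c * x⁻¹ ∈ wstab Q lam := by
    intro x hx
    by_contra! h
    refine hv0 (eq_zero_of_fixed_wstab hAF hAQ hfix hx hv fun c hc hc' => ?_)
    rw [not_imp_comm.1 (h c hc) (not_not.2 hc'), mul_one, mul_inv_cancel, map_one, End.one_apply]
  have hzp : ∀ b ∈ A, b ≠ 1 → b ∈ wstab Q lam → ∀ c ∈ A, c ∈ wstab Q lam → c ∈ zpowers b :=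
    fun b hb hb1 hbs c hc hcs => by_contra fun h =>
      hAs (le_of_mem_of_card_eq_sq hAc hb hb1 (hA.2 b hb) hc h hbs hcs)
  have hfx : ∀ b ∈ A, b ≠ 1 → b ∈ wstab Q lam → ∀ w ∈ wsp ρ Q lam, ρ b w = w → w = 0 :=
    fun b hb hb1 hbs w hw h => eq_zero_of_fixed_wstab hAF hAQ hfix (one_mem _) hw fun c hc hcs => by
      simp only [one_mul, inv_one, mul_one] at hcs ⊢
      obtain ⟨i, rfl⟩ := mem_powers_iff_mem_zpowers.2 (hzp b hb hb1 hbs c hc hcs)
      exact (LinearMap.congr_fun (map_pow ρ b i) w).trans (end_pow_apply_of_fix h i)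
  have hCR : Q ⊓ centralizer (R : Set G) ≤ wZ ρ Q lam := hM.inf_centralizer_le.trans commutator_le_wZ
  by_cases has : a ∈ wstab Q lam
  · refine ward_case_one hQF h0 hnt hps hpQ hsQ hR (fun x hx => ?_) hM.commutator_eq.ge hCR has
      (hA.2 a ha) hRa ((hM.le_commutator hCa hCn).trans commutator_le_wZ) (hfx a ha ha1 has)
    have h1 := le_centralizer_iff.1 hM.commutator_le_centralizer hx
    refine mem_wstab_of_scalar hQF h0 (hRQ hx) h1 fun g hg => ?_
    have hxZ : x ∈ normalizer (wZ ρ Q lam : Set G) := mem_normalizer_wZ (hRQ hx) fun a ha b hb h => by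
      rwa [← h1 _ (commutator_mem_commutator ha hb), mul_inv_cancel_right]
    have h2 : zpowers a ≤ wstab Q lam := zpowers_le.2 has
    obtain ⟨c, hc, n, hn, rfl⟩ := H2.exists_centralizer_mul_commutator
      (h2.trans wstab_le_normalizer_wZ) (H2.coprime_of_le_left (H2.coprime_of_le_right
      (H1.coprime_card_of_isPGroup_of_coprime hAp hpQ.symm) wZ_le) (zpowers_le.2 ha))
      (Or.inl (H2.isSolvable_zpowers a)) hg
    have h3 : Commute x c := hM.le_centralizer hCa hCn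
      ⟨wZ_le hc.1, by simpa [H2.centralizer_zpowers] using hc.2⟩ x hx
    have h4 : ⁅x, n⁆ ∈ ⁅wZ ρ Q lam, zpowers a⁆ := by
      rw [← commutatorElement_inv]
      exact inv_mem (commutator_mem_of_le_normalizer hn
        (H68.normalizer_inf_le_normalizer_commutator _ _ ⟨hxZ, centralizer_le_normalizer _
          (by rw [H2.centralizer_zpowers]; exact hRa hx)⟩))
    rw [commutatorElement_mul_right_eq_mul_conj, h3.commutator_eq, one_mul]
    exact H68.conj_mem_of_mem_normalizer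
      (wstab_le_normalizer_wker (mem_wstab_of_mem h0 (wZ_le hc.1))) (commutator_wZ_le hQF h2 h4)
  obtain ⟨b, hb, hb1, hbs⟩ := hex 1 (one_mem _)
  rw [one_mul, inv_one, mul_one] at hbs
  have hba : b ∉ zpowers a := fun h => has (mem_of_pow_mem_of_ne_one (hA.2 a ha) h hb1 hbs)
  refine ward_case_two hQF h0 hnt hps hpQ hsQ hR (fun y hy => ?_) hM.commutator_eq.ge hCR hbs
    (hA.2 b hb) (hAR hb) (hRb b hb hba) (hfx b hb hb1 hbs)
  obtain ⟨x, hx, rfl⟩ := H2.exists_commutator_eq_of_fpf (hAR hb) (hRb b hb hba) hy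
  refine mul_mem ?_ (inv_mem hbs)
  obtain ⟨c, hc, hc1, hcs⟩ := hex x (hRQ hx)
  obtain ⟨a', ha', b', hb', rfl⟩ := (H68.mem_sup_of_le_normalizer (H := zpowers a) (N := zpowers b)
    (zpowers_le.2 (centralizer_le_normalizer _ fun c hc =>
      hcomm c (zpowers_le.2 hb hc) a ha))).1 (le_of_mem_of_card_eq_sq hAc ha ha1 (hA.2 a ha) hb hba
      (mem_sup_left (mem_zpowers a)) (mem_sup_right (mem_zpowers b)) hc)
  have h1 : ∀ z ∈ R, Commute a' z := fun z hz => by
    obtain ⟨i, rfl⟩ := ha'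
    exact Commute.zpow_left (mem_centralizer_singleton_iff.1 (hRa hz)).symm i
  have h2 : ⁅x, b'⁆ ∈ R := commutator_mem_of_le_normalizer hx (hAR (zpowers_le.2 hb hb'))
  have h3 : a' * ⁅x, b'⁆ ∈ wstab Q lam := by
    have := mul_mem hcs (inv_mem (zpowers_le.2 hbs hb'))
    rwa [← mul_assoc x, ← (h1 x hx).eq, mul_assoc a', mul_assoc a', mul_assoc a'] at this
  obtain ⟨l, hl⟩ := H68.isPGroup_iff_forall.1 hR _ h2
  have h4 := pow_mem h3 (s ^ l)
  rw [(h1 _ h2).mul_pow, hl, mul_one] at h4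
  have h5 : a' = 1 := by_contra fun h => has (mem_of_pow_mem_of_ne_one (hA.2 a ha) ha' h
    (mem_of_pow_mem_of_coprime (((Nat.coprime_primes hs.out hp.out).2 hps.symm).pow_left l) h4
      (by rw [hA.2 a' (zpowers_le.2 ha ha')]; exact one_mem _)))
  rw [h5, one_mul] at hcs hc1
  exact mem_of_pow_mem_of_ne_one (M := (wstab Q lam).comap (MulAut.conj x).toMonoidHom)
    (hA.2 b hb) hb' hc1 hcs

omit [Fintype Q] hcl in
theorem le_fitting_of_forall_sylowIn [Finite G] [Group.IsSolvable G] {X : Subgroup G} [X.Normal]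
    (h : ∀ (q s : ℕ) [Fact q.Prime] [Fact s.Prime], q ≠ s →
      ∃ R, H68.SylowIn s R X ∧ R ≤ centralizer (pCore q G : Set G)) : X ≤ fittingSubgroup G := by
  refine le_fitting_of_forall_centralizer_pCore fun q hq y hy hyq => ?_
  have : Fact q.Prime := ⟨hq⟩
  refine H2.le_of_forall_sylowIn_le (K := zpowers y) (fun s hs => ?_) (mem_zpowers y)
  have : Fact s.Prime := ⟨hs⟩
  obtain ⟨T, hT⟩ := H68.exists_sylowIn s (zpowers y)
  refine ⟨T, hT, ?_⟩
  rcases eq_or_ne q s with rfl | hqs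
  · rw [H68.eq_bot_of_isPGroup_of_not_dvd hT.isPGroup hT.le (by
      rw [Nat.card_zpowers]
      exact hq.coprime_iff_not_dvd.1 hyq.symm)]
    exact bot_le
  obtain ⟨R, hR, h1⟩ := h q s hqs
  obtain ⟨g, -, hg⟩ := hR.exists_le_cj hT.isPGroup (hT.le.trans (zpowers_le.2 hy))
  exact hg.trans ((H68.cj_mono g h1).trans (H68.cj_eq_of_normal g _).le)

omit [Fintype Q] hcl in
theorem le_fitting_ward [IsAlgClosed F] [FiniteDimensional F V] [Finite G] [Group.IsSolvable G]
    {p r : ℕ} [hp : Fact p.Prime] [hr : Fact r.Prime] [CharP F r] (hrp : r ≠ p)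
    (hO : pCore r G = ⊥) (ρ : G →* End F V) (hρ : Function.Injective ρ) {N A : Subgroup G}
    [N.Normal] (hN : (Nat.card N).Coprime p) (hNp : RelP p N ⊤) (hA : IsElementaryAbelian p A)
    (hAc : Nat.card A = p ^ 2) (hfpf : N ⊓ centralizer (A : Set G) = ⊥)
    (hfix : ∀ w : V, (∀ a ∈ A, ρ a w = w) → w = 0) : N ≤ fittingSubgroup G := by
  have hAp : IsPGroup p A := IsPGroup.iff_card.2 ⟨2, hAc⟩
  have hcop := H1.coprime_card_of_isPGroup_of_coprime hAp hN
  refine le_fitting_of_forall_sylowIn fun q s hq hs hqs => ?_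
  obtain ⟨R₀, hR₀, hAR₀⟩ := H2.exists_invariant_sylowIn le_normalizer_of_normal hcop
    (Or.inr inferInstance) s
  refine ⟨R₀, hR₀, ?_⟩
  rcases eq_or_ne q r with rfl | hqr
  · rw [hO, le_centralizer_iff]
    exact bot_le
  rcases eq_or_ne q p with rfl | hqp
  · rw [← commutator_eq_bot_iff_le_centralizer, eq_bot_iff, ← H2.inf_eq_bot_of_coprime_card
      (H1.coprime_card_of_isPGroup_of_coprime H1.isPGroup_pCore hN), inf_comm]
    exact (commutator_mono hR₀.le le_rfl).trans (commutator_le_inf _ _)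
  rcases eq_or_ne p s with rfl | hps
  · rw [H68.eq_bot_of_isPGroup_of_not_dvd hR₀.isPGroup hR₀.le
      (hp.out.coprime_iff_not_dvd.1 hN.symm)]
    exact bot_le
  refine H2.le_of_forall_centralizer_le hA.1 (fun hc => ?_) hAR₀
    (H2.coprime_of_le_right hcop hR₀.le) fun a ha ha1 => by_contra fun hcon => ?_
  · obtain ⟨x, hx⟩ := (Subgroup.isCyclic_iff_exists_zpowers_eq_top A).1 hc
    have := Nat.le_of_dvd hp.out.pos
      (orderOf_dvd_of_pow_eq_one (hA.2 x (hx ▸ mem_zpowers x)))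
    rw [← Nat.card_zpowers, hx, hAc] at this
    nlinarith [hp.out.two_le]
  have hR : IsPGroup s (R₀ ⊓ centralizer {a} :) := hR₀.isPGroup.to_inf_left
  have hAR : A ≤ normalizer ((R₀ ⊓ centralizer {a} : Subgroup G) : Set G) :=
    H2.le_normalizer_inf hAR₀ (le_trans (fun c hc => mem_centralizer_singleton_iff.2
      (congrArg Subtype.val (hA.1.is_comm.comm ⟨c, hc⟩ ⟨a, ha⟩))) le_normalizer)
  obtain ⟨e, he⟩ := IsPGroup.iff_card.1 hR
  obtain ⟨Q, hQ, hM⟩ := H47.exists_minAct (p := q) (B := (R₀ ⊓ centralizer {a}) ⊔ A)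
    H1.isPGroup_pCore le_normalizer_of_normal le_sup_left (sup_le le_normalizer hAR)
    (he ▸ ((Nat.coprime_primes hs.out hq.out).2 hqs.symm).pow_left e)
    (by rwa [Ne, commutator_comm, commutator_eq_bot_iff_le_centralizer])
  exact ward_core ρ (cast_ne_zero_of_coprime ((Nat.coprime_primes hp.out hr.out).2 hrp.symm))
    (cast_ne_zero_of_coprime ((Nat.coprime_primes hq.out hr.out).2 hqr)) hqp.symm hps hqs hA hAc
    hR hAR ha ha1 inf_le_right
    (eq_bot_iff.2 ((inf_le_inf_right _ (inf_le_left.trans hR₀.le)).trans hfpf.le))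
    (eq_bot_iff.2 ((inf_le_inf_right _
      (hQ.trans (pCore_le_of_isPGroup_quotient hqp hNp))).trans hfpf.le)) hM
    (fun g _ h => hρ (h.trans ρ.map_one.symm)) hfix

omit [Fintype Q] hcl in
theorem lowerCentralSeries_le_fitting_ward {G : Type u} [Group G] [Finite G] [Group.IsSolvable G]
    {p : ℕ} [hp : Fact p.Prime] {N A : Subgroup G} [N.Normal] (hN : (Nat.card N).Coprime p)
    (hNp : RelP p N ⊤) (hA : IsElementaryAbelian p A) (hAc : Nat.card A = p ^ 2)
    (hfpf : N ⊓ centralizer (A : Set G) = ⊥) : ∃ k, N.lowerCentralSeries k ≤ fittingSubgroup G := by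
  have hAp : IsPGroup p A := IsPGroup.iff_card.2 ⟨2, hAc⟩
  refine exists_lowerCentralSeries_le_fitting fun r hr => ?_
  have : Fact r.Prime := ⟨hr⟩
  rcases eq_or_ne r p with rfl | hrp
  · exact ⟨0, (H1.le_pPrimeCore hN).trans H23.pPrimeCore_le_pPrimePCore⟩
  obtain ⟨Y, _, _, φ, W, _, _, _, ρ, h1, h2, h3, h4, h5⟩ := exists_linear_fpf hrp hN hNp hAp hfpf
  have := Group.isSolvable_of_surjective h1
  have := (inferInstance : N.Normal).map φ h1
  rw [← h2]
  refine exists_lowerCentralSeries_le_ker _ (H1.isNilpotent_of_le_fitting ?_)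
  have hN' : (Nat.card (N.map φ)).Coprime p := hN.coprime_dvd_left (card_map_dvd _ _)
  have hNp' : RelP p (N.map φ) ⊤ := map_top_of_surjective φ h1 ▸ hNp.map φ
  have h6 := H2.map_inf_centralizer_of_coprime (A := A) (K := N) le_normalizer_of_normal
    (H1.coprime_card_of_isPGroup_of_coprime hAp hN) (Or.inr inferInstance) φ
  rw [hfpf, Subgroup.map_bot] at h6
  have hA' : IsElementaryAbelian p (A.map φ) := ⟨by have := hA.1; infer_instance, by
    rintro _ ⟨a, ha, rfl⟩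
    rw [← map_pow, hA.2 a ha, map_one]⟩
  obtain ⟨i, hi, h7⟩ := (Nat.dvd_prime_pow hp.out).1 (hAc ▸ card_map_dvd A φ)
  by_cases h8 : i = 2
  · exact le_fitting_ward hrp h3 ρ h4 hN' hNp' hA' (h8 ▸ h7) h6.symm fun w hw =>
      h5 w fun a ha => hw _ (mem_map_of_mem φ ha)
  obtain ⟨x, hx⟩ := (Subgroup.isCyclic_iff_exists_zpowers_eq_top (A.map φ)).1
    (isCyclic_of_card_dvd_prime (p := p) (by
      rw [h7]
      exact (pow_dvd_pow p (show i ≤ 1 by omega)).trans (pow_one p).dvd))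
  rw [← hx, H2.centralizer_zpowers] at h6
  have h9 := commutator_le_fitting_of_fpf hN' hNp' (x := x) (hx ▸ hAp.map φ) (n := 0) (by
    rw [zero_add, pow_one, hA'.2 x (hx ▸ mem_zpowers x)]
    exact one_mem _) h6.symm (Or.inr zero_le_one)
  rw [pow_zero, pow_one] at h9
  exact (H2.le_commutator_of_fpf (mem_zpowers x) (le_normalizer_of_normal (mem_top x))
    h6.symm).trans h9

omit [Fintype Q] hcl in
theorem fitLE_two_ward {G : Type u} [Group G] [Finite G] (hG : Group.IsSolvable G) {p : ℕ}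
    [hp : Fact p.Prime] (A : Subgroup (MulAut G)) (hA : IsElementaryAbelian p A)
    (hcard : Nat.card A = p ^ 2) (hfpf : ∀ g : G, (∀ a ∈ A, a g = g) → g = 1) : FitLE 2 G := by
  have hAp : IsPGroup p A := IsPGroup.iff_card.2 ⟨2, hcard⟩
  let φ : A →* MulAut G := A.subtype
  have : Group.IsSolvable (G ⋊[φ] A) :=
    isSolvable_semidirect φ hG (H1.isSolvable_of_isPGroup hAp)
  have hN : (H2.sdL φ ⊤).Normal := by rw [sdL_top_eq_ker]; infer_instance
  obtain ⟨k, hk⟩ := lowerCentralSeries_le_fitting_ward (p := p) (N := H2.sdL φ ⊤)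
    (A := H2.sdR φ ⊤) (by
      rw [H2.card_sdL, card_top]
      exact coprime_card_of_fixed hAp hfpf) (by
      rw [sdL_top_eq_ker, relP_ker_iff]
      exact hAp.to_subgroup _) ⟨by have := hA.1; infer_instance, by
      rintro _ ⟨a, -, rfl⟩
      rw [← map_pow, show a ^ p = 1 from Subtype.ext (hA.2 a a.2), map_one]⟩
    (by rw [H2.card_sdR, card_top, hcard]) (by
      rw [← H2.sdL_inf_fixSub, Subgroup.map_eq_bot_iff_of_injective _
        SemidirectProduct.inl_injective, eq_bot_iff]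
      exact fun g hg => hfpf g fun a ha => hg.2 ⟨a, ha⟩ (mem_top _))
  have h1 := isNilpotent_map_of_le_ker (M := ⊤) (QuotientGroup.mk' (fittingSubgroup G)) (k := k) (by
    intro g hg
    rw [QuotientGroup.ker_mk']
    apply mem_fitting_of_injective (SemidirectProduct.inl_injective (φ := φ))
    apply hk
    rw [← map_lowerCentralSeries]
    exact mem_map_of_mem _ hg)
  rw [map_top_of_surjective _ (QuotientGroup.mk'_surjective _)] at h1
  exact fitLE_two_iff.2 (Group.isNilpotent_top.1 h1)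

end H76
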